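import Cfsg.Agent.H24.Nat4
import Cfsg.Agent.H3.Alperin
import Cfsg.Agent.H1.Coprime

/-! Abelian Sylow `2`-intersections: essential subgroups and fusion. -/

set_option autoImplicit false

namespace Cfsg.Agent.H24.AI

open Subgroup
open scoped commutatorElement Pointwise

variable {G : Type*} [Group G] {S E B P M : Subgroup G} {a g n r : G}

local instance : Fact (Nat.Prime 2) := ⟨Nat.prime_two⟩

structure Hy (S : Subgroup G) : Prop where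
  syl : SylIn 2 S ⊤
  uq : ∀ P : Subgroup G, ∀ g, P ≤ S → cj P g ≤ S → ¬ P ≤ 𝐂[P] → g ∈ 𝐍[S]

def XX (S E : Subgroup G) : Subgroup G := (𝐍[S] ⊓ 𝐍[E]) ⊔ 𝐂[E]

def LL (S E : Subgroup G) : Subgroup G := ncl (S ⊓ 𝐍[E]) 𝐍[E] ⊔ 𝐂[E]

structure Ess (S E : Subgroup G) : Prop where
  le : E ≤ S
  ab : E ≤ 𝐂[E]
  sc : S ⊓ 𝐂[E] ≤ E
  fn : SylIn 2 (S ⊓ 𝐍[E]) 𝐍[E]
  ne : ¬ 𝐍[E] ≤ XX S E

theorem cj_LL (hn : n ∈ 𝐍[S]) : cj (LL S E) n = LL S (cj E n) := by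
  rw [LL, LL, cj_sup, cj_ncl, cj_inf, cj_centralizer, cj_normalizer, cj_eq_of_mem_normalizer hn]

theorem LL_le : LL S E ≤ 𝐍[E] := sup_le (ncl_le_self inf_le_right) (centralizer_le_normalizer' E)

theorem norm_LL : 𝐍[E] ≤ 𝐍[LL S E] :=
  le_normalizer_sup (le_normalizer_ncl _ _) (normalizer_le_normalizer_centralizer E)

theorem le_LL : S ⊓ 𝐍[E] ≤ LL S E := le_sup_of_le_left (le_ncl _ _)

theorem le_XX : S ⊓ 𝐍[E] ≤ XX S E := le_sup_of_le_left (inf_le_inf_right _ le_normalizer)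

namespace Ess

theorem cj (h : Ess S E) (hn : n ∈ 𝐍[S]) : Ess S (cj E n) := by
  have e := cj_eq_of_mem_normalizer hn
  refine ⟨cj_le_of_mem_normalizer h.le hn, ?_, ?_, ?_, fun h1 => h.ne ?_⟩
  · rw [← cj_centralizer]; exact cj_mono h.ab n
  · simpa only [cj_inf, cj_centralizer, e] using cj_mono h.sc n
  · simpa only [cj_inf, cj_normalizer, e] using h.fn.cj n
  · rw [← cj_le_cj_iff (g := n), XX, cj_sup, cj_inf, cj_normalizer, cj_normalizer, cj_centralizer, e]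
    exact h1

theorem cjS (h : Ess S E) (hn : n ∈ S) : Ess S (H24.cj E n) := h.cj (le_normalizer hn)

theorem mem (h : Ess S E) (h1 : a ∈ S) (h2 : ∀ e ∈ E, e * a = a * e) : a ∈ E :=
  h.sc ⟨h1, mem_centralizer_iff'.2 h2⟩

theorem comm (h : Ess S E) {b : G} (h1 : a ∈ E) (h2 : b ∈ E) : a * b = b * a :=
  mem_centralizer_iff'.1 (h.ab h2) a h1

theorem leR (h : Ess S E) : E ≤ S ⊓ 𝐍[E] := le_inf h.le le_normalizer

theorem eq_of_le (h : Ess S E) (h1 : E ≤ B) (h2 : B ≤ S) (h3 : B ≤ 𝐂[B]) : E = B :=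
  le_antisymm h1 ((le_inf h2 (h3.trans (centralizer_anti h1))).trans h.sc)

theorem zle (h : Ess S E) : S ⊓ 𝐂[S] ≤ E := (inf_le_inf_left _ (centralizer_anti h.le)).trans h.sc

variable [Finite G]

theorem not_le (H : Hy S) (h : Ess S E) : ¬ S ⊓ 𝐍[E] ≤ E := fun h1 => h.ne <| by
  have := le_of_inf_normalizer_le H.syl.pgrp h.le h1
  rw [XX, le_antisymm this h.le, inf_idem]; exact le_sup_left

theorem nab (H : Hy S) (h : Ess S E) : ¬ S ⊓ 𝐍[E] ≤ 𝐂[(S ⊓ 𝐍[E] : Subgroup G)] := fun h1 =>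
  h.not_le H ((le_inf inf_le_left (h1.trans (centralizer_anti h.leR))).trans h.sc)

theorem dec (h : Ess S E) (ha : a ∈ XX S E) (hk : ∃ k, a ^ 2 ^ k ∈ 𝐂[E]) : a ∈ 𝐂[E] ⊔ S ⊓ 𝐍[E] := by
  have h1 : XX S E ≤ 𝐍[E] := sup_le inf_le_right (centralizer_le_normalizer' E)
  have h2 : XX S E ≤ 𝐍[(𝐂[E] ⊔ S ⊓ 𝐍[E] : Subgroup G)] := sup_le
    (le_normalizer_sup (le_normalizer_centralizer inf_le_right)
      (le_normalizer_inf inf_le_left (le_normalizer_normalizer inf_le_right)))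
    (le_normalizer_of_le le_sup_left)
  have h3 : 𝐂[E] ⊔ S ⊓ 𝐍[E] ≤ 𝐍[E] := sup_le (centralizer_le_normalizer' E) inf_le_right
  have h4 : PGrpMod 2 (zpowers a) 𝐂[E] := by
    rintro _ ⟨i, rfl⟩
    obtain ⟨k, hk⟩ := hk
    exact ⟨k, by rw [← zpow_natCast, ← zpow_mul, mul_comm, zpow_mul, zpow_natCast]; exact zpow_mem hk i⟩
  have h5 : PGrpMod 2 (𝐂[E] ⊔ S ⊓ 𝐍[E]) 𝐂[E] := by
    rw [sup_comm]
    exact (pGrpMod_of_isPGroup h.fn.pgrp _).sup (pGrpMod_of_le le_rfl)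
      (le_normalizer_centralizer inf_le_right) le_normalizer
  have h6 : zpowers a ⊔ (𝐂[E] ⊔ S ⊓ 𝐍[E]) ≤ 𝐍[E] := sup_le (zpowers_le.2 (h1 ha)) h3
  exact (h4.sup h5 (zpowers_le.2 (h2 ha)) (le_normalizer_centralizer h3)).le_sup_of_sylIn
    (le_normalizer_centralizer h6) (h.fn.of_le (le_sup_of_le_right le_sup_right) h6)
    (mem_sup_left (mem_zpowers a))

theorem se (H : Hy S) (h : Ess S E) (hg : g ∈ 𝐍[E]) (hX : g ∉ XX S E) (ha : a ∈ XX S E)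
    (ha' : a ∈ H24.cj (XX S E) g) (hk : ∃ k, a ^ 2 ^ k ∈ 𝐂[E]) : a ∈ 𝐂[E] := by
  by_contra hc
  have hC := normalizer_le_normalizer_centralizer E hg
  have h1 := h.dec (mem_cj.1 ha') (by
    obtain ⟨k, hk⟩ := hk
    refine ⟨k, ?_⟩
    have := conj_mem_of_mem_normalizer' hC hk
    rwa [show g⁻¹ * a * g = g⁻¹ * a * g⁻¹⁻¹ by rw [inv_inv], conj_pow, inv_inv])
  obtain ⟨c, hc1, r, hr, e⟩ := (mem_sup_of_le_normalizer_left
    (le_normalizer_centralizer (inf_le_right : S ⊓ 𝐍[E] ≤ _))).1 h1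
  have hr' : r ∉ 𝐂[E] := fun h2 => hc (by
    have := conj_mem_of_mem_normalizer hC (mul_mem hc1 h2)
    rwa [← e, show g * (g⁻¹ * a * g) * g⁻¹ = a by group] at this)
  have h3 : 𝐂[E] ⊔ S ⊓ 𝐍[E] ≤ 𝐍[E] := sup_le (centralizer_le_normalizer' E) inf_le_right
  have h4 : E ⊔ zpowers r ≤ S ⊓ 𝐍[E] := sup_le h.leR (zpowers_le.2 hr)
  have h5 : H24.cj (E ⊔ zpowers r) g ≤ 𝐂[E] ⊔ S ⊓ 𝐍[E] := by
    rw [cj_sup, cj_eq_of_mem_normalizer hg, cj_zpowers]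
    refine sup_le (le_sup_of_le_left h.ab) (zpowers_le.2 ?_)
    rw [show g * r * g⁻¹ = (g * c * g⁻¹)⁻¹ * (g * (c * r) * g⁻¹) by group, ← e,
      show g * (g⁻¹ * a * g) * g⁻¹ = a by group]
    exact mul_mem (mem_sup_left (inv_mem (conj_mem_of_mem_normalizer hC hc1))) (h.dec ha hk)
  obtain ⟨k, k1, k2⟩ := (h.fn.of_le le_sup_right h3).exists_cj_le
    (IsPGroup.cj (h.fn.pgrp.to_le h4) g) h5
  rw [cj_cj] at k2
  have h6 := H.uq _ _ (h4.trans inf_le_left) (k2.trans inf_le_left) fun h7 =>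
    hr' (centralizer_anti le_sup_left (h7 (mem_sup_right (mem_zpowers r))))
  have h8 : k ∈ XX S E := (sup_le le_sup_right le_XX : _ ≤ XX S E) k1
  exact hX (by simpa using mul_mem (inv_mem h8) (mem_sup_left ⟨h6, mul_mem (h3 k1) hg⟩ : k * g ∈ XX S E))

/-- faithfulness on the involutions -/
theorem fa (H : Hy S) (h : Ess S E) (hr : r ∈ S ⊓ 𝐍[E]) (hc : ∀ u ∈ E, u * u = 1 → u * r = r * u) :
    r ∈ E := by
  let K : Subgroup G :=
    { carrier := {r | r ∈ 𝐍[E] ∧ ∀ u ∈ E, u * u = 1 → u * r = r * u}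
      mul_mem' := fun {a b} ha hb => ⟨mul_mem ha.1 hb.1, fun u hu e => by
        rw [← mul_assoc, ha.2 u hu e, mul_assoc, hb.2 u hu e, mul_assoc]⟩
      one_mem' := ⟨one_mem _, by simp⟩
      inv_mem' := fun {a} ha => ⟨inv_mem ha.1, fun u hu e => by
        rw [eq_inv_mul_iff_mul_eq, ← mul_assoc, ← ha.2 u hu e, mul_inv_cancel_right]⟩ }
  have hK : ∀ r, r ∈ K ↔ r ∈ 𝐍[E] ∧ ∀ u ∈ E, u * u = 1 → u * r = r * u := fun _ => Iff.rfl
  have hE : IsPGroup 2 E := H.syl.pgrp.to_le h.le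
  have k1 : PGrpMod 2 K 𝐂[E] := fun a ha => by
    obtain ⟨k, hk⟩ := exists_pow_coprime_orderOf (p := 2) (isOfFinOrder_of_finite a)
    refine ⟨k, ?_⟩
    have h1 : zpowers (a ^ 2 ^ k) ≤ K := zpowers_le.2 (pow_mem ha _)
    have h2 : zpowers (a ^ 2 ^ k) ≤ 𝐍[E] := fun x hx => (h1 hx).1
    have := isMulCommutative_iff_le_centralizer.2 h.ab
    have h3 := H1.inf_centralizer_inf_commutator_eq_bot h2
      (coprime_card_of_isPGroup hE (by rwa [Nat.card_zpowers]))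
    have h4 := commutator_le_left_of_le_normalizer h2
    refine zpowers_le.1 (le_centralizer_iff_commutator'.2 ?_)
    by_contra h5
    obtain ⟨u, hu, h6⟩ := exists_orderOf_eq_prime (dvd_card_of_ne_bot (hE.to_le h4) h5)
    have h7 : u ∈ (⊥ : Subgroup G) := h3 ▸ ⟨⟨h4 hu, mem_centralizer_iff'.2 fun x hx =>
      ((h1 hx).2 u (h4 hu) (by rw [← sq, ← h6, pow_orderOf_eq_one])).symm⟩, hu⟩
    rw [mem_bot.1 h7, orderOf_one] at h6
    exact absurd h6 (by decide)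
  have k2 : ∀ g ∈ 𝐍[E], ∀ a ∈ K, g⁻¹ * a * g ∈ K := fun g hg a ha =>
    ⟨mul_mem (mul_mem (inv_mem hg) ha.1) hg, fun u hu e => by
      have := ha.2 _ (conj_mem_of_mem_normalizer hg hu) (by rw [conj_mul, e]; simp)
      calc u * (g⁻¹ * a * g) = g⁻¹ * (g * u * g⁻¹ * a) * g := by group
        _ = _ := by rw [this]; group⟩
  have k3 : K ≤ 𝐍[E] := fun x hx => hx.1
  have k4 : 𝐍[E] ≤ 𝐍[K] := fun g hg => mem_normalizer_of_conj_mem fun x hx => by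
    simpa using k2 _ (inv_mem hg) x hx
  have k5 : K ≤ XX S E := (k1.le_sup_of_sylIn (le_normalizer_centralizer k3) (h.fn.inf_normal k3 k4)).trans
    (sup_le le_sup_right (inf_le_left.trans le_XX))
  obtain ⟨g, hg, hX⟩ := SetLike.not_le_iff_exists.1 h.ne
  have hrK : r ∈ K := ⟨hr.2, hc⟩
  exact h.sc ⟨hr.1, h.se H hg hX (k5 hrK) (mem_cj.2 (k5 (k2 g hg r hrK))) (k1 r hrK)⟩

theorem fratt (H : Hy S) (h : Ess S E) (hn : n ∈ 𝐍[E]) :
    ∃ l ∈ LL S E, ∃ y ∈ 𝐍[S], y ∈ 𝐍[E] ∧ n = l * y := by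
  obtain ⟨l, hl, y, hy, e⟩ := (h.fn.of_le le_LL LL_le).frattini (norm_LL hn)
  refine ⟨l, hl, y, H.uq _ y inf_le_left ((cj_eq_of_mem_normalizer hy).le.trans inf_le_left) (h.nab H), ?_, e⟩
  simpa [e] using mul_mem (inv_mem (LL_le hl)) hn

end Ess

variable [Finite G]

theorem fuse (H : Hy S) {ρ : G → G → Prop} (hρ : Equivalence ρ)
    (h1 : ∀ n ∈ 𝐍[S], ∀ a ∈ S, ρ a (n * a * n⁻¹))
    (h2 : ∀ E, Ess S E → ∀ l ∈ LL S E, ∀ a ∈ E, ρ a (l * a * l⁻¹)) (ha : a ∈ S) (hg : g * a * g⁻¹ ∈ S) :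
    ρ a (g * a * g⁻¹) := by
  have key := H3.alperin_fullyNormalized H.syl.toSylowTop
    (R := fun A g => ∀ a ∈ A, ρ a (g * a * g⁻¹))
    ⟨fun h h' a ha => h' a (h ha), fun {A g k} h h' a ha => hρ.trans (h a ha) (by
        have := h' _ (conj_mem_cj ha g)
        rwa [show k * (g * a * g⁻¹) * k⁻¹ = k * g * a * (k * g)⁻¹ by group] at this),
      fun {A g} h a ha => by
        obtain ⟨b, hb, rfl⟩ := exists_of_mem_cj (H := A) ha
        rw [show g⁻¹ * (g * b * g⁻¹) * g⁻¹⁻¹ = b by group]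
        exact hρ.symm (h b hb)⟩
    (fun A hA hfn ih n hn a ha => ?_) (zpowers a) g (zpowers_le.2 ha)
    (show cj (zpowers a) g ≤ S by rw [cj_zpowers]; exact zpowers_le.2 hg)
  · exact key a (mem_zpowers a)
  change A ≤ S at hA
  have fn : SylIn 2 (S ⊓ 𝐍[A]) 𝐍[A] := sylIn_of_not_dvd hfn.le hfn.isPGroup hfn.not_dvd
  by_cases c1 : A ≤ 𝐂[A]
  swap
  · exact h1 n (H.uq A n hA ((cj_eq_of_mem_normalizer hn).le.trans hA) c1) a (hA ha)
  by_cases c2 : S ⊓ 𝐂[A] ≤ A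
  swap
  · have t1 := fn.inf_normal (centralizer_le_normalizer' A) (normalizer_le_normalizer_centralizer A)
    obtain ⟨c, hc, y, hy, rfl⟩ := t1.frattini (normalizer_le_normalizer_centralizer A hn)
    have t2 : A < S ⊓ 𝐍[A] ⊓ 𝐂[A] := lt_of_le_not_ge (le_inf (le_inf hA le_normalizer) c1)
      fun h => c2 ((le_inf (inf_le_inf_left _ (centralizer_le_normalizer' A)) inf_le_right).trans h)
    have t3 := ih _ y (card_lt_of_lt t2) (inf_le_left.trans inf_le_left)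
      (show cj _ y ≤ S from (cj_eq_of_mem_normalizer hy).le.trans (inf_le_left.trans inf_le_left)) a (t2.le ha)
    have t4 : y ∈ 𝐍[A] := by simpa using mul_mem (inv_mem (centralizer_le_normalizer' A hc)) hn
    rwa [show c * y * a * (c * y)⁻¹ = c * (y * a * y⁻¹) * c⁻¹ by group,
      mem_centralizer_iff_conj.1 hc _ (conj_mem_of_mem_normalizer t4 ha)]
  by_cases c3 : 𝐍[A] ≤ XX S A
  · obtain ⟨y, hy, c, hc, rfl⟩ := (mem_sup_of_le_normalizer_right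
      (le_normalizer_centralizer (inf_le_right : 𝐍[S] ⊓ 𝐍[A] ≤ _))).1 (c3 hn)
    rw [show y * c * a * (y * c)⁻¹ = y * (c * a * c⁻¹) * y⁻¹ by group, mem_centralizer_iff_conj.1 hc _ ha]
    exact h1 y hy.1 a (hA ha)
  have hE : Ess S A := ⟨hA, c1, c2, fn, c3⟩
  obtain ⟨l, hl, y, hy, hy', rfl⟩ := hE.fratt H hn
  rw [show l * y * a * (l * y)⁻¹ = l * (y * a * y⁻¹) * l⁻¹ by group]
  exact hρ.trans (h1 y hy a (hA ha)) (h2 A hE l hl _ (conj_mem_of_mem_normalizer hy' ha))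

theorem sc (H : Hy S) (hM : M ≤ S) (h1 : ∀ n ∈ 𝐍[S], ∀ a ∈ M, n * a * n⁻¹ ∈ M)
    (h2 : ∀ E, Ess S E → ∀ l ∈ LL S E, ∀ a ∈ E, a ∈ M → l * a * l⁻¹ ∈ M) : IsStronglyClosed M S := by
  refine ⟨hM, fun a ha g hg => (fuse H (ρ := fun a b => a ∈ M ↔ b ∈ M)
    ⟨fun _ => Iff.rfl, Iff.symm, Iff.trans⟩ (fun n hn a _ => ⟨h1 n hn a, fun h => ?_⟩)
    (fun E hE l hl a ha => ⟨h2 E hE l hl a ha, fun h => ?_⟩) (hM ha) hg).1 ha⟩
  · simpa [mul_assoc] using h1 _ (inv_mem hn) _ h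
  · simpa [mul_assoc] using h2 E hE _ (inv_mem hl) _ (conj_mem_of_mem_normalizer (LL_le hl) ha) h

theorem foc (H : Hy S) (hp : commutator G = ⊤) (h1 : ∀ n ∈ 𝐍[S], ∀ a ∈ S, a⁻¹ * (n * a * n⁻¹) ∈ M)
    (h2 : ∀ E, Ess S E → ⁅E, LL S E⁆ ≤ M) : S ≤ M := by
  have := Subgroup.commutator_inf_eq_focalSubgroup H.syl.toSylowTop
  rw [hp, top_inf_eq] at this
  refine this.le.trans (H3.focalSubgroup_le_of_forall fun a ha g hg =>
    fuse H (ρ := fun a b => a⁻¹ * b ∈ M) ⟨fun _ => by simp, fun h => by simpa using inv_mem h,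
      fun h h' => by simpa [mul_assoc] using mul_mem h h'⟩ h1 (fun E hE l hl a ha => ?_) ha hg)
  have := h2 E hE (commutator_mem_commutator (inv_mem ha) hl)
  simpa [commutatorElement_def, mul_assoc] using this

theorem foc2 (H : Hy S) (hp : commutator G = ⊤) (h1 : ∀ n ∈ 𝐍[S], ∀ a ∈ S, a ∈ M → n * a * n⁻¹ ∈ M)
    (h0 : ∀ a ∈ S, ∀ b ∈ S, a ∉ M → b ∉ M → a * b ∈ M)
    (h2 : ∀ E, Ess S E → ⁅E, LL S E⁆ ≤ M) : S ≤ M := by
  refine foc H hp (fun n hn a ha => ?_) h2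
  by_cases h : a ∈ M
  · exact mul_mem (inv_mem h) (h1 n hn a ha h)
  · have h3 := conj_mem_of_mem_normalizer hn ha
    exact h0 _ (inv_mem ha) _ h3 (by simpa using h) fun h4 => h (by
      simpa [mul_assoc] using h1 _ (inv_mem hn) _ h3 h4)

end Cfsg.Agent.H24.AI
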