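import Cfsg.Agent.H24.AI1

/-! Abelian Sylow `2`-intersections: pairs of essential subgroups with a common normalizer. -/

set_option autoImplicit false

namespace Cfsg.Agent.H24.AI

open Subgroup
open scoped commutatorElement Pointwise

variable {G : Type*} [Group G] {S E B A M : Subgroup G} {a b e g n r s u v : G}

local instance : Fact (Nat.Prime 2) := ⟨Nat.prime_two⟩

def DD (S E : Subgroup G) : Subgroup G := E ⊓ 𝐂[LL S E]

theorem cj_DD (hn : n ∈ 𝐍[S]) : cj (DD S E) n = DD S (cj E n) := by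
  rw [DD, DD, cj_inf, cj_centralizer, cj_LL hn]

theorem DD_le : DD S E ≤ 𝐂[(S ⊓ 𝐍[E] : Subgroup G)] := inf_le_right.trans (centralizer_anti le_LL)

structure Half (S E B : Subgroup G) : Prop where
  e : Ess S E
  b : Ess S B
  ne : E ≠ B
  bn : B ≤ 𝐍[E]
  en : E ≤ 𝐍[B]
  card : Nat.card E ≤ Nat.card B

namespace Half
variable (h : Half S E B)
include h

theorem leR : B ≤ S ⊓ 𝐍[E] := le_inf h.b.le h.bn

theorem comm_le : ⁅E, B⁆ ≤ E ⊓ B :=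
  le_inf (commutator_le_left_of_le_normalizer h.bn) (commutator_le_right_of_le_normalizer h.en)

theorem nle : ¬ B ≤ E := fun h1 => h.ne (h.b.eq_of_le h1 h.e.le h.e.ab).symm

theorem infE : E ⊓ 𝐂[B] = E ⊓ B :=
  le_antisymm (le_inf inf_le_left ((inf_le_inf_right _ h.e.le).trans h.b.sc)) (inf_le_inf_left _ h.b.ab)

theorem infB : B ⊓ 𝐂[E] = E ⊓ B :=
  le_antisymm (le_inf ((inf_le_inf_right _ h.b.le).trans h.e.sc) inf_le_left)
    (le_inf inf_le_right (inf_le_left.trans h.e.ab))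

theorem ncB (he : e ∈ E) (hb : e ∉ B) : e ∉ 𝐂[B] := fun h1 => hb (h.infE.le ⟨he, h1⟩).2

theorem DB : DD S E ≤ B := fun _ hd => (h.infE.le ⟨hd.1, centralizer_anti h.leR (DD_le hd)⟩).2

variable [Finite G] (H : Hy S)
include H

theorem seh : SEH 2 E 𝐍[E] (XX S E) B :=
  ⟨h.e.ab, H.syl.pgrp.to_le h.e.le, le_rfl, h.e.ne, inf_le_right.trans le_sup_right,
    fun _ hg hX _ _ h1 h2 h3 => h.e.se H hg hX h1 h2 h3, h.bn, h.leR.trans le_XX,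
    h.comm_le.trans (inf_le_right.trans h.b.ab), fun h1 => h.nle ((le_inf h.b.le h1).trans h.e.sc), by
      rw [relIndex_le_iff_card, h.infE, h.infB]; exact Nat.mul_le_mul_right _ h.card⟩

theorem R_le : S ⊓ 𝐍[E] ≤ B ⊔ E := by
  have h1 := (h.seh H).le_sup h.leR inf_le_right (pGrpMod_of_isPGroup h.e.fn.pgrp _)
  intro r hr
  obtain ⟨b, hb, c, hc, rfl⟩ := (mem_sup_of_le_normalizer_right (le_normalizer_inf
    (h.bn.trans le_normalizer) (le_normalizer_centralizer h.bn))).1 (h1 hr)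
  exact mul_mem (mem_sup_left hb) (mem_sup_right (h.e.sc
    ⟨by simpa using mul_mem (inv_mem (h.b.le hb)) hr.1, hc.2⟩))

theorem decR (hr : r ∈ S ⊓ 𝐍[E]) : ∃ e ∈ E, ∃ b ∈ B, r = e * b :=
  (mem_sup_of_le_normalizer_left h.bn).1 ((h.R_le H).trans (sup_comm _ _).le hr)

theorem core : CoreHyp E (LL S E) 𝐍[(E ⊓ 𝐂[B] : Subgroup G)] B := by
  have := (h.seh H).core
  rwa [show ncl B 𝐍[E] ⊔ 𝐍[E] ⊓ 𝐂[E] = LL S E from ?_] at this
  rw [inf_eq_right.2 (centralizer_le_normalizer' E)]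
  refine le_antisymm (sup_le_sup_right (ncl_mono h.leR le_rfl) _) (sup_le (ncl_le ((h.R_le H).trans
    (sup_le_sup (le_ncl _ _) h.e.ab)) ?_) le_sup_right)
  exact le_normalizer_sup (le_normalizer_ncl _ _) (normalizer_le_normalizer_centralizer E)

theorem sqD (he : e ∈ E) : e * e ∈ DD S E := by
  obtain ⟨F, _, _, N, -, -⟩ := (h.core H).main
  have := N.charP_of_pGrpMod (pGrpMod_of_isPGroup (H.syl.pgrp.to_le h.e.le) _)
  refine (N.ψ_eq_zero (mul_mem he he)).1 ?_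
  rw [N.ψ_mul he he]
  funext i
  exact CharTwo.add_self_eq_zero _

theorem inj (he : e ∈ E) (h1 : e ∉ B) (hb : b ∈ B) (h2 : ⁅e, b⁆ ∈ DD S E) : b ∈ E :=
  (h.infB.le ⟨hb, (h.core H).inj he (h.ncB he h1) hb h2⟩).1

theorem comm_sq (he : e ∈ E) (hb : b ∈ B) : ⁅e, b⁆ * ⁅e, b⁆ = 1 := by
  have h1 := h.e.comm he (conj_mem_of_mem_normalizer (h.bn hb) (inv_mem he))
  have h2 := h.b.comm (h.DB (h.sqD H (inv_mem he))) hb
  calc ⁅e, b⁆ * ⁅e, b⁆ = e * (b * e⁻¹ * b⁻¹ * e) * (b * e⁻¹ * b⁻¹) := by rw [commutatorElement_def]; group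
    _ = e * e * (b * (e⁻¹ * e⁻¹)) * b⁻¹ := by rw [← h1]; group
    _ = 1 := by rw [← h2]; group

theorem dec0 (he : e ∈ E ⊓ 𝐂[B]) : ∃ v ∈ E, v * v = 1 ∧ ∃ d ∈ DD S E, e = v * d := by
  obtain ⟨v, hv, h1⟩ := SetLike.not_le_iff_exists.1 fun h1 : E ≤ B => h.ne (h.e.eq_of_le h1 h.b.le h.b.ab)
  obtain ⟨b, hb, h2⟩ := (h.core H).surj hv (h.ncB hv h1) he
  exact ⟨⁅v, b⁆, (h.comm_le (commutator_mem_commutator hv hb)).1, h.comm_sq H hv hb, _, h2, by group⟩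

theorem dec (he : e ∈ E) : ∃ v ∈ E, v * v = 1 ∧ ∃ d ∈ DD S E, e = v * d := by
  have hc := h.core H
  obtain ⟨y, hy, hy'⟩ := hc.exists_not_mem
  obtain ⟨e1, h1, e2, h2, rfl⟩ := (mem_sup_of_le_normalizer_left (hc.normW inf_le_left inf_le_left)).1
    (hc.le_sup hy hy' he)
  obtain ⟨v1, a1, a2, d1, a3, rfl⟩ := h.dec0 H h1
  rw [← hc.cj_fix hy] at h2
  obtain ⟨e3, h3, rfl⟩ := exists_of_mem_cj h2
  obtain ⟨v2, b1, b2, d2, b3, rfl⟩ := h.dec0 H h3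
  have c1 := conj_mem_of_mem_normalizer (LL_le hy) b1
  refine ⟨v1 * (y * v2 * y⁻¹), mul_mem a1 c1, ?_, d1 * d2, mul_mem a3 b3, ?_⟩
  · rw [mul_assoc, ← mul_assoc (y * v2 * y⁻¹), ← h.e.comm a1 c1, mul_assoc, conj_mul, b2, ← mul_assoc, a2]
    simp
  · rw [← conj_mul, show y * d2 * y⁻¹ = d2 by rw [mem_centralizer_iff'.1 b3.2 y hy]; simp,
      mul_assoc, mul_assoc v1, ← mul_assoc d1, ← mul_assoc (y * v2 * y⁻¹), h.e.comm a3.1 c1]

theorem exists_inv : ∃ v ∈ E, v ∉ B ∧ v * v = 1 := by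
  obtain ⟨e, he, h1⟩ := SetLike.not_le_iff_exists.1 fun h1 : E ≤ B => h.ne (h.e.eq_of_le h1 h.b.le h.b.ab)
  obtain ⟨v, hv, h2, d, hd, rfl⟩ := h.dec H he
  exact ⟨v, hv, fun h3 => h1 (mul_mem h3 (h.DB hd)), h2⟩

theorem cv (hv : v ∈ E) (h1 : v ∉ B) (hs : s ∈ S) (h2 : v * s = s * v) : s ∈ E := by
  have h3 : E ≤ S ⊓ centralizer {v} := fun e he => ⟨h.e.le he, mem_centralizer_singleton_iff.2 (h.e.comm he hv)⟩
  refine le_of_inf_normalizer_le (H.syl.pgrp.to_le inf_le_left) h3 (fun r hr => ?_)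
    ⟨hs, mem_centralizer_singleton_iff.2 h2.symm⟩
  obtain ⟨e, he, b, hb, rfl⟩ := h.decR H ⟨hr.1.1, hr.2⟩
  have h4 : b ∈ centralizer {v} := (Subgroup.mul_mem_cancel_left _ (h3 he).2).1 hr.1.2
  refine mul_mem he (h.inj H hv h1 hb ?_)
  rw [commutatorElement_eq_one_iff_mul_comm.2 (mem_centralizer_singleton_iff.1 h4).symm]
  exact one_mem _

theorem cc (hv : v ∈ E) (h1 : v ∉ B) (hs : s ∈ S) (hA : Ess S A) (h2 : s * v * s⁻¹ ∈ A) : cj E s = A := by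
  refine (hA.eq_of_le (fun a ha => mem_cj.2 (h.cv H hv h1 (mul_mem (mul_mem (inv_mem hs) (hA.le ha)) hs) ?_))
    (h.e.cjS hs).le (h.e.cjS hs).ab).symm
  calc v * (s⁻¹ * a * s) = s⁻¹ * (s * v * s⁻¹ * a) * s := by group
    _ = _ := by rw [hA.comm h2 ha]; group

theorem cc1 (hv : v ∈ E) (h1 : v ∉ B) (hA : Ess S A) (h2 : v ∈ A) : E = A := by
  simpa using h.cc H hv h1 S.one_mem hA (by simpa using h2)

theorem comm_R : ⁅S ⊓ 𝐍[E], S ⊓ 𝐍[E]⁆ ≤ E ⊓ B := by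
  have n1 : B ≤ 𝐍[(E ⊓ B : Subgroup G)] := le_normalizer_inf h.bn le_normalizer
  have n2 : E ≤ 𝐍[(E ⊓ B : Subgroup G)] := le_normalizer_inf le_normalizer h.en
  refine (commutator_mono (h.R_le H) (h.R_le H)).trans (commutator_sup_left_le n1 n2
    (commutator_sup_right_le n1 n2 ?_ ?_) (commutator_sup_right_le n1 n2 h.comm_le ?_))
  · rw [le_centralizer_iff_commutator.1 h.b.ab]; exact bot_le
  · rw [commutator_comm]; exact h.comm_le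
  · rw [le_centralizer_iff_commutator.1 h.e.ab]; exact bot_le

theorem z0 (hu : u ∈ E) (hu' : u ∈ B) (hr : r ∈ S ⊓ 𝐍[E]) : u * r = r * u := by
  obtain ⟨e, he, b, hb, rfl⟩ := h.decR H hr
  rw [← mul_assoc, h.e.comm hu he, mul_assoc, h.b.comm hu' hb, mul_assoc]

end Half

structure Pr (S E B : Subgroup G) : Prop where
  l : Half S E B
  r : Half S B E
  eq : S ⊓ 𝐍[E] = S ⊓ 𝐍[B]

theorem Pr.symm (h : Pr S E B) : Pr S B E := ⟨h.r, h.l, h.eq.symm⟩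

theorem Half.cj (h : Half S E B) (hn : n ∈ 𝐍[S]) : Half S (cj E n) (cj B n) :=
  ⟨h.e.cj hn, h.b.cj hn, fun e => h.ne (cj_inj.1 e), by rw [← cj_normalizer]; exact cj_mono h.bn n,
    by rw [← cj_normalizer]; exact cj_mono h.en n, by rw [card_cj, card_cj]; exact h.card⟩

theorem cj_R (hn : n ∈ 𝐍[S]) : cj (S ⊓ 𝐍[E]) n = S ⊓ 𝐍[cj E n] := by
  rw [cj_inf, cj_normalizer, cj_eq_of_mem_normalizer hn]

theorem Pr.cj (h : Pr S E B) (hn : n ∈ 𝐍[S]) : Pr S (cj E n) (cj B n) :=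
  ⟨h.l.cj hn, h.r.cj hn, by rw [← cj_R hn, ← cj_R hn, h.eq]⟩

variable [Finite G]

theorem exists_pr (H : Hy S) (h : Ess S E) (hn : ¬ S ≤ 𝐍[E]) :
    ∃ x ∈ S, x ∈ 𝐍[(S ⊓ 𝐍[E] : Subgroup G)] ∧ x ∉ 𝐍[E] ∧ Pr S E (cj E x) := by
  obtain ⟨x, hx, h1⟩ := SetLike.not_le_iff_exists.1 (lt_inf_normalizer H.syl.pgrp
    (lt_of_le_not_ge (inf_le_left : S ⊓ 𝐍[E] ≤ S) fun h => hn (h.trans inf_le_right))).not_ge
  have h2 : x ∉ 𝐍[E] := fun h2 => h1 ⟨hx.1, h2⟩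
  have h3 : S ⊓ 𝐍[E] = S ⊓ 𝐍[cj E x] := by
    rw [← cj_R (le_normalizer hx.1), cj_eq_of_mem_normalizer hx.2]
  have h4 := h.cjS hx.1
  have h5 : E ≠ cj E x := fun e => h2 (cj_eq_self_iff.1 e.symm)
  have h6 : cj E x ≤ 𝐍[E] := (h4.leR.trans h3.ge).trans inf_le_right
  have h7 : E ≤ 𝐍[cj E x] := (h.leR.trans h3.le).trans inf_le_right
  exact ⟨x, hx.1, hx.2, h2, ⟨h, h4, h5, h6, h7, (card_cj _ _).ge⟩,
    ⟨h4, h, h5.symm, h7, h6, (card_cj _ _).le⟩, h3⟩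

namespace Pr
variable (h : Pr S E B) (H : Hy S)
include h H

theorem sq (hr : r ∈ S ⊓ 𝐍[E]) (h1 : r ∉ E) (h2 : r ∉ B) : r * r ∉ DD S E := by
  intro h3
  obtain ⟨e, he, b, hb, rfl⟩ := h.l.decR H hr
  obtain ⟨v, hv, v2, d, hd, rfl⟩ := h.l.dec H he
  obtain ⟨w, hw, w2, d', hd', rfl⟩ := h.r.dec H hb
  have a1 : d * d' ∈ E := mul_mem hd.1 (h.r.DB hd')
  have a2 : d * d' ∈ B := mul_mem (h.l.DB hd) hd'.1
  have a3 := h.l.z0 H a1 a2 (mul_mem (h.l.e.leR hv) (h.l.leR hw))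
  have a4 : v * d * (w * d') = v * w * (d * d') := by
    rw [mul_assoc v, ← mul_assoc d, h.l.b.comm (h.l.DB hd) hw]; group
  have a5 : ⁅v, w⁆ = v * w * (v * w) := by
    rw [commutatorElement_def, inv_eq_of_mul_eq_one_left v2, inv_eq_of_mul_eq_one_left w2, mul_assoc]
  have a6 : ⁅v, w⁆ ∈ DD S E := by
    rw [a4, show v * w * (d * d') * (v * w * (d * d')) = v * w * (d * d' * (v * w)) * (d * d') by group, a3,
      show v * w * (v * w * (d * d')) * (d * d') = v * w * (v * w) * (d * d' * (d * d')) by group, ← a5] at h3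
    exact (Subgroup.mul_mem_cancel_right _ (h.l.sqD H a1)).1 h3
  rw [a4] at h1 h2
  exact h1 (mul_mem (mul_mem hv (h.l.inj H hv (fun hv' => h2 (mul_mem (mul_mem hv' hw) a2)) hw a6)) a1)

theorem inv_mem_or (hr : r ∈ S ⊓ 𝐍[E]) (h1 : r * r = 1) : r ∈ E ∨ r ∈ B := by
  by_contra hc
  exact h.sq H hr (fun h2 => hc (Or.inl h2)) (fun h2 => hc (Or.inr h2)) (h1 ▸ one_mem _)

theorem two (hs : s ∈ S) (h1 : s ∈ 𝐍[(S ⊓ 𝐍[E] : Subgroup G)]) (h2 : s ∉ 𝐍[E]) : H24.cj E s = B := by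
  obtain ⟨v, hv, v1, v2⟩ := h.l.exists_inv H
  rcases h.inv_mem_or H (conj_mem_of_mem_normalizer h1 (h.l.e.leR hv)) (by rw [conj_mul, v2]; simp) with h3 | h3
  · exact absurd (cj_eq_self_iff.1 (h.l.cc H hv v1 hs h.l.e h3)) h2
  · exact h.l.cc H hv v1 hs h.l.b h3

theorem two' (hs : s ∈ S) (h1 : s ∈ 𝐍[(S ⊓ 𝐍[E] : Subgroup G)]) (h2 : s ∉ 𝐍[E]) : H24.cj B s = E := by
  rw [← h.two H (inv_mem hs) (inv_mem h1) (by simpa using h2), cj_inv_cj]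

theorem z0_of (hA : Ess S A) (h1 : A ≠ E) (h2 : A ≠ B) (hu : u ∈ A) (hr : u ∈ S ⊓ 𝐍[E]) (h3 : u * u = 1) :
    u ∈ E ∧ u ∈ B := by
  by_contra hc
  rcases h.inv_mem_or H hr h3 with h4 | h4
  · exact h1 (h.l.cc1 H h4 (fun h5 => hc ⟨h4, h5⟩) hA hu).symm
  · exact h2 (h.r.cc1 H h4 (fun h5 => hc ⟨h5, h4⟩) hA hu).symm

/-- no normal essential subgroup besides `E`, `B` -/
theorem nn (hA : Ess S A) (h1 : A ≠ E) (h2 : A ≠ B) : ¬ S ≤ 𝐍[A] := by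
  intro hn
  obtain ⟨t, ht, t1, t2⟩ := h.l.exists_inv H
  have tS := h.l.e.le ht
  have key : ∀ u ∈ A, u * u = 1 → u ∈ S ⊓ 𝐍[E] := fun u hu e => by
    have a1 : t * u * t⁻¹ ∈ A := conj_mem_of_mem_normalizer (hn tS) hu
    have a2 := hA.comm hu a1
    have t3 : t⁻¹ = t := inv_eq_of_mul_eq_one_left t2
    have u3 : u⁻¹ = u := inv_eq_of_mul_eq_one_left e
    refine ⟨hA.le hu, cj_eq_self_iff.1 (h.l.cc H ht t1 (hA.le hu) h.l.e (h.l.cv H ht t1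
      (mul_mem (mul_mem (hA.le hu) tS) (inv_mem (hA.le hu))) ?_))⟩
    rw [t3] at a2
    rw [u3]
    calc t * (u * t * u) = t * u * t * u := by group
      _ = _ := by rw [← a2]; group
  refine h.l.e.nab H fun r hr => centralizer_anti ?_ (hA.ab ?_) <;>
  · first
    | refine hA.fa H ⟨hr.1, hn hr.1⟩ fun u hu e => ?_
    | refine fun r hr => hA.fa H ⟨hr.1, hn hr.1⟩ fun u hu e => ?_
    obtain ⟨a1, a2⟩ := h.z0_of H hA h1 h2 hu (key u hu e) e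
    exact h.l.z0 H a1 a2 hr

end Pr

end Cfsg.Agent.H24.AI
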