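import Cfsg.Agent.H24.SPE

/-! An involution of a `2`-group whose class lies in a coset of a cyclic subgroup. -/

set_option autoImplicit false

namespace Cfsg.Agent.H24.AI

open Subgroup
open scoped commutatorElement Pointwise

variable {G : Type*} [Group G] {S P R : Subgroup G} {a c g p s t x y : G}

local instance : Fact (Nat.Prime 2) := ⟨Nat.prime_two⟩

theorem odd_gen (ha : ∃ k, a ^ 2 ^ k = 1) {m : ℤ} (hm : Odd m) : a ∈ zpowers (a ^ m) := by
  obtain ⟨k, hk⟩ := ha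
  obtain ⟨u, v, e⟩ : IsCoprime m (2 ^ k) := (Int.isCoprime_two_right.2 hm).pow_right
  refine ⟨u, ?_⟩
  have : a ^ ((2 : ℤ) ^ k) = 1 := by exact_mod_cast hk
  calc (a ^ m) ^ u = a ^ (u * m) * (a ^ ((2 : ℤ) ^ k)) ^ v := by rw [this, one_zpow, mul_one, ← zpow_mul, mul_comm]
    _ = a := by rw [← zpow_mul, ← zpow_add, mul_comm _ v, e, zpow_one]

theorem eq_one_of_odd (ha : ∃ k, a ^ 2 ^ k = 1) {m : ℤ} (hm : Odd m) (h : a ^ m = 1) : a = 1 := by
  have := odd_gen ha hm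
  rwa [h, zpowers_one_eq_bot, mem_bot] at this

theorem eq_one_of_even (ha : ∃ k, a ^ 2 ^ k = 1) {m : ℤ} (hm : Even m) (h : a ∈ zpowers (a ^ m)) : a = 1 := by
  obtain ⟨i, hi⟩ := h
  refine eq_one_of_odd ha (m := m * i - 1) ((hm.mul_right i).sub_odd odd_one) ?_
  rw [zpow_sub, zpow_mul, show (a ^ m) ^ i = a from hi]; simp

theorem el2_zpow (ha : ∃ k, a ^ 2 ^ k = 1) (m : ℤ) : ∃ k, (a ^ m) ^ 2 ^ k = 1 := by
  obtain ⟨k, hk⟩ := ha
  exact ⟨k, by rw [← zpow_natCast, ← zpow_mul, mul_comm, zpow_mul, zpow_natCast, hk, one_zpow]⟩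

theorem inv_uniq [Finite G] (hx : x ∈ zpowers c) (hy : y ∈ zpowers c) (x1 : x ≠ 1) (x2 : x * x = 1) (y1 : y ≠ 1)
    (y2 : y * y = 1) : x = y := by
  have h := uniq_of_isCyclic (p := 2) (X := zpowers c) ⟨x, hx⟩ ⟨y, hy⟩
    (orderOf_eq_prime (Subtype.ext (by simpa [sq] using x2)) fun e => x1 (congrArg Subtype.val e))
    (Subtype.ext (by simpa [sq] using y2))
  obtain ⟨i, hi⟩ := h
  have hi' : x ^ i = y := congrArg Subtype.val hi
  have x3 : x ^ (2 : ℤ) = 1 := by rw [zpow_two, x2]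
  rcases Int.even_or_odd' i with ⟨j, rfl | rfl⟩
  · rw [zpow_mul, x3, one_zpow] at hi'; exact absurd hi'.symm y1
  · rwa [zpow_add, zpow_mul, x3, one_zpow, one_mul, zpow_one] at hi'

theorem zp_comm (hx : x ∈ zpowers c) (hy : y ∈ zpowers c) : x * y = y * x := by
  obtain ⟨i, rfl⟩ := hx
  obtain ⟨j, rfl⟩ := hy
  exact zpow_mul_comm c i j

theorem inv_zpow_conj (h : t * c * t⁻¹ = c⁻¹) (hx : x ∈ zpowers c) : t * x * t⁻¹ = x⁻¹ := by
  obtain ⟨i, rfl⟩ := hx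
  simp only
  rw [← conj_zpow, h, inv_zpow]

structure Tq (S R : Subgroup G) (t : G) : Prop where
  pg : IsPGroup 2 S
  mem : t ∈ R
  inv : t * t = 1
  cn : ∀ g ∈ S, g * t * g⁻¹ * t = t * (g * t * g⁻¹) → g ∈ R
  ns : ∀ u ∈ S, ∀ s ∈ S, u * t = t * u → s * s = 1 → s * t * s * t = u * u → u * u = 1

structure QQ (S R P : Subgroup G) (t a : G) : Prop extends Tq S R t where
  le : P ≤ S
  leR : R ≤ P
  ne : a ≠ 1
  i : ∀ p ∈ P, p * t * p⁻¹ * t ∈ zpowers a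
  ii : ∀ x ∈ zpowers a, ∃ p ∈ P, p * t * p⁻¹ = x * t

namespace QQ
variable (h : QQ S R P t a)
include h

theorem ti : t⁻¹ = t := inv_eq_of_mul_eq_one_left h.inv

theorem zle (hx : x ∈ zpowers a) : x ∈ P := by
  obtain ⟨p, hp, e⟩ := h.ii x hx
  exact (P.mul_mem_cancel_right (h.leR h.mem)).1 (e ▸ mul_mem (mul_mem hp (h.leR h.mem)) (inv_mem hp))

theorem el2 : ∃ k, a ^ 2 ^ k = 1 := isPGroup_iff.1 h.pg a (h.le (h.zle (mem_zpowers a)))

theorem tinv (hx : x ∈ zpowers a) : t * x * t⁻¹ = x⁻¹ := by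
  obtain ⟨p, -, e⟩ := h.ii x hx
  have : x * t * (x * t) = 1 := by rw [← e, conj_mul, h.inv]; simp
  rw [h.ti, eq_inv_iff_mul_eq_one, ← mul_left_inj t, ← mul_right_inj t]
  calc t * (t * x * t * x * t) = (t * t) * (x * t * (x * t)) := by group
    _ = _ := by rw [this, h.inv, one_mul, one_mul, h.inv]

theorem nrm (hp : p ∈ P) (hx : x ∈ zpowers a) : p * x * p⁻¹ ∈ zpowers a := by
  obtain ⟨q, hq, e⟩ := h.ii x hx
  have := mul_mem (h.i _ (mul_mem hp hq)) (inv_mem (h.i _ hp))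
  rwa [show p * q * t * (p * q)⁻¹ = p * (q * t * q⁻¹) * p⁻¹ by group, e,
    show p * (x * t) * p⁻¹ * t * (p * t * p⁻¹ * t)⁻¹ = p * x * p⁻¹ by group] at this

theorem par (hs : s ∈ P) (s2 : s * s = 1) :
    (∃ p ∈ P, p * s * p⁻¹ * t = t * (p * s * p⁻¹)) ∨ a ∈ zpowers (s * t * s * t) := by
  have si : s⁻¹ = s := inv_eq_of_mul_eq_one_left s2
  obtain ⟨β, hβ⟩ := h.i s hs
  obtain ⟨α, hα⟩ := h.nrm hs (mem_zpowers a)
  simp only at hβ hα
  have hz : ∀ i : ℤ, s * a ^ i * s⁻¹ = a ^ (α * i) := fun i => by rw [← conj_zpow, ← hα, ← zpow_mul]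
  have ht : s * t * s⁻¹ = a ^ β * t := by rw [hβ, mul_assoc _ t t, h.inv, mul_one]
  have hss : ∀ x, s * (s * x * s⁻¹) * s⁻¹ = x := fun x => by
    rw [show s * (s * x * s⁻¹) * s⁻¹ = (s * s) * x * (s * s)⁻¹ by group, s2]; simp
  rcases Int.even_or_odd' β with ⟨b, rfl | rfl⟩
  swap
  · right; rw [si] at hβ; rw [← hβ]; exact odd_gen h.el2 (odd_two_mul_add_one b)
  left
  have hodd : Odd α := by
    by_contra hc
    refine h.ne (eq_one_of_odd h.el2 (m := α * α - 1)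
      (((Int.not_odd_iff_even.1 hc).mul_right α).sub_odd odd_one) ?_)
    rw [zpow_sub, ← hz, hα, hss]; simp
  obtain ⟨m, rfl⟩ := hodd
  rcases Int.even_or_odd' m with ⟨k, rfl | rfl⟩
  · have h1 : a ^ (2 * (2 * b)) = 1 := by
      refine eq_one_of_odd (el2_zpow h.el2 _) (odd_two_mul_add_one k) ?_
      have := hss t
      rw [ht, ← conj_mul, hz, ht, ← mul_assoc, ← zpow_add, mul_eq_right] at this
      rw [← zpow_mul, ← this]; congr 1; ring
    have h2 : s * a ^ b * s⁻¹ = a ^ b := by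
      rw [hz, show (2 * (2 * k) + 1) * b = 2 * (2 * b) * k + b by ring, zpow_add, zpow_mul, h1]; simp
    have h3 : s * a ^ b * (s * a ^ b) = a ^ (2 * b) := by
      rw [show s * a ^ b * (s * a ^ b) = s * a ^ b * s⁻¹ * a ^ b by rw [si]; group, h2, ← zpow_add, two_mul]
    have h4 : a ^ b * t * (a ^ b)⁻¹ = a ^ (2 * b) * t := by
      have := h.tinv (inv_mem (zpow_mem_zpowers a b))
      rw [mul_assoc, mul_inv_eq_iff_eq_mul.1 this, two_mul, zpow_add]; group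
    have h5 := h.ns (s * a ^ b) (h.le (mul_mem hs (h.zle (zpow_mem_zpowers a b)))) s (h.le hs) (by
      rw [← mul_inv_eq_iff_eq_mul, show s * a ^ b * t * (s * a ^ b)⁻¹ = s * (a ^ b * t * (a ^ b)⁻¹) * s⁻¹ by group,
        h4, ← ht, hss]) s2 (by rw [h3, hβ, si])
    refine ⟨1, one_mem _, ?_⟩
    rw [h3] at h5
    rw [h5, one_mul, mul_inv_eq_iff_eq_mul] at ht
    simpa using ht
  · obtain ⟨i, hi⟩ := zpow_mem (odd_gen h.el2 (odd_two_mul_add_one k)) (-b)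
    simp only at hi
    obtain ⟨p, hp, e⟩ := h.ii _ (zpow_mem_zpowers a i)
    refine ⟨p⁻¹, inv_mem hp, ?_⟩
    have h1 : s * (a ^ i * t) * s⁻¹ = a ^ i * t := by
      rw [← conj_mul, hz, ht, ← mul_assoc, ← zpow_add,
        show (2 * (2 * k + 1) + 1) * i + 2 * b = (2 * k + 1) * i * 2 + b * 2 + i by ring,
        zpow_add, zpow_add, zpow_mul, zpow_mul, hi, ← zpow_mul, ← zpow_add]
      simp
    rw [← e] at h1
    calc p⁻¹ * s * p⁻¹⁻¹ * t = p⁻¹ * (s * (p * t * p⁻¹) * s⁻¹) * s * p := by group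
      _ = _ := by rw [h1]; group

theorem gen (hy : y ∈ S) (hn : y ∈ 𝐍[P]) (hP : y ∉ P) :
    a ∈ zpowers (y * t * y⁻¹ * t * (y * t * y⁻¹) * t) := by
  refine (h.par (conj_mem_of_mem_normalizer hn (h.leR h.mem)) (by rw [conj_mul, h.inv]; simp)).resolve_left ?_
  rintro ⟨p, hp, e⟩
  refine hP ((P.mul_mem_cancel_left hp).1 (h.leR (h.cn _ (mul_mem (h.le hp) hy) ?_)))
  rwa [show p * y * t * (p * y)⁻¹ = p * (y * t * y⁻¹) * p⁻¹ by group]

theorem step [Finite G] (hlt : P ≠ S) : ∃ P' a', P < P' ∧ QQ S R P' t a' := by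
  obtain ⟨y0, hy0, h0⟩ := SetLike.not_le_iff_exists.1 (lt_inf_normalizer h.pg (lt_of_le_of_ne h.le hlt)).not_ge
  obtain ⟨y, hy, hP, hy2⟩ : ∃ y ∈ S ⊓ 𝐍[P], y ∉ P ∧ y * y ∈ P := by
    classical
    have ex : ∃ k, y0 ^ 2 ^ k ∈ P := (isPGroup_iff.1 h.pg y0 hy0.1).imp fun k hk => by
      rw [hk]; exact one_mem _
    have k0 : Nat.find ex ≠ 0 := fun e => h0 (by simpa [e] using Nat.find_spec ex)
    obtain ⟨k, hk⟩ := Nat.exists_eq_succ_of_ne_zero k0
    refine ⟨y0 ^ 2 ^ k, pow_mem hy0 _, Nat.find_min ex (by omega), ?_⟩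
    have := Nat.find_spec ex
    rwa [hk, pow_succ, pow_mul, sq] at this
  have tP := h.leR h.mem
  set c := y * t * y⁻¹ * t with hc
  have s2 : y * t * y⁻¹ * (y * t * y⁻¹) = 1 := by rw [conj_mul, h.inv]; simp
  have cP : c ∈ P := mul_mem (conj_mem_of_mem_normalizer hy.2 tP) tP
  have e1 : y * t * y⁻¹ = c * t := by rw [hc, mul_assoc _ t t, h.inv, mul_one]
  have ct : t * c * t⁻¹ = c⁻¹ := by
    rw [hc, mul_inv_rev, inv_eq_of_mul_eq_one_left s2, h.ti]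
    calc t * (y * t * y⁻¹ * t) * t = t * (y * t * y⁻¹) * (t * t) := by group
      _ = _ := by rw [h.inv, mul_one]
  have g1 : zpowers a ≤ zpowers (c * c) := by
    have := h.gen hy.1 hy.2 hP
    rw [mul_assoc _ _ t] at this
    exact zpowers_le.2 this
  have g0 : zpowers (c * c) ≤ zpowers c := zpowers_le.2 (mul_mem (mem_zpowers c) (mem_zpowers c))
  have g2 : cj (zpowers a) y ≤ zpowers c := by
    refine (cj_mono (zpowers_le.2 (h.gen (inv_mem hy.1) (inv_mem hy.2) (by simpa using hP))) y).trans ?_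
    rw [cj_zpowers, zpowers_le, show y * (y⁻¹ * t * y⁻¹⁻¹ * t * (y⁻¹ * t * y⁻¹⁻¹) * t) * y⁻¹ =
      t * (y * t * y⁻¹ * t) * (y * t * y⁻¹) by group, ← hc, e1, ← mul_assoc, mul_inv_eq_iff_eq_mul.1 ct,
      show c⁻¹ * t * c * t = c⁻¹ * (t * c * t⁻¹) by rw [h.ti]; group, ct]
    exact mul_mem (inv_mem (mem_zpowers c)) (inv_mem (mem_zpowers c))
  have cj1 : ∀ j : ℤ, ∀ x ∈ zpowers c, c ^ j * (x * t) * (c ^ j)⁻¹ = c ^ (2 * j) * x * t := fun j x hx => by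
    have := inv_zpow_conj ct (inv_mem (zpow_mem_zpowers c j))
    rw [mul_assoc, mul_assoc x, mul_inv_eq_iff_eq_mul.1 this, inv_inv, ← mul_assoc x,
      zp_comm hx (zpow_mem_zpowers c j), two_mul, zpow_add]; group
  refine ⟨P ⊔ zpowers y, c, lt_of_le_not_ge le_sup_left fun h1 => hP (h1 (mem_sup_right (mem_zpowers y))),
    h.toTq, sup_le h.le (zpowers_le.2 hy.1), h.leR.trans le_sup_left,
    fun e => h.ne (by simpa [e] using g1 (mem_zpowers a)), fun g hg => ?_, ?_⟩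
  · obtain ⟨p, hp, _, ⟨i, rfl⟩, rfl⟩ := (mem_sup_of_le_normalizer_left (zpowers_le.2 hy.2)).1 hg
    have y2 : ∀ j : ℤ, y ^ (2 * j) ∈ P := fun j => by rw [zpow_mul, zpow_two]; exact zpow_mem hy2 j
    rcases Int.even_or_odd' i with ⟨j, rfl | rfl⟩
    · exact g0 (g1 (h.i _ (mul_mem hp (y2 j))))
    · have := g2 (conj_mem_cj (h.i _ (conj_mem_of_mem_normalizer' hy.2 (mul_mem hp (y2 j)))) y)
      have := mul_mem this (mem_zpowers c)
      simp only
      rw [zpow_add, zpow_one]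
      convert this using 1
      rw [hc]
      calc _ = p * y ^ (2 * j) * y * t * y⁻¹ * (p * y ^ (2 * j))⁻¹ * (y * t * y⁻¹ * (y * t * y⁻¹)) * t := by
            rw [s2]; group
        _ = _ := by group
  · rintro _ ⟨i, rfl⟩
    rcases Int.even_or_odd' i with ⟨j, rfl | rfl⟩
    · exact ⟨c ^ j, mem_sup_left (zpow_mem cP j), by simpa using cj1 j 1 (one_mem _)⟩
    · refine ⟨c ^ j * y, mul_mem (mem_sup_left (zpow_mem cP j)) (mem_sup_right (mem_zpowers y)), ?_⟩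
      simp only
      rw [zpow_add, zpow_one, ← cj1 j c (mem_zpowers c), ← e1]; group

theorem top [Finite G] : ∃ a', QQ S R S t a' := by
  obtain ⟨P', ⟨a', h1⟩, h2⟩ := (wellFounded_gt (α := Subgroup G)).has_min {P | ∃ a, QQ S R P t a} ⟨P, a, h⟩
  by_cases e : P' = S
  · exact ⟨a', e ▸ h1⟩
  · obtain ⟨P'', a'', h3, h4⟩ := h1.step e
    exact absurd h3 (h2 P'' ⟨a'', h4⟩)

end QQ

end Cfsg.Agent.H24.AI
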