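import Cfsg.Agent.H24.AI2
import Cfsg.Agent.H24.AI3

/-! Abelian Sylow `2`-intersections: non-normal essential subgroups. -/

set_option autoImplicit false

namespace Cfsg.Agent.H24.AI

open Subgroup
open scoped commutatorElement Pointwise

variable {G : Type*} [Group G] {S E B A A' M : Subgroup G} {a b e g n p r s t u v x z : G}

local instance : Fact (Nat.Prime 2) := ⟨Nat.prime_two⟩

def Two (E B : Subgroup G) : Prop := ∀ e ∈ E, e ∉ B → ∀ f ∈ E, f ∉ B → e * f ∈ B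

theorem Two.of_cj (h : Two (cj E g) (cj B g)) : Two E B := fun e he h1 f hf h2 => by
  have := h _ (conj_mem_cj he g) (conj_mem_cj_iff.not.2 h1) _ (conj_mem_cj hf g) (conj_mem_cj_iff.not.2 h2)
  rwa [conj_mul, conj_mem_cj_iff] at this

structure Ty (S E B : Subgroup G) (t z a : G) : Prop where
  pr : Pr S E B
  nn : ¬ S ≤ 𝐍[E]
  tE : t ∈ E
  tB : t ∉ B
  q : QQ S (S ⊓ 𝐍[E]) S t a
  za : z ∈ zpowers a
  z1 : z ≠ 1
  z2 : z * z = 1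
  zD : ∀ u ∈ E, u ∈ B → u ∈ DD S E ∨ u * z ∈ DD S E
  cm : ⁅E, LL S E⁆ ≤ zpowers t ⊔ zpowers z
  tU : t ∈ ⁅E, LL S E⁆

variable [Finite G]

namespace Pr
variable (h : Pr S E B) (H : Hy S)
include h H

theorem exists_x (hn : ¬ S ≤ 𝐍[E]) : ∃ x ∈ S, H24.cj E x = B ∧ H24.cj B x = E := by
  obtain ⟨x, hx, h1, h2, -⟩ := exists_pr H h.l.e hn
  exact ⟨x, hx, h.two H hx h1 h2, h.two' H hx h1 h2⟩

theorem two_symm (hn : ¬ S ≤ 𝐍[E]) (h2 : Two B E) : Two E B := by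
  obtain ⟨x, -, e1, e2⟩ := h.exists_x H hn
  exact Two.of_cj (g := x) (by rwa [e1, e2])

theorem nn_symm (hn : ¬ S ≤ 𝐍[E]) : ¬ S ≤ 𝐍[B] := fun h1 => hn fun s hs => (h.eq.ge ⟨hs, h1 hs⟩).2

theorem idx (hs : s ∈ S ⊓ 𝐍[(S ⊓ 𝐍[E] : Subgroup G)]) (hr : r ∈ S ⊓ 𝐍[(S ⊓ 𝐍[E] : Subgroup G)])
    (h1 : s ∉ 𝐍[E]) (h2 : r ∉ 𝐍[E]) : s * r ∈ 𝐍[E] := by
  rw [← cj_eq_self_iff, ← cj_cj, h.two H hr.1 hr.2 h2, h.two' H hs.1 hs.2 h1]

theorem get_two (hA : Pr S A A') (h1 : A ≤ 𝐍[(S ⊓ 𝐍[E] : Subgroup G)]) (h2 : ¬ A ≤ 𝐍[E]) : Two A A' := by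
  have n1 : A ≠ E := fun e => h2 (e ▸ le_normalizer)
  have n2 : A ≠ B := fun e => h2 (e ▸ h.l.bn)
  have key : ∀ v ∈ A, v * v = 1 → v ∈ 𝐍[E] → v ∈ A' := fun v hv v2 h3 => by
    by_contra h4
    obtain ⟨a1, -⟩ := h.z0_of H hA.l.e n1 n2 hv ⟨hA.l.e.le hv, h3⟩ v2
    exact n1 (hA.l.cc1 H hv h4 h.l.e a1)
  intro e he e1 f hf f1
  obtain ⟨v, hv, v2, d, hd, rfl⟩ := hA.l.dec H he
  obtain ⟨w, hw, w2, d', hd', rfl⟩ := hA.l.dec H hf
  have := key (v * w) (mul_mem hv hw) (by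
    rw [mul_assoc, ← mul_assoc w, ← hA.l.e.comm hv hw, mul_assoc, w2, mul_one, v2])
    (h.idx H ⟨hA.l.e.le hv, h1 hv⟩ ⟨hA.l.e.le hw, h1 hw⟩
      (fun h3 => e1 (mul_mem (key v hv v2 h3) (hA.l.DB hd)))
      fun h3 => f1 (mul_mem (key w hw w2 h3) (hA.l.DB hd')))
  rw [mul_assoc, ← mul_assoc d, hA.l.e.comm hd.1 hw, mul_assoc, ← mul_assoc]
  exact mul_mem this (mul_mem (hA.l.DB hd) (hA.l.DB hd'))

theorem le_norm (hn : ¬ S ≤ 𝐍[E]) (h2 : ¬ Two E B) : S ≤ 𝐍[(S ⊓ 𝐍[E] : Subgroup G)] := by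
  refine (le_of_inf_normalizer_le H.syl.pgrp (inf_le_left : S ⊓ 𝐍[(S ⊓ 𝐍[E] : Subgroup G)] ≤ S)
    fun y hy => ⟨hy.1, mem_normalizer_of_cj_le ?_⟩).trans inf_le_right
  have hc := h.cj (le_normalizer hy.1)
  have k : ∀ X ≤ S ⊓ 𝐍[E], H24.cj X y ≤ 𝐍[(S ⊓ 𝐍[E] : Subgroup G)] := fun X hX =>
    (cj_le_of_mem_normalizer (hX.trans (le_inf inf_le_left le_normalizer)) hy.2).trans inf_le_right
  refine (cj_mono (h.l.R_le H) y).trans ?_
  rw [cj_sup]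
  refine sup_le (le_inf hc.l.b.le ?_) (le_inf hc.l.e.le ?_) <;> by_contra h3
  · exact h2 (h.two_symm H hn (h.get_two H hc.symm (k _ h.l.leR) h3).of_cj)
  · exact h2 (h.get_two H hc (k _ h.l.e.leR) h3).of_cj

theorem tq (ht : t ∈ E) (t1 : t ∉ B) (t2 : t * t = 1) : Tq S (S ⊓ 𝐍[E]) t := by
  have tS := h.l.e.le ht
  refine ⟨H.syl.pgrp, h.l.e.leR ht, t2, fun g hg e => ⟨hg, cj_eq_self_iff.1 (h.l.cc H ht t1 hg h.l.e
    (h.l.cv H ht t1 (mul_mem (mul_mem hg tS) (inv_mem hg)) e.symm))⟩, fun u hu s hs e1 s2 e2 => ?_⟩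
  have si : s⁻¹ = s := inv_eq_of_mul_eq_one_left s2
  have ti : t⁻¹ = t := inv_eq_of_mul_eq_one_left t2
  have a1 := h.l.sqD H (h.l.cv H ht t1 hu e1.symm)
  rw [← e2] at a1 ⊢
  have a2 : s ∈ 𝐍[E] := cj_eq_self_iff.1 (h.l.cc H ht t1 hs h.l.e (by
    rw [si]; exact (E.mul_mem_cancel_right ht).1 a1.1))
  have a3 : s ∈ E := (h.inv_mem_or H ⟨hs, a2⟩ s2).elim id fun h3 => h.l.inj H ht t1 h3 (by
    have := inv_mem a1
    rwa [show (s * t * s * t)⁻¹ = ⁅t, s⁆ by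
      rw [commutatorElement_def]; simp only [mul_inv_rev, si, ti, mul_assoc]] at this)
  rw [h.l.e.comm a3 ht, mul_assoc t, s2, mul_one, t2]

theorem exists_ty (hn : ¬ S ≤ 𝐍[E]) (h2 : Two E B) : ∃ t z a, Ty S E B t z a := by
  have h3 := h.symm.two_symm H (h.nn_symm H hn) h2
  obtain ⟨t0, ht0, t01, -⟩ := h.l.exists_inv H
  obtain ⟨b, hb, b1, -⟩ := h.r.exists_inv H
  set z := ⁅t0, b⁆ with hz
  have zm := h.l.comm_le (commutator_mem_commutator ht0 hb)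
  have z2 : z * z = 1 := h.l.comm_sq H ht0 hb
  have zD : z ∉ DD S E := fun h4 => b1 (h.l.inj H ht0 t01 hb h4)
  have z1 : z ≠ 1 := fun e => zD (e ▸ one_mem _)
  have k1 : ∀ e ∈ E, e ∉ B → ∀ f ∈ B, f ∉ E → ⁅e, f⁆ = z := fun e he e1 f hf f1 => by
    have a1 := h.l.b.comm (h2 _ (inv_mem ht0) (by simpa using t01) e he e1) hf
    have a2 := h.l.e.comm (h3 _ (inv_mem hb) (by simpa using b1) f hf f1) ht0
    rw [hz, commutatorElement_def, commutatorElement_def]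
    calc e * f * e⁻¹ * f⁻¹ = t0 * (t0⁻¹ * e * f) * e⁻¹ * f⁻¹ := by group
      _ = t0 * b * (b⁻¹ * f * t0⁻¹) * f⁻¹ := by rw [a1]; group
      _ = t0 * b * (t0⁻¹ * (b⁻¹ * f * t0) * t0⁻¹ * t0⁻¹ * t0) * f⁻¹ := by
          rw [a2, show t0⁻¹ * (t0 * (b⁻¹ * f)) * t0⁻¹ * t0⁻¹ * t0 = b⁻¹ * f * t0⁻¹ by group]
      _ = t0 * b * (t0⁻¹ * (b⁻¹ * f * t0 * t0⁻¹)) * f⁻¹ * (f * t0⁻¹ * t0 * f⁻¹) := by group
      _ = _ := by group
  have k2 : ∀ e ∈ E, ∀ f ∈ B, ⁅e, f⁆ = 1 ∨ ⁅e, f⁆ = z := fun e he f hf => by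
    by_cases e1 : e ∈ B
    · exact Or.inl (commutatorElement_eq_one_iff_mul_comm.2 (h.l.b.comm e1 hf))
    by_cases f1 : f ∈ E
    · exact Or.inl (commutatorElement_eq_one_iff_mul_comm.2 (h.l.e.comm he f1))
    exact Or.inr (k1 e he e1 f hf f1)
  have k3 : ⁅E, B⁆ ≤ zpowers z := commutator_le.2 fun e he f hf =>
    (k2 e he f hf).elim (fun e => e ▸ one_mem _) fun e => e ▸ mem_zpowers z
  have hc := h.l.core H
  obtain ⟨y, hy, hy'⟩ := hc.exists_not_mem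
  have yN := LL_le hy
  have tE : y * z * y⁻¹ ∈ E := conj_mem_of_mem_normalizer yN zm.1
  have t2 : y * z * y⁻¹ * (y * z * y⁻¹) = 1 := by rw [conj_mul, z2]; simp
  have tB : y * z * y⁻¹ ∉ B := fun h4 => zD (by
    have a1 : y * z * y⁻¹ ∈ DD S E := (hc.inf_eq hy hy').le ⟨⟨tE, h.l.b.ab h4⟩, tE, by
      rw [← cj_centralizer]; exact conj_mem_cj (h.l.b.ab zm.2) y⟩
    have a2 := mem_centralizer_iff'.1 a1.2 _ (inv_mem hy)
    rwa [show y * z * y⁻¹ = z from ?_] at a1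
    calc y * z * y⁻¹ = y⁻¹ * (y * z * y⁻¹) * y := by rw [a2]; group
      _ = z := by group)
  set t := y * z * y⁻¹ with ht
  have ti : t⁻¹ = t := inv_eq_of_mul_eq_one_left t2
  have k4 : ∀ f ∈ B, f * t * f⁻¹ * t = ⁅t, f⁆⁻¹ := fun f _ => by
    rw [commutatorElement_inv, commutatorElement_def, ti]
  have zi : z⁻¹ = z := inv_eq_of_mul_eq_one_left z2
  have q0 : QQ S (S ⊓ 𝐍[E]) (S ⊓ 𝐍[E]) t z := by
    refine ⟨h.tq H tE tB t2, inf_le_left, le_rfl, z1, fun r hr => ?_, ?_⟩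
    · obtain ⟨e, he, f, hf, rfl⟩ := h.l.decR H hr
      rw [show e * f * t * (e * f)⁻¹ = e * (f * t * f⁻¹) * e⁻¹ by group,
        h.l.e.comm he (conj_mem_of_mem_normalizer (h.l.bn hf) tE), mul_inv_cancel_right, k4 f hf]
      exact inv_mem (k3 (commutator_mem_commutator tE hf))
    · intro x hx
      by_cases x1 : x = 1
      · exact ⟨1, one_mem _, by simp [x1]⟩
      have x2 : x * x = 1 := by
        obtain ⟨i, rfl⟩ := hx
        simp only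
        rw [← (Commute.refl z).mul_zpow, z2, one_zpow]
      refine ⟨b, h.l.leR hb, ?_⟩
      rw [inv_uniq hx (mem_zpowers z) x1 x2 z1 z2, ← zi, ← k1 t tE tB b hb b1, ← k4 b hb, mul_assoc _ t t, t2,
        mul_one]
  obtain ⟨a, q⟩ := q0.top
  have uE : zpowers t ⊔ zpowers z ≤ E := sup_le (zpowers_le.2 tE) (zpowers_le.2 zm.1)
  have c1 : ⁅E, B⁆ ≤ zpowers t ⊔ zpowers z := k3.trans le_sup_right
  have c2 : ⁅E, H24.cj B y⁆ ≤ zpowers t ⊔ zpowers z := by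
    have := cj_mono k3 y
    rw [cj_commutator, cj_eq_of_mem_normalizer yN, cj_zpowers] at this
    exact this.trans le_sup_left
  have c3 : ⁅E, 𝐂[E]⁆ ≤ zpowers t ⊔ zpowers z := by
    rw [le_centralizer_iff_commutator'.1 le_rfl]; exact bot_le
  have c4 := commutator_sup_right_le (le_normalizer_of_commutator_le uE c1)
    (le_normalizer_of_commutator_le uE c2) c1 c2
  refine ⟨t, z, a, h, hn, tE, tB, q, ?_, z1, z2, fun u hu hu' => ?_, (commutator_mono le_rfl (hc.gen y hy hy')).trans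
    (commutator_sup_right_le (le_normalizer_of_commutator_le uE c4) (le_normalizer_of_commutator_le uE c3) c4 c3),
    conj_mem_of_mem_normalizer (right_le_normalizer_commutator _ _ hy)
      (commutator_mem_commutator ht0 (hc.le hb))⟩
  · have := q.i b (h.l.b.le hb)
    rwa [k4 b hb, k1 t tE tB b hb b1, zi] at this
  · obtain ⟨f, hf, h4⟩ := hc.surj tE (h.l.ncB tE tB) ⟨hu, h.l.b.ab hu'⟩
    rcases k2 t tE f hf with e | e
    · left; rwa [e, inv_one, one_mul] at h4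
    · right; rwa [e, zi, h.l.e.comm zm.1 hu] at h4

end Pr

namespace Ty
variable (h : Ty S E B t z a)
include h

omit [Finite G] in
theorem a2 : a * a ≠ 1 := fun e => h.nn fun g hg => by
  refine (h.q.cn g hg ?_).2
  have h1 := h.q.tinv (h.q.i g hg)
  have h2 : ∀ x ∈ zpowers a, x⁻¹ = x := by
    rintro _ ⟨i, rfl⟩
    refine inv_eq_of_mul_eq_one_left ?_
    simp only
    rw [← (Commute.refl a).mul_zpow, e, one_zpow]
  rw [h2 _ (h.q.i g hg)] at h1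
  rw [← h1]; group

theorem par (H : Hy S) {t' z' a' : G} (h' : Ty S A A' t' z' a') :
    (∃ p ∈ S, cj A p = E) ∨ a ∈ zpowers (t' * t * t' * t) := by
  have tS := h'.pr.l.e.le h'.tE
  refine (h.q.par tS h'.q.inv).imp_left ?_
  rintro ⟨p, hp, e⟩
  exact ⟨p, hp, h'.pr.l.cc H h'.tE h'.tB hp h.pr.l.e
    (h.pr.l.cv H h.tE h.tB (mul_mem (mul_mem hp tS) (inv_mem hp)) e.symm)⟩

end Ty

theorem all_nn (H : Hy S) (h : Pr S E B) (hn : ¬ S ≤ 𝐍[E]) (hA : Ess S A) :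
    ¬ S ≤ 𝐍[A] ∧ ∃ A', Pr S A A' := by
  have : ¬ S ≤ 𝐍[A] := by
    by_cases e1 : A = E
    · rwa [e1]
    by_cases e2 : A = B
    · rw [e2]; exact h.nn_symm H hn
    exact h.nn H hA e1 e2
  obtain ⟨x, -, -, -, h1⟩ := exists_pr H hA this
  exact ⟨this, _, h1⟩

theorem two_of (H : Hy S) (hp : commutator G = ⊤) (h : Pr S E B) (hn : ¬ S ≤ 𝐍[E]) : Two E B := by
  by_contra h2
  have h3 := h.le_norm H hn h2
  have key : ∀ A, Ess S A → A ≤ S ⊓ 𝐍[E] := fun A hA => le_inf hA.le <| by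
    by_contra h4
    obtain ⟨n1, A', hA'⟩ := all_nn H h hn hA
    obtain ⟨t, z, a, ty⟩ := hA'.exists_ty H n1 (h.get_two H hA' (hA.le.trans h3) h4)
    have tS := hA.le ty.tE
    have ti := ty.q.ti
    have t1 : t ∉ 𝐍[E] := fun h5 => h4 ((h.inv_mem_or H ⟨tS, h5⟩ ty.q.inv).elim
      (fun h6 => hA'.l.cc1 H ty.tE ty.tB h.l.e h6 ▸ le_normalizer)
      fun h6 => hA'.l.cc1 H ty.tE ty.tB h.l.b h6 ▸ h.l.bn)
    have e1 := h.two H tS (h3 tS) t1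
    have e2 := h.two' H tS (h3 tS) t1
    have m1 : ∀ v ∈ E, t * v * t⁻¹ ∈ B := fun v hv => e1 ▸ conj_mem_cj hv t
    have m2 : ∀ v, v ∉ B → t * v * t⁻¹ ∉ E := fun v hv => e2 ▸ conj_mem_cj_iff.not.2 hv
    have m3 : ∀ v ∈ E, v ∉ B → ∀ w ∈ B, w ∉ E → v * w * (v * w) ≠ 1 := fun v hv v1 w hw w1 e =>
      (h.inv_mem_or H (mul_mem (h.l.e.leR hv) (h.l.leR hw)) e).elim
        (fun h5 => w1 ((E.mul_mem_cancel_left hv).1 h5)) fun h5 => v1 ((B.mul_mem_cancel_right hw).1 h5)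
    have m4 : ∀ v ∈ E, v * v = 1 → v * (t * v * t⁻¹) ∈ zpowers a ∧
        v * (t * v * t⁻¹) * (v * (t * v * t⁻¹)) * (v * (t * v * t⁻¹) * (v * (t * v * t⁻¹))) = 1 :=
      fun v hv v2 => by
        have vi : v⁻¹ = v := inv_eq_of_mul_eq_one_left v2
        have := h.l.comm_sq H hv (m1 v hv)
        rw [commutatorElement_def, show (t * v * t⁻¹)⁻¹ = t * v⁻¹ * t⁻¹ by group, vi, mul_assoc (v * _) v] at this
        refine ⟨?_, this⟩
        have := ty.q.i v (h.l.e.le hv)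
        rwa [vi, show v * t * v * t = v * (t * v * t⁻¹) by rw [ti]; group] at this
    refine h2 fun e he e1 f hf f1 => ?_
    obtain ⟨v, hv, v2, d, hd, rfl⟩ := h.l.dec H he
    obtain ⟨w, hw, w2, d', hd', rfl⟩ := h.l.dec H hf
    rw [mul_assoc, ← mul_assoc d, h.l.e.comm hd.1 hw, mul_assoc, ← mul_assoc]
    refine mul_mem ?_ (mul_mem (h.l.DB hd) (h.l.DB hd'))
    by_contra h5
    have v1 : v ∉ B := fun h6 => e1 (mul_mem h6 (h.l.DB hd))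
    have w1 : w ∉ B := fun h6 => f1 (mul_mem h6 (h.l.DB hd'))
    obtain ⟨a1, a2⟩ := m4 v hv v2
    obtain ⟨b1, b2⟩ := m4 w hw w2
    have c1 := inv_uniq (mul_mem a1 a1) (mul_mem b1 b1) (m3 v hv v1 _ (m1 v hv) (m2 v v1)) a2
      (m3 w hw w1 _ (m1 w hw) (m2 w w1)) b2
    have c2 := zp_comm a1 b1
    have c3 := h.l.comm_le (commutator_mem_commutator (inv_mem hw) (m1 v hv))
    refine m3 (v * w * ⁅w⁻¹, t * v * t⁻¹⁆) (mul_mem (mul_mem hv hw) c3.1)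
      (fun h6 => h5 ((B.mul_mem_cancel_right c3.2).1 h6)) _ (m1 _ (mul_mem hv hw)) (m2 _ h5) ?_
    rw [show v * w * ⁅w⁻¹, t * v * t⁻¹⁆ * (t * (v * w) * t⁻¹) = v * (t * v * t⁻¹) * (w * (t * w * t⁻¹)) by
      rw [commutatorElement_def]; group]
    generalize v * (t * v * t⁻¹) = X at *
    generalize w * (t * w * t⁻¹) = Y at *
    calc X * Y * (X * Y) = X * (Y * X) * Y := by group
      _ = X * X * (Y * Y) := by rw [← c2]; group
      _ = 1 := by rw [← c1, a2]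
  refine hn ((foc2 (M := S ⊓ 𝐍[E]) H hp (fun n hn' a _ ha => ?_) (fun a ha b hb a1 b1 => ⟨mul_mem ha hb,
    h.idx H ⟨ha, h3 ha⟩ ⟨hb, h3 hb⟩ (fun h4 => a1 ⟨ha, h4⟩) fun h4 => b1 ⟨hb, h4⟩⟩) fun A hA =>
      (commutator_le_left_of_le_normalizer LL_le).trans (key A hA)).trans inf_le_right)
  refine (cj_mono (h.l.R_le H) n).trans ?_ (conj_mem_cj ha n)
  rw [cj_sup]
  exact sup_le (key _ (h.l.b.cj hn')) (key _ (h.l.e.cj hn'))

end Cfsg.Agent.H24.AI
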