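import Cfsg.Agent.H24.AI4

/-! Abelian Sylow `2`-intersections: the dihedral case and the assembly. -/

set_option autoImplicit false

namespace Cfsg.Agent.H24.AI

open Subgroup
open scoped commutatorElement Pointwise

variable {G : Type*} [Group G] {S R E B A A' M : Subgroup G} {a a' b c e g n p r s t t' u v x y z z' : G}

local instance : Fact (Nat.Prime 2) := ⟨Nat.prime_two⟩

theorem mem_sq_iff : x ∈ zpowers (a * a) ↔ ∃ i : ℤ, x = a ^ (2 * i) := by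
  simp only [mem_zpowers_iff, zpow_mul, zpow_two, eq_comm]

theorem sq_le : zpowers (a * a) ≤ zpowers a := zpowers_le.2 (mul_mem (mem_zpowers a) (mem_zpowers a))

theorem par_mul (hx : x ∈ zpowers a) (hy : y ∈ zpowers a) (h1 : x ∉ zpowers (a * a)) (h2 : y ∉ zpowers (a * a)) :
    x * y ∈ zpowers (a * a) := by
  obtain ⟨i, rfl⟩ := hx
  obtain ⟨j, rfl⟩ := hy
  rcases Int.even_or_odd' i with ⟨i, rfl | rfl⟩
  · exact absurd (mem_sq_iff.2 ⟨i, rfl⟩) h1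
  rcases Int.even_or_odd' j with ⟨j, rfl | rfl⟩
  · exact absurd (mem_sq_iff.2 ⟨j, rfl⟩) h2
  exact mem_sq_iff.2 ⟨i + j + 1, by simp only; rw [← zpow_add]; congr 1; ring⟩

theorem conj_zpow_inv (h : t * c * t⁻¹ = c⁻¹) (j : ℤ) : c ^ j * t * (c ^ j)⁻¹ = c ^ (2 * j) * t := by
  have := inv_zpow_conj h (inv_mem (zpow_mem_zpowers c j))
  rw [mul_assoc, mul_inv_eq_iff_eq_mul.1 this, two_mul, zpow_add]; group

/-- an element moving `t` inside `⟨c²⟩ t` lies in `⟨c⟩ C(t)` -/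
theorem dec_cent (h : t * c * t⁻¹ = c⁻¹) (t2 : t * t = 1) (hg : g * t * g⁻¹ * t ∈ zpowers (c * c)) :
    ∃ j : ℤ, t * ((c ^ j)⁻¹ * g) = (c ^ j)⁻¹ * g * t := by
  obtain ⟨j, hj⟩ := mem_sq_iff.1 hg
  refine ⟨j, ?_⟩
  have h1 : g * t * g⁻¹ = c ^ j * t * (c ^ j)⁻¹ := by
    rw [conj_zpow_inv h, ← hj, mul_assoc _ t t, t2, mul_one]
  calc t * ((c ^ j)⁻¹ * g) = (c ^ j)⁻¹ * (c ^ j * t * (c ^ j)⁻¹) * g := by group
    _ = _ := by rw [← h1]; group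

namespace QQ
variable (h : QQ S R S t a)
include h

theorem nrm2 (hp : p ∈ S) (hx : x ∈ zpowers (a * a)) : p * x * p⁻¹ ∈ zpowers (a * a) := by
  obtain ⟨i, rfl⟩ := mem_sq_iff.1 hx
  obtain ⟨j, hj⟩ := h.nrm hp (zpow_mem_zpowers a i)
  exact mem_sq_iff.2 ⟨j, by rw [two_mul, two_mul, zpow_add, zpow_add, ← conj_mul, ← hj]⟩

theorem not_sq : a ∉ zpowers (a * a) := fun h1 => h.ne (eq_one_of_even h.el2 even_two (by rwa [zpow_two]))

def S0 : Subgroup G where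
  carrier := {g | g ∈ S ∧ g * t * g⁻¹ * t ∈ zpowers (a * a)}
  mul_mem' := fun {g k} hg hk => ⟨mul_mem hg.1 hk.1, by
    have := mul_mem (h.nrm2 hg.1 hk.2) hg.2
    rwa [show g * (k * t * k⁻¹ * t) * g⁻¹ * (g * t * g⁻¹ * t) = g * k * t * k⁻¹ * (t * t) * g⁻¹ * t by group,
      h.inv, show g * k * t * k⁻¹ * 1 * g⁻¹ = g * k * t * (g * k)⁻¹ by group] at this⟩
  one_mem' := ⟨one_mem _, by simp [h.inv]⟩
  inv_mem' := fun {g} hg => ⟨inv_mem hg.1, by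
    have := h.nrm2 (inv_mem hg.1) (inv_mem hg.2)
    rwa [show g⁻¹ * (g * t * g⁻¹ * t)⁻¹ * g⁻¹⁻¹ = g⁻¹ * t⁻¹ * g⁻¹⁻¹ * t⁻¹ by group, h.ti] at this⟩

theorem mem_S0 : g ∈ h.S0 ↔ g ∈ S ∧ g * t * g⁻¹ * t ∈ zpowers (a * a) := Iff.rfl

theorem S0_idx {k : G} (hg : g ∈ S) (hk : k ∈ S) (h1 : g ∉ h.S0) (h2 : k ∉ h.S0) : g * k ∈ h.S0 := by
  refine ⟨mul_mem hg hk, ?_⟩
  have := par_mul (h.nrm hg (h.i k hk)) (h.i g hg) (fun h3 => h2 ⟨hk, by
    simpa [mul_assoc] using h.nrm2 (inv_mem hg) h3⟩) fun h3 => h1 ⟨hg, h3⟩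
  rwa [show g * (k * t * k⁻¹ * t) * g⁻¹ * (g * t * g⁻¹ * t) = g * k * t * k⁻¹ * (t * t) * g⁻¹ * t by group,
    h.inv, show g * k * t * k⁻¹ * 1 * g⁻¹ = g * k * t * (g * k)⁻¹ by group] at this

theorem S0_conj (hp : p ∈ S) (hg : g ∈ h.S0) : p * g * p⁻¹ ∈ h.S0 := by
  by_cases h1 : p ∈ h.S0
  · exact mul_mem (mul_mem h1 hg) (inv_mem h1)
  · exact h.S0_idx (mul_mem hp hg.1) (inv_mem hp) (fun h2 => h1 ((h.S0.mul_mem_cancel_right hg).1 h2))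
      (by simpa using h1)

end QQ

variable [Finite G]

namespace Ty
variable (h : Ty S E B t z a) (H : Hy S)
include h

omit [Finite G] in
theorem le_S0 (hp : p ∈ S) (e : cj A p = E) : A ≤ h.q.S0 := fun x hx => by
  have h1 : p * x * p⁻¹ ∈ E := e ▸ conj_mem_cj hx p
  have h2 : p * x * p⁻¹ ∈ h.q.S0 := ⟨h.pr.l.e.le h1, by
    rw [h.pr.l.e.comm h1 h.tE, mul_inv_cancel_right, h.q.inv]; exact one_mem _⟩
  simpa [mul_assoc] using h.q.S0_conj (inv_mem hp) h2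

omit [Finite G] in
theorem not_conj (h1 : t' ∈ A) (t2 : t' * t' = 1) (h2 : a ∈ zpowers (t' * t * t' * t)) (hp : p ∈ S) :
    cj A p ≠ E := fun e => by
  have := (h.le_S0 hp e h1).2
  rw [inv_eq_of_mul_eq_one_left t2] at this
  exact h.q.not_sq (zpowers_le.2 this h2)

include H in
theorem not_one (hp : commutator G = ⊤) : ¬ ∀ A, Ess S A → A ≤ h.q.S0 := fun h1 => by
  obtain ⟨p, p1, p2⟩ := h.q.ii a (mem_zpowers a)
  have aS := h.q.zle (mem_zpowers a)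
  have key : S ≤ h.q.S0 := foc2 H hp (fun n hn g _ hg => ?_) (fun a ha b hb => h.q.S0_idx ha hb)
    fun A hA => (commutator_le_left_of_le_normalizer LL_le).trans (h1 A hA)
  · have := (key p1).2
    rw [p2, mul_assoc, h.q.inv, mul_one] at this
    exact h.q.not_sq this
  obtain ⟨j, hj⟩ := dec_cent (h.q.tinv (mem_zpowers a)) h.q.inv hg.2
  have h2 := h.pr.l.cv H h.tE h.tB (mul_mem (inv_mem (zpow_mem aS j)) hg.1) hj
  have h3 : ∀ n ∈ 𝐍[S], ∀ e ∈ E, n * e * n⁻¹ ∈ h.q.S0 := fun n hn e he =>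
    h1 _ (h.pr.l.e.cj hn) (conj_mem_cj he n)
  have h4 : n * a * n⁻¹ ∈ h.q.S0 := by
    have := mul_mem (h3 _ (mul_mem hn (le_normalizer p1)) t h.tE) (inv_mem (h3 n hn t h.tE))
    rwa [show n * p * t * (n * p)⁻¹ = n * (p * t * p⁻¹) * n⁻¹ by group, p2,
      show n * (a * t) * n⁻¹ * (n * t * n⁻¹)⁻¹ = n * a * n⁻¹ by group] at this
  have := mul_mem (zpow_mem h4 j) (h3 n hn _ h2)
  rwa [conj_zpow, show n * a ^ j * n⁻¹ * (n * ((a ^ j)⁻¹ * g) * n⁻¹) = n * g * n⁻¹ by group] at this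

omit [Finite G] in
theorem zp_eq (h1 : t' ∈ S) (t2 : t' * t' = 1) (h2 : a ∈ zpowers (t' * t * t' * t)) :
    zpowers a = zpowers (t' * t * (t' * t)) := by
  refine le_antisymm (zpowers_le.2 (by rwa [← mul_assoc])) (zpowers_le.2 ?_)
  have := h.q.i t' h1
  rwa [inv_eq_of_mul_eq_one_left t2, mul_assoc _ t'] at this

include H in
theorem zp_eq' (h' : Ty S A A' t' z' a') (h2 : a ∈ zpowers (t' * t * t' * t)) : zpowers a' = zpowers a := by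
  have h3 := (h'.par H h).resolve_left fun ⟨p, hp, e⟩ =>
    h.not_conj h'.tE h'.q.inv h2 (inv_mem hp) (by rw [← e, cj_cj_inv])
  rw [h'.zp_eq (h.pr.l.e.le h.tE) h.q.inv h3, h.zp_eq (h'.pr.l.e.le h'.tE) h'.q.inv h2, ← zpowers_inv]
  simp only [mul_inv_rev, h.q.ti, h'.q.ti]

include H in
theorem third (h' : Ty S A A' t' z' a') (h2 : a ∈ zpowers (t' * t * t' * t)) {C C' : Subgroup G} {t'' z'' a'' : G}
    (h'' : Ty S C C' t'' z'' a'') : (∃ p ∈ S, cj C p = E) ∨ ∃ p ∈ S, cj C p = A := by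
  refine (h.par H h'').imp_right fun h3 => (h'.par H h'').resolve_right fun h4 => ?_
  have s1 := h.pr.l.e.le h.tE
  have s2 := h'.pr.l.e.le h'.tE
  have s3 := h''.pr.l.e.le h''.tE
  have e1 := h.zp_eq s2 h'.q.inv h2
  have e2 := h.zp_eq s3 h''.q.inv h3
  have e3 := (h.zp_eq' H h' h2).symm.trans (h'.zp_eq s3 h''.q.inv h4)
  set c := t' * t with hc
  set k := t'' * t with hk
  have kS : k ∈ S := mul_mem s3 s1
  have b1 : ∀ x ∈ zpowers a, c * x = x * c := fun x hx =>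
    zp_comm (mem_zpowers c) (sq_le (e1 ▸ hx))
  have b2 : ∀ x ∈ zpowers a, k * x = x * k := fun x hx =>
    zp_comm (mem_zpowers k) (sq_le (e2 ▸ hx))
  have b3 : k * c * k⁻¹ * c⁻¹ ∈ zpowers a := by
    have := mul_mem (h.zp_eq' H h' h2 ▸ h'.q.i k kS) (h.q.nrm s2 (h.q.i k kS))
    rwa [show k * t' * k⁻¹ * t' * (t' * (k * t * k⁻¹ * t) * t'⁻¹) = k * t' * k⁻¹ * (t' * t') * k * t * k⁻¹ * t * t'⁻¹
      by group, h'.q.inv, ← h.q.ti, show k * t' * k⁻¹ * 1 * k * t⁻¹ * k⁻¹ * t⁻¹ * t'⁻¹ =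
        k * (t' * t⁻¹) * k⁻¹ * (t' * t)⁻¹ by group, h.q.ti] at this
  set x := k * c * k⁻¹ * c⁻¹ with hx
  have b4 : k * c * k⁻¹ = x * c := by rw [hx]; group
  have cc : c * c ∈ zpowers a := e1 ▸ mem_zpowers _
  have kk : k * k ∈ zpowers a := e2 ▸ mem_zpowers _
  have b5 : x * x = 1 := by
    have : k * (c * c) * k⁻¹ = x * x * (c * c) := by
      rw [← conj_mul, b4, mul_assoc x c, ← mul_assoc c, b1 x b3]; group
    rw [b2 _ cc, mul_inv_cancel_right] at this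
    exact right_eq_mul.1 this
  have b6 : x ∈ zpowers (a * a) := by
    obtain ⟨j, hj⟩ := b3
    simp only at hj
    rcases Int.even_or_odd' j with ⟨j, rfl | rfl⟩
    · exact mem_sq_iff.2 ⟨j, hj.symm⟩
    · refine absurd (eq_one_of_odd (m := 2 * j + 1) (zpow_two a ▸ el2_zpow h.q.el2 2)
        (odd_two_mul_add_one j) ?_) h.a2
      rw [(Commute.refl a).mul_zpow, hj, b5]
  have b7 : ∀ y, zpowers a = zpowers y → y ∉ zpowers (a * a) := fun y e h5 =>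
    h.q.not_sq (zpowers_le.2 h5 (e ▸ mem_zpowers a))
  refine b7 _ e3 ?_
  have b8 := mul_mem (inv_mem b6) (par_mul (inv_mem cc) kk (fun h5 => b7 _ e1 ((Subgroup.inv_mem_iff _).1 h5)) (b7 _ e2))
  rw [show t'' * t' = k * c⁻¹ by rw [hk, hc, mul_inv_rev, h'.q.ti]; group]
  convert b8 using 1
  calc k * c⁻¹ * (k * c⁻¹) = (k * c * k⁻¹)⁻¹ * (k * k * c⁻¹) := by group
    _ = c⁻¹ * x⁻¹ * (c⁻¹ * (c * (k * k)) * c⁻¹) := by rw [b4]; group
    _ = (x * c)⁻¹ * (c⁻¹ * (k * k)) := by rw [b1 _ kk]; group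
    _ = _ := by rw [← b1 x b3]; group

end Ty

def WW (S : Subgroup G) : Subgroup G := S ⊓ 𝐂[S] ⊓ ⨅ A : {A // Ess S A}, 𝐂[LL S A.1]

omit [Finite G] in
theorem mem_WW : u ∈ WW S ↔ u ∈ S ⊓ 𝐂[S] ∧ ∀ A, Ess S A → u ∈ 𝐂[LL S A] := by
  simp only [WW, mem_inf, mem_iInf, Subtype.forall]

theorem sc_WW (H : Hy S) : IsStronglyClosed (WW S) S := by
  refine sc H (inf_le_left.trans inf_le_left) (fun n hn w hw => mem_WW.2 ⟨conj_mem_of_mem_normalizer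
    (le_normalizer_inf le_rfl (normalizer_le_normalizer_centralizer S) hn) (mem_WW.1 hw).1, fun A hA => ?_⟩)
    fun A hA l hl w _ hw => ?_
  · have := conj_mem_cj ((mem_WW.1 hw).2 _ (hA.cj (inv_mem hn))) n
    rwa [cj_centralizer, cj_LL hn, cj_inv_cj] at this
  · rwa [mem_centralizer_iff'.1 ((mem_WW.1 hw).2 A hA) l hl, mul_inv_cancel_right]

theorem Ty.dih (h : Ty S E B t z a) (H : Hy S) (hp : commutator G = ⊤) (hW : WW S = ⊥)
    (h' : Ty S A A' t' z' a') (h2 : a ∈ zpowers (t' * t * t' * t)) : S = closure {t', t} := by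
  have s1 := h.pr.l.e.le h.tE
  have s2 := h'.pr.l.e.le h'.tE
  have e1 := h.zp_eq s2 h'.q.inv h2
  have e2 := h.zp_eq' H h' h2
  set c := t' * t with hc
  have cS : c ∈ S := mul_mem s2 s1
  have ti := h.q.ti
  have ct : t * c * t⁻¹ = c⁻¹ := by rw [hc, mul_inv_rev, h'.q.ti, ti, mul_assoc, mul_assoc, h.q.inv, mul_one]
  have ac : zpowers a ≤ zpowers c := e1 ▸ sq_le
  have zz : z' = z := inv_uniq (ac (e2 ▸ h'.za)) (ac h.za) h'.z1 h'.z2 h.z1 h.z2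
  subst zz
  set Γ := zpowers c ⊔ zpowers t with hΓ
  have tΓ : t ∈ Γ := mem_sup_right (mem_zpowers t)
  have cΓ : zpowers c ≤ Γ := le_sup_left
  have t'Γ : t' ∈ Γ := (Γ.mul_mem_cancel_right tΓ).1 (cΓ (mem_zpowers c))
  have ΓS : Γ ≤ S := sup_le (zpowers_le.2 cS) (zpowers_le.2 s1)
  have g1 : ∀ g ∈ S, g * t * g⁻¹ ∈ Γ := fun g hg => (Γ.mul_mem_cancel_right tΓ).1 (cΓ (ac (h.q.i g hg)))
  have g2 : ∀ g ∈ S, g * t' * g⁻¹ ∈ Γ := fun g hg =>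
    (Γ.mul_mem_cancel_right t'Γ).1 (cΓ (ac (e2 ▸ h'.q.i g hg)))
  have nΓ : ∀ n, n * t * n⁻¹ ∈ Γ → n * t' * n⁻¹ ∈ Γ → n ∈ 𝐍[Γ] := fun n a1 a2 => mem_normalizer_of_cj_le (by
    rw [hΓ, cj_sup, cj_zpowers, cj_zpowers, hc, ← conj_mul]
    exact sup_le (zpowers_le.2 (mul_mem a2 a1)) (zpowers_le.2 a1))
  have cls : ∀ C, Ess S C → (∃ p ∈ S, cj C p = E) ∨ ∃ p ∈ S, cj C p = A := fun C hC => by
    obtain ⟨n1, C', hC'⟩ := all_nn H h.pr h.nn hC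
    obtain ⟨t'', z'', a'', ty⟩ := hC'.exists_ty H n1 (two_of H hp hC' n1)
    exact h.third H h' h2 ty
  have cmΓ : ∀ C, Ess S C → ⁅C, LL S C⁆ ≤ Γ := fun C hC => by
    have k : ∀ p ∈ S, ⁅cj C p, LL S (cj C p)⁆ ≤ Γ → ⁅C, LL S C⁆ ≤ Γ := fun p hp h3 => by
      rw [← cj_LL (le_normalizer hp), ← cj_commutator, cj_le_iff] at h3
      exact h3.trans (cj_eq_of_mem_normalizer (nΓ _ (g1 _ (inv_mem hp)) (g2 _ (inv_mem hp)))).le
    rcases cls C hC with ⟨p, hp, e⟩ | ⟨p, hp, e⟩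
    · exact k p hp (e ▸ h.cm.trans (sup_le (zpowers_le.2 tΓ) (zpowers_le.2 (cΓ (ac h.za)))))
    · exact k p hp (e ▸ h'.cm.trans (sup_le (zpowers_le.2 t'Γ) (zpowers_le.2 (cΓ (ac h.za)))))
  have NΓ : ∀ n ∈ 𝐍[S], n ∈ 𝐍[Γ] := fun n hn => by
    have k : ∀ C, Ess S C → ∀ x ∈ ⁅C, LL S C⁆, n * x * n⁻¹ ∈ Γ := fun C hC x hx => cmΓ _ (hC.cj hn) (by
      rw [← cj_LL hn, ← cj_commutator]; exact conj_mem_cj hx n)
    exact nΓ n (k E h.pr.l.e t h.tU) (k A h'.pr.l.e t' h'.tU)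
  have tn : zpowers t ≤ 𝐍[zpowers c] := zpowers_le.2 (mem_normalizer_of_cj_le (by
    rw [cj_zpowers, ct, zpowers_inv]))
  have Nc : ∀ n ∈ 𝐍[S], n * c * n⁻¹ ∈ zpowers c := fun n hn => by
    obtain ⟨x, hx, _, ⟨i, rfl⟩, e⟩ := (mem_sup_of_le_normalizer_left tn).1
      (conj_mem_of_mem_normalizer (NΓ n hn) (cΓ (mem_zpowers c)))
    have t2 : ∀ j : ℤ, t ^ (2 * j) = 1 := fun j => by rw [zpow_mul, zpow_two, h.q.inv, one_zpow]
    rcases Int.even_or_odd' i with ⟨j, rfl | rfl⟩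
    · simpa [e, t2] using hx
    · simp only [zpow_add, t2, one_mul, zpow_one] at e
      have h3 : n * (c * c) * n⁻¹ = 1 := by
        rw [← conj_mul, e, show x * t * (x * t) = x * (t * x * t⁻¹) * (t * t) by group, inv_zpow_conj ct hx, h.q.inv]
        simp
      rw [show c * c = 1 from conj_eq_one_iff.1 h3, zpowers_one_eq_bot] at e1
      exact absurd (zpowers_eq_bot.1 e1) h.q.ne
  have cm : ∀ g ∈ 𝐍[S], ∀ k ∈ 𝐍[S], ⁅g, k⁆ ∈ 𝐂[zpowers c] := fun g hg k hk => by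
    obtain ⟨i, hi⟩ := Nc g hg
    obtain ⟨j, hj⟩ := Nc k hk
    simp only at hi hj
    have a1 : g * k * c * (g * k)⁻¹ = k * g * c * (k * g)⁻¹ := by
      calc _ = g * (k * c * k⁻¹) * g⁻¹ := by group
        _ = c ^ (i * j) := by rw [← hj, ← conj_zpow, ← hi, ← zpow_mul]
        _ = k * (g * c * g⁻¹) * k⁻¹ := by rw [← hi, ← conj_zpow, ← hj, ← zpow_mul, mul_comm]
        _ = _ := by group
    have a2 : (k * g)⁻¹ * (g * k) ∈ 𝐂[zpowers c] := by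
      rw [centralizer_zpowers, mem_centralizer_singleton_iff]
      calc _ = (k * g)⁻¹ * (g * k * c * (g * k)⁻¹) * (g * k) := by group
        _ = _ := by rw [a1]; group
    have a3 : k * g ∈ 𝐍[zpowers c] := mem_normalizer_of_cj_le (by
      rw [cj_zpowers]; exact zpowers_le.2 (Nc _ (mul_mem hk hg)))
    have := conj_mem_of_mem_normalizer (normalizer_le_normalizer_centralizer _ a3) a2
    rwa [show k * g * ((k * g)⁻¹ * (g * k)) * (k * g)⁻¹ = ⁅g, k⁆ by rw [commutatorElement_def]; group] at this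
  have F1 : S ≤ zpowers t ⊔ 𝐂[zpowers c] := foc H hp (fun n hn s hs => mem_sup_right (by
    simpa [commutatorElement_def, mul_assoc] using cm _ (le_normalizer (inv_mem hs)) n hn)) fun C hC =>
      (cmΓ C hC).trans (sup_le (le_sup_of_le_right fun x hx => mem_centralizer_iff'.2 fun y hy => zp_comm hy hx)
        le_sup_left)
  have F2 : ∀ g ∈ S, ∃ j : ℤ, (c ^ j)⁻¹ * g ∈ E := fun g hg => by
    obtain ⟨j, hj⟩ := dec_cent ct h.q.inv (e1 ▸ h.q.i g hg)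
    exact ⟨j, h.pr.l.cv H h.tE h.tB (mul_mem (inv_mem (zpow_mem cS j)) hg) hj⟩
  have F3 : ∀ k ∈ E, k ∈ 𝐂[zpowers c] → k ∈ S ⊓ 𝐂[S] := fun k hk h3 =>
    ⟨h.pr.l.e.le hk, mem_centralizer_iff'.2 fun g hg => by
      obtain ⟨j, hj⟩ := F2 g hg
      have a1 := mem_centralizer_iff'.1 h3 _ (zpow_mem_zpowers c j)
      calc g * k = c ^ j * ((c ^ j)⁻¹ * g * k) := by group
        _ = c ^ j * k * ((c ^ j)⁻¹ * g) := by rw [h.pr.l.e.comm hj hk]; group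
        _ = _ := by rw [a1]; group⟩
  have zZ : z' ∈ S ⊓ 𝐂[S] := ⟨h.q.zle h.za, mem_centralizer_iff'.2 fun g hg => by
    rw [← mul_inv_eq_iff_eq_mul]
    exact inv_uniq (h.q.nrm hg h.za) h.za (fun e => h.z1 (conj_eq_one_iff.1 e)) (by rw [conj_mul, h.z2]; simp)
      h.z1 h.z2⟩
  have W1 : ∀ u ∈ S ⊓ 𝐂[S], u ∈ DD S E → u ∈ DD S A → u = 1 := fun u hu a1 a2 => by
    refine mem_bot.1 (hW ▸ mem_WW.2 ⟨hu, fun C hC => ?_⟩)
    have k : ∀ p ∈ S, u ∈ 𝐂[LL S (cj C p)] → u ∈ 𝐂[LL S C] := fun p hp h3 => by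
      rw [← cj_LL (le_normalizer hp), ← cj_centralizer, mem_cj] at h3
      rwa [mem_centralizer_iff'.1 hu.2 _ (inv_mem hp), inv_mul_cancel_right] at h3
    rcases cls C hC with ⟨p, hp, e⟩ | ⟨p, hp, e⟩
    · exact k p hp (e ▸ a1.2)
    · exact k p hp (e ▸ a2.2)
  have F4 : ∀ g ∈ S, g ∉ Γ → ∃ γ ∈ Γ, ∃ u ∈ S ⊓ 𝐂[S], u ∈ DD S E ∧ u * z' ∈ DD S A ∧ g = γ * u := by
    intro g hg g0
    obtain ⟨j, hj⟩ := F2 g hg
    obtain ⟨x, hx, k, hk, e⟩ := (mem_sup_of_le_normalizer_right (le_normalizer_centralizer tn)).1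
      (F1 (h.pr.l.e.le hj))
    have xE : x ∈ E := zpowers_le.2 h.tE hx
    have kZ := F3 k ((E.mul_mem_cancel_left xE).1 (e ▸ hj)) hk
    have a1 : c ^ j * x ∈ Γ := mul_mem (cΓ (zpow_mem_zpowers c j)) (mem_sup_right hx)
    have a2 : g = c ^ j * x * k := by rw [mul_assoc, ← e]; group
    have key : ∀ γ ∈ Γ, ∀ u ∈ S ⊓ 𝐂[S], u ∈ DD S E → g = γ * u → u * z' ∈ DD S A := fun γ hγ u hu a3 a4 =>
      (h'.zD u (h'.pr.l.e.zle hu) (h'.pr.l.b.zle hu)).resolve_left fun a5 =>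
        g0 (by rw [a4, W1 u hu a3 a5, mul_one]; exact hγ)
    rcases h.zD k (h.pr.l.e.zle kZ) (h.pr.l.b.zle kZ) with a3 | a3
    · exact ⟨_, a1, k, kZ, a3, key _ a1 k kZ a3 a2, a2⟩
    · have a4 : g = c ^ j * x * z' * (k * z') := by
        rw [mem_centralizer_iff'.1 zZ.2 k kZ.1, mul_assoc _ z', ← mul_assoc z', h.z2, one_mul, a2]
      have a5 := mul_mem a1 (cΓ (ac h.za))
      exact ⟨_, a5, _, mul_mem kZ zZ, a3, key _ a5 _ (mul_mem kZ zZ) a3 a4, a4⟩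
  have F5 : S ≤ Γ := foc2 H hp (fun n hn g _ hg => conj_mem_of_mem_normalizer (NΓ n hn) hg)
    (fun g hg k hk g0 k0 => by
      obtain ⟨γ, a1, u, a2, a3, a4, rfl⟩ := F4 g hg g0
      obtain ⟨γ', b1, u', b2, b3, b4, rfl⟩ := F4 k hk k0
      have := W1 _ (mul_mem a2 b2) (mul_mem a3 b3) (by
        have := mul_mem a4 b4
        rwa [mem_centralizer_iff'.1 zZ.2 u' b2.1, mul_assoc u, ← mul_assoc z', h.z2, one_mul] at this)
      rw [mul_assoc, ← mul_assoc u, ← mem_centralizer_iff'.1 a2.2 γ' (ΓS b1), mul_assoc γ', this, mul_one]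
      exact mul_mem a1 b1) cmΓ
  refine le_antisymm (F5.trans (sup_le (zpowers_le.2 (mul_mem ?_ ?_)) (zpowers_le.2 ?_))) ?_
  any_goals exact subset_closure (by simp)
  rw [closure_le, Set.insert_subset_iff, Set.singleton_subset_iff]
  exact ⟨s2, s1⟩

theorem main (H : Hy S) (hp : commutator G = ⊤) (h0 : S ≠ ⊥)
    (hsc : ∀ M : Subgroup G, M ≤ 𝐂[M] → IsStronglyClosed M S → M = ⊥) :
    ⁅S, S⁆ ≤ 𝐂[S] ∨ ∃ x y : G, x * x = 1 ∧ y * y = 1 ∧ x ≠ 1 ∧ y ≠ 1 ∧ x ≠ y ∧ S = closure {x, y} := by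
  have hZ := center_ne_bot H.syl.pgrp h0
  have hW : WW S = ⊥ := hsc _ ((inf_le_left.trans inf_le_right).trans
    (centralizer_anti (inf_le_left.trans inf_le_left))) (sc_WW H)
  by_cases c1 : ∃ E, Ess S E ∧ ¬ S ≤ 𝐍[E]
  · right
    obtain ⟨E, hE, hn⟩ := c1
    obtain ⟨x, -, -, -, h⟩ := exists_pr H hE hn
    obtain ⟨t, z, a, ty⟩ := h.exists_ty H hn (two_of H hp h hn)
    by_contra hc
    refine ty.not_one H hp fun A hA => ?_
    obtain ⟨n1, A', hA'⟩ := all_nn H h hn hA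
    obtain ⟨t', z', a', ty'⟩ := hA'.exists_ty H n1 (two_of H hp hA' n1)
    rcases ty.par H ty' with ⟨p, p1, e⟩ | h2
    · exact ty.le_S0 p1 e
    · refine absurd ⟨t', t, ty'.q.inv, ty.q.inv, fun e => ty'.tB (e ▸ one_mem _), fun e => ty.tB (e ▸ one_mem _),
        fun e => ty.q.ne ?_, ty.dih H hp hW ty' h2⟩ hc
      rwa [e, ty.q.inv, one_mul, ty.q.inv, zpowers_one_eq_bot, mem_bot] at h2
  push Not at c1
  left
  by_cases c2 : ∃ E B, Ess S E ∧ Ess S B ∧ E ≠ B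
  · obtain ⟨E, B, hE, hB, hne⟩ := c2
    wlog hc : Nat.card E ≤ Nat.card B generalizing E B
    · exact this B E hB hE hne.symm (le_of_not_ge hc)
    have h : Half S E B := ⟨hE, hB, hne, hB.le.trans (c1 E hE), hE.le.trans (c1 B hB), hc⟩
    have e : S ⊓ 𝐍[E] = S := inf_eq_left.2 (c1 E hE)
    have h1 := h.comm_R H
    rw [e] at h1
    exact fun u hu => mem_centralizer_iff'.2 fun s hs => (h.z0 H (h1 hu).1 (h1 hu).2 (e.ge hs)).symm
  push Not at c2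
  by_cases c3 : ∃ E, Ess S E
  · obtain ⟨E, hE⟩ := c3
    have := hsc E hE.ab (sc H hE.le (fun n hn a ha => c2 _ _ (hE.cj hn) hE ▸ conj_mem_cj ha n)
      fun A hA l hl a _ ha => conj_mem_of_mem_normalizer (LL_le (c2 _ _ hA hE ▸ hl)) ha)
    exact absurd (le_bot_iff.1 (this ▸ hE.zle)) hZ
  · exact absurd (le_bot_iff.1 (hW ▸ fun u hu => mem_WW.2 ⟨hu, fun A hA => absurd ⟨A, hA⟩ c3⟩)) hZ

end Cfsg.Agent.H24.AI
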