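import Cfsg.Agent.H11.Bend
import Cfsg.Agent.H11.U3
import Cfsg.Agent.H15.Sz3
import Cfsg.Agent.H12.DicksonSL

/-! Sylow `2`-subgroups of the simple Bender groups have class at most two. -/

set_option autoImplicit false

namespace Cfsg.Agent.H24

open Subgroup
open scoped MatrixGroups commutatorElement

theorem class_two_of_equiv {G H : Type*} [Group G] [Group H] (e : G ≃* H) (h : commutator H ≤ center H) :
    commutator G ≤ center G := by
  rw [_root_.commutator_def, commutator_le]
  intro a _ b _
  refine mem_center_iff.2 fun c => e.injective ?_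
  rw [map_mul, map_mul, map_commutatorElement]
  exact mem_center_iff.1 (h (commutator_mem_commutator (mem_top _) (mem_top _))) _

theorem bender_class_two {G : Type*} [Group G] [Finite G] (h : H11.IsBender G) (S : Sylow 2 G) :
    commutator (S : Subgroup G) ≤ center (S : Subgroup G) := by
  have key : ∀ {H : Type} [Group H] (e : G ≃* H), (∀ P : Sylow 2 H,
      commutator (P : Subgroup H) ≤ center (P : Subgroup H)) →
      commutator (S : Subgroup G) ≤ center (S : Subgroup G) := fun e h =>
    haveI := Finite.of_equiv _ e.toEquiv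
    class_two_of_equiv ((S : Subgroup G).equivMapOfInjective e.toMonoidHom e.injective)
      (h (S.mapSurjective (f := e.toMonoidHom) e.surjective))
  rcases h with ⟨F, _, _, ⟨n, -, h2⟩, ⟨e⟩⟩ | ⟨F, _, _, m, h1, h2, ⟨e⟩⟩ | ⟨F, _, _, n, h1, h2, ⟨e⟩⟩
  · have := H11.charP_two_of_card h2
    refine key e fun P => ?_
    obtain ⟨P, rfl⟩ := Sylow.mapSurjective_surjective (QuotientGroup.mk'_surjective (center SL(2, F))) 2 P
    obtain ⟨y, hy⟩ := H12.le_rootSL_of_isPGroup 2 P.2
    obtain ⟨f⟩ := H12.nonempty_rootSL_equiv y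
    rw [_root_.commutator_def, commutator_le]
    rintro ⟨_, a, ha, rfl⟩ - ⟨_, b, hb, rfl⟩ -
    have := f.injective (a₁ := ⟨a, hy ha⟩ * ⟨b, hy hb⟩) (a₂ := ⟨b, hy hb⟩ * ⟨a, hy ha⟩)
      (by rw [map_mul, map_mul, mul_comm])
    have h3 : a * b = b * a := congrArg (fun z : H12.rootSL y => z.1) this
    rw [commutatorElement_eq_one_iff_mul_comm.2 (Subtype.ext (by
      rw [Subgroup.coe_mul, Subgroup.coe_mul, ← map_mul, ← map_mul, h3]))]
    exact one_mem _
  · have := H15.Sz.charP_two h2
    refine key e fun P => ?_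
    obtain ⟨M, -, hM⟩ := (H15.Sz.lieModel h1 h2).exists_model_sylow P
    rw [← hM, M.center_Q, M.commutator_Q]
  · refine key e fun P => ?_
    obtain ⟨X, Y, hU⟩ := H11.exists_uc_PSU h2 (Nat.even_pow.2 ⟨even_two, by omega⟩) P
    exact hU.commutator_eq.le

end Cfsg.Agent.H24
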