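import Cfsg.Agent.H24.Glau2
import Cfsg.Prelude.Def_DStar

/-! The subgroup `D*(S)` of Glauberman and Solomon, ambient version. -/

set_option autoImplicit false

namespace Cfsg.Agent.H24

open Subgroup
open scoped commutatorElement
open H9 (maxEA)

variable {G : Type*} [Group G] {p : ℕ} {A B D S T : Subgroup G} {x : G}

theorem class_two_iff (hA : IsMulCommutative A) :
    ⁅⁅A ⊔ zpowers x, A ⊔ zpowers x⁆, A ⊔ zpowers x⁆ = ⊥ ↔
      ⁅A, zpowers x⁆ ≤ 𝐂[A] ∧ ⁅A, zpowers x⁆ ≤ 𝐂[zpowers x] := by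
  rw [← le_centralizer_iff_commutator, centralizer_sup, le_inf_iff, ← le_inf_iff, ← le_inf_iff,
    ← centralizer_sup]
  refine ⟨fun h => (commutator_mono le_sup_left le_sup_right).trans h, fun h => ?_⟩
  have h1 : A ⊔ zpowers x ≤ 𝐍[⁅A, zpowers x⁆] :=
    le_normalizer_of_le_centralizer (le_centralizer_iff.1 h)
  have h2 := le_sup_left.trans h1
  have h3 := le_sup_right.trans h1
  refine le_trans (commutator_sup_left_le h2 h3 (commutator_sup_right_le h2 h3 ?_ le_rfl)
    (commutator_sup_right_le h2 h3 (by rw [commutator_comm]) ?_)) h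
  · rw [le_centralizer_iff_commutator.1 (isMulCommutative_iff_le_centralizer.1 hA)]; exact bot_le
  · rw [le_centralizer_iff_commutator.1 (zpowers_le_centralizer_zpowers rfl)]; exact bot_le

/-- The ambient version of the family defining `D*(S)`. -/
def DFam (S A : Subgroup G) : Prop :=
  A ≤ S ∧ IsMulCommutative A ∧ ∀ x ∈ S, ⁅A, zpowers x⁆ ≤ 𝐂[A] → ⁅A, zpowers x⁆ ≤ 𝐂[zpowers x] →
    x ∈ 𝐂[A]

theorem dFam_top : DFam ⊤ A ↔ A ∈ dStarFamily G :=
  ⟨fun h => ⟨h.2.1, fun x hx => h.2.2 x trivial ((class_two_iff h.2.1).1 hx).1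
      ((class_two_iff h.2.1).1 hx).2⟩,
    fun h => ⟨le_top, h.1, fun x _ h1 h2 => h.2 x ((class_two_iff h.1).2 ⟨h1, h2⟩)⟩⟩

theorem dFam_map {G' : Type*} [Group G'] {f : G →* G'} (hf : Function.Injective f) :
    DFam (S.map f) (A.map f) ↔ DFam S A := by
  have e : ∀ X Y : Subgroup G, X.map f ≤ 𝐂[Y.map f] ↔ X ≤ 𝐂[Y] := fun X Y => by
    rw [le_centralizer_iff_commutator, le_centralizer_iff_commutator, ← map_commutator,
      Subgroup.map_eq_bot_iff, (MonoidHom.ker_eq_bot_iff f).2 hf, le_bot_iff]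
  simp only [DFam, isMulCommutative_iff_le_centralizer, e, map_le_map_iff_of_injective hf]
  refine and_congr_right fun _ => and_congr_right fun _ => ⟨fun h x hx h1 h2 => ?_, ?_⟩
  · have := h (f x) (mem_map_of_mem f hx)
    rw [← MonoidHom.map_zpowers, ← map_commutator, e, e, ← zpowers_le, ← MonoidHom.map_zpowers,
      e, zpowers_le] at this
    exact this h1 h2
  · rintro h _ ⟨x, hx, rfl⟩
    rw [← MonoidHom.map_zpowers, ← map_commutator, e, e, ← zpowers_le, ← MonoidHom.map_zpowers,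
      e, zpowers_le]
    exact h x hx

theorem DFam.le_dStarOf (h : DFam S A) : A ≤ dStarOf S := by
  rw [← map_subgroupOf_eq_of_le h.1]
  refine map_mono (le_sSup (dFam_top.1 ((dFam_map S.subtype_injective).1 ?_)))
  rwa [map_subtype_top, map_subgroupOf_eq_of_le h.1]

theorem dStarOf_le_iff : dStarOf S ≤ T ↔ ∀ A, DFam S A → A ≤ T := by
  refine ⟨fun h A hA => hA.le_dStarOf.trans h, fun h => map_le_iff_le_comap.2 (sSup_le fun A hA =>
    map_le_iff_le_comap.1 (h _ ?_))⟩
  have := (dFam_map S.subtype_injective).2 (dFam_top.2 hA)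
  rwa [map_subtype_top] at this

theorem dStarOf_top : dStarOf (⊤ : Subgroup G) = dStar G :=
  le_antisymm (dStarOf_le_iff.2 fun _ h => le_sSup (dFam_top.1 h))
    (sSup_le fun _ h => (dFam_top.2 h).le_dStarOf)

theorem dStarOf_le : dStarOf S ≤ S := map_subtype_le _

theorem DFam.mono (h : DFam S A) (h1 : A ≤ T) (h2 : T ≤ S) : DFam T A :=
  ⟨h1, h.2.1, fun x hx => h.2.2 x (h2 hx)⟩

theorem DFam.cj (h : DFam S A) (g : G) : DFam (cj S g) (cj A g) :=
  (dFam_map (f := (MulAut.conj g).toMonoidHom) (MulAut.conj g).injective).2 h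

theorem normalizer_le_normalizer_dStarOf [Finite G] : 𝐍[S] ≤ 𝐍[dStarOf S] := fun g hg => by
  refine inv_mem_iff.1 (mem_normalizer_of_cj_le (cj_le_iff.2 (dStarOf_le_iff.2 fun A hA => ?_)))
  rw [← cj_le_iff]
  have := hA.cj g⁻¹
  rw [cj_eq_of_mem_normalizer (inv_mem hg)] at this
  exact this.le_dStarOf

variable [Fact p.Prime] [Finite G]

theorem DFam.le_centralizer (h : DFam S A) (hS : IsPGroup p S) (hB : IsMulCommutative B)
    (hBS : B ≤ S) (hn : A ≤ 𝐍[B]) : B ≤ 𝐂[A] := by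
  by_contra h1
  have := (hS.to_le (sup_le hBS h.1)).isNilpotent
  obtain ⟨W, h2, -, h3, h4⟩ := exists_not_le_commutator_le (K := B ⊔ A) le_sup_left
    (sup_le le_normalizer hn) h1
  refine h3 fun x hx => h.2.2 x (hBS (h2 hx)) ?_ ?_
  · rw [commutator_comm]
    exact (commutator_mono (zpowers_le.2 hx) le_sup_right).trans h4
  · exact H9.le_centralizer_of_le_of_comm hB ((commutator_mono le_rfl (zpowers_le.2 (h2 hx))).trans
      (commutator_le_right_of_le_normalizer hn)) (zpowers_le.2 (h2 hx))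

theorem dStarOf_le_centralizer (hS : IsPGroup p S) (hB : IsMulCommutative B) (hBS : B ≤ S)
    (hn : S ≤ 𝐍[B]) : dStarOf S ≤ 𝐂[B] :=
  dStarOf_le_iff.2 fun _ h => le_centralizer_iff.1 (h.le_centralizer hS hB hBS (h.1.trans hn))

theorem inf_centralizer_le_of_maximal (hS : IsPGroup p S) (hB : IsMulCommutative B) (hBS : B ≤ S)
    (hn : S ≤ 𝐍[B]) (hm : ∀ D ≤ S, S ≤ 𝐍[D] → IsMulCommutative D → B ≤ D → D ≤ B) :
    S ⊓ 𝐂[B] ≤ B := by
  by_contra h1
  have := hS.isNilpotent
  obtain ⟨W, h2, h5, h3, h4⟩ := exists_not_le_commutator_le (K := S) inf_le_left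
    (le_normalizer_inf le_normalizer (le_normalizer_centralizer hn)) h1
  obtain ⟨x, hx, hx'⟩ := SetLike.not_le_iff_exists.1 h3
  refine hx' (hm (B ⊔ zpowers x) (sup_le hBS (zpowers_le.2 (h2 hx).1)) ?_ (isMulCommutative_sup hB
    inferInstance (le_centralizer_iff.1 (zpowers_le.2 (h2 hx).2))) le_sup_left
    (mem_sup_right (mem_zpowers x)))
  refine le_normalizer_iff_commutator_le_left.2 (le_trans (commutator_sup_left_le
    (hBS.trans hn) ((zpowers_le.2 (h2 hx).1).trans hn) (commutator_le_left_of_le_normalizer hn)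
    ((commutator_mono (zpowers_le.2 hx) le_rfl).trans h4)) le_sup_left)

theorem isMulCommutative_dStarOf (hS : IsPGroup p S) : IsMulCommutative (dStarOf S) := by
  obtain ⟨B, ⟨h1, h2, h3⟩, h4⟩ := (wellFounded_gt (α := Subgroup G)).has_min
    {B | B ≤ S ∧ S ≤ 𝐍[B] ∧ IsMulCommutative B} ⟨⊥, bot_le, by simp, inferInstance⟩
  exact isMulCommutative_of_le ((le_inf dStarOf_le (dStarOf_le_centralizer hS h3 h1 h2)).trans
    (inf_centralizer_le_of_maximal hS h3 h1 h2 fun D a b c d =>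
      (eq_of_le_of_not_lt d (h4 D ⟨a, b, c⟩)).ge)) h3

theorem dFam_dStarOf (hS : IsPGroup p S) : DFam S (dStarOf S) :=
  ⟨dStarOf_le, isMulCommutative_dStarOf hS, fun x hx h1 h2 => by
    rw [← zpowers_le, le_centralizer_iff]
    refine dStarOf_le_iff.2 fun A hA => le_centralizer_iff.1 (zpowers_le.2 (hA.2.2 x hx ?_ ?_))
    · exact ((commutator_mono hA.le_dStarOf le_rfl).trans h1).trans (centralizer_anti hA.le_dStarOf)
    · exact (commutator_mono hA.le_dStarOf le_rfl).trans h2⟩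

theorem dStarOf_le_centralizer_maxEA (hS : IsPGroup p S) (hA : A ∈ maxEA 0 S) :
    A ≤ 𝐂[dStarOf S] := by
  by_contra h
  have h0 := dFam_dStarOf hS
  have hn : S ≤ 𝐍[dStarOf S] := le_normalizer.trans normalizer_le_normalizer_dStarOf
  obtain ⟨B, h1, -, h2, h3⟩ := exists_quadratic_maxEA hS (H9.isEA_zero.2 h0.2.1) dStarOf_le hA
    (hA.1.trans hn) h
  refine h3 fun x hx => h0.2.2 x (h1.1 hx) ?_ ?_
  · exact (commutator_le_left_of_le_normalizer (zpowers_le.2 (hn (h1.1 hx)))).trans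
      (isMulCommutative_iff_le_centralizer.1 h0.2.1)
  · exact ((commutator_mono le_rfl (zpowers_le.2 hx)).trans
      (le_centralizer_iff_commutator.2 h2)).trans (centralizer_anti (zpowers_le.2 hx))

end Cfsg.Agent.H24
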