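import Cfsg.Agent.H9.Amal6

/-! Abstract amalgams of type `(S₃, S₃)` with isomorphic vertex groups; involutions inverting an element. -/

set_option autoImplicit false

namespace Cfsg.Agent.H24

open Subgroup H9K Function
open scoped commutatorElement

universe u

theorem exists_completion' {Γ P : Type u} [Group Γ] [Group P] [Finite Γ] {i₁ i₂ : P →* Γ} (h1 : Injective i₁)
    (h2 : Injective i₂) : ∃ (X : Type u) (_ : Group X) (_ : Finite X) (g₁ g₂ : Γ →* X), Injective g₁ ∧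
      Injective g₂ ∧ ∀ a b, g₁ a = g₂ b ↔ ∃ t, a = i₁ t ∧ b = i₂ t := by
  let φ : ∀ _ : Bool, P →* Γ := fun b => cond b i₁ i₂
  have hφ : ∀ b, Injective (φ b) := by rintro (_ | _) <;> assumption
  have o := Monoid.PushoutI.of_injective hφ
  haveI : ∀ b, Finite (Monoid.PushoutI.of (φ := φ) b).range := fun b =>
    Finite.of_surjective _ (Monoid.PushoutI.of (φ := φ) b).rangeRestrict_surjective
  obtain ⟨Ω, _, f₁, f₂, j1, j2, k⟩ := exists_completion (Monoid.PushoutI.of (φ := φ) true).range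
    (Monoid.PushoutI.of (φ := φ) false).range
  refine ⟨_, inferInstance, inferInstance, f₁.comp (MonoidHom.rangeRestrict _), f₂.comp (MonoidHom.rangeRestrict _),
    j1.comp fun a b e => o true (congrArg Subtype.val e), j2.comp fun a b e => o false (congrArg Subtype.val e),
    fun a b => (k _ _).trans ⟨fun e => ?_, ?_⟩⟩
  · obtain ⟨t, ht⟩ := (Monoid.PushoutI.inf_of_range_eq_base_range hφ (i := true) (j := false) (by simp)).le
      ⟨⟨a, rfl⟩, b, e.symm⟩
    exact ⟨t, o true (ht.symm.trans (Monoid.PushoutI.of_apply_eq_base φ true t).symm),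
      o false (e.symm.trans (ht.symm.trans (Monoid.PushoutI.of_apply_eq_base φ false t).symm))⟩
  · rintro ⟨t, rfl, rfl⟩
    exact (Monoid.PushoutI.of_apply_eq_base φ true t).trans (Monoid.PushoutI.of_apply_eq_base φ false t).symm

theorem amal_iso {Γ P : Type u} [Group Γ] [Group P] [Finite Γ] {i₁ i₂ : P →* Γ} (h1 : Injective i₁)
    (h2 : Injective i₂) {T : Subgroup Γ} (r1 : i₁.range = T) (r2 : i₂.range = T) (h : Half ⊤ T)
    (hc : CharP 2 (⊤ : Subgroup Γ)) (hz : ¬ ⊤ ≤ 𝐂[𝛀[T]])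
    (ht : ∀ N : Subgroup P, (N.map i₁).Normal → (N.map i₂).Normal → N = ⊥) :
    (Nat.card T = 8 ∧ Nonempty (Γ ≃* Equiv.Perm (Fin 4))) ∨
      (Nat.card T = 16 ∧ Nonempty (Γ ≃* Equiv.Perm (Fin 4) × Multiplicative (ZMod 2))) := by
  obtain ⟨X, _, _, g₁, g₂, j1, j2, k⟩ := exists_completion' h1 h2
  have e1 : map g₁ ⊤ ⊓ map g₂ ⊤ = T.map g₁ := by
    ext x
    constructor
    · rintro ⟨⟨a, -, rfl⟩, b, -, hb⟩
      obtain ⟨t, rfl, -⟩ := (k a b).1 hb.symm
      exact ⟨_, r1.le ⟨t, rfl⟩, rfl⟩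
    · rintro ⟨a, ha, rfl⟩
      obtain ⟨t, rfl⟩ := r1.ge ha
      exact ⟨⟨_, trivial, rfl⟩, i₂ t, trivial, ((k _ _).2 ⟨t, rfl, rfl⟩).symm⟩
  have e2 : map g₂ ⊤ ⊓ map g₁ ⊤ = T.map g₂ := by
    ext x
    constructor
    · rintro ⟨⟨b, -, rfl⟩, a, -, ha⟩
      obtain ⟨t, -, rfl⟩ := (k a b).1 ha
      exact ⟨_, r2.le ⟨t, rfl⟩, rfl⟩
    · rintro ⟨a, ha, rfl⟩
      obtain ⟨t, rfl⟩ := r2.ge ha
      exact ⟨⟨_, trivial, rfl⟩, i₁ t, trivial, (k _ _).2 ⟨t, rfl, rfl⟩⟩
  have e3 : g₁.comp i₁ = g₂.comp i₂ := MonoidHom.ext fun t => (k _ _).2 ⟨t, rfl, rfl⟩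
  have n : ∀ {i : P →* Γ} {g : Γ →* X} {N : Subgroup X}, Injective g → i.range = T → N ≤ T.map g →
      map g ⊤ ≤ 𝐍[N] → ((N.comap (g.comp i)).map i).Normal := fun {i g N} j r a b => by
    rw [← comap_comap, map_comap_eq_self (r ▸ (comap_mono a).trans (comap_map_eq_self_of_injective j T).le)]
    exact top_le_normalizer_iff.1 ((le_comap_map g ⊤).trans (comap_le_normalizer_comap g b))
  have hE : Edge (map g₁ ⊤) (map g₂ ⊤) := ⟨e1 ▸ h.map j1, e2 ▸ h.map j2, fun N a b c => by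
    have := ht _ (n j1 r1 (e1 ▸ a) b) (e3 ▸ n j2 r2 (e2 ▸ inf_comm (map g₁ ⊤) _ ▸ a) c)
    rw [← map_comap_eq_self (f := g₁.comp i₁) (H := N)
      (by rwa [MonoidHom.range_comp, r1, ← e1]), this, Subgroup.map_bot]⟩
  have := hE.iso (hc.map_injective j1) (hc.map_injective j2) (nc_map j1 h hz) (nc_map j2 h hz)
  rw [e1, card_map_of_injective j1] at this
  exact this.imp (fun a => ⟨a.1, ⟨(topMapEquiv j1).trans a.2.some⟩⟩) fun a => ⟨a.1, ⟨(topMapEquiv j1).trans a.2.some⟩⟩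

variable {G : Type*} [Group G] [Finite G] {U W : Subgroup G} {a c g : G}

theorem pow_six_mem_centralizer (hW : Nat.card W ≤ 4) (hg : g ∈ 𝐍[W]) : g ^ 6 ∈ 𝐂[W] := fun w hw => by
  by_cases w1 : w = 1
  · simp [w1]
  have m : ∀ i : ℕ, g ^ i * w * (g ^ i)⁻¹ ∈ W := fun i => conj_mem_of_mem_normalizer (pow_mem hg i) hw
  have k : ∀ i j : ℕ, i < j → j ≤ 3 → g ^ i * w * (g ^ i)⁻¹ = g ^ j * w * (g ^ j)⁻¹ → w * g ^ 6 = g ^ 6 * w := by
    intro i j h1 h2 e
    obtain ⟨d, rfl⟩ := Nat.exists_eq_add_of_lt h1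
    have c : Commute w (g ^ (d + 1)) := by
      rw [add_assoc, pow_add, mul_inv_rev, ← mul_assoc, mul_left_inj, mul_assoc, mul_assoc, mul_right_inj,
        ← mul_assoc, eq_mul_inv_iff_mul_eq] at e
      exact e
    obtain ⟨n, hn⟩ : d + 1 ∣ 6 := by
      have : d ≤ 2 := by omega
      interval_cases d <;> norm_num
    rw [hn, pow_mul]; exact (c.pow_right n).eq
  haveI := Fintype.ofFinite W
  classical
  obtain ⟨i, j, ne, e⟩ := Fintype.exists_ne_map_eq_of_card_lt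
    (fun i : Fin 4 => (⟨⟨_, m i⟩, fun e => w1 (by simpa [mul_inv_eq_iff_eq_mul] using e)⟩ : {v : W // v ≠ 1})) (by
      rw [Fintype.card_subtype_compl, Fintype.card_subtype_eq, ← Nat.card_eq_fintype_card, Fintype.card_fin]; omega)
  have e' := congrArg (fun v => ((v.1 : W) : G)) e
  rcases lt_or_gt_of_ne (Fin.val_ne_of_ne ne) with l | l
  exacts [k i j l (by omega) e', k j i l (by omega) e'.symm]

/-- An element inverted by a transvection acts with order dividing `3`. -/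
theorem cube_mem_centralizer (hU : IsElementaryAbelian 2 U) (hg : g ∈ 𝐍[U]) (ho : (orderOf g).Coprime 2)
    (hc : c ∈ 𝐂[U]) (e : g * a * g⁻¹ * a⁻¹ = g * g * c) (hi : 𝐂[zpowers a].relIndex U ≤ 2) : g ^ 3 ∈ 𝐂[U] := by
  haveI := hU.1
  have n := zpowers_le.2 hg
  have co : (Nat.card (zpowers g)).Coprime 2 := by rwa [Nat.card_zpowers]
  have pU := isPGroup_of_isElementaryAbelian hU
  have h1 : 𝐂[zpowers a] ⊓ cj 𝐂[zpowers a] g ⊓ U ≤ 𝐂[zpowers g] := fun u hu => by
    rw [cj_centralizer, cj_zpowers, centralizer_zpowers, centralizer_zpowers] at hu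
    have : zpowers u ≤ U := zpowers_le.2 hu.2
    have h2 : g * g * c ∈ centralizer {u} := e ▸ mul_mem (mem_centralizer_singleton_iff.2
      (mem_centralizer_singleton_iff.1 hu.1.2).symm) (inv_mem (mem_centralizer_singleton_iff.2
        (mem_centralizer_singleton_iff.1 hu.1.1).symm))
    have h3 : g ^ 2 ∈ centralizer {u} := by
      simpa [sq] using mul_mem h2 (inv_mem (mem_centralizer_singleton_iff.2 (hc u hu.2).symm))
    rw [centralizer_zpowers, mem_centralizer_singleton_iff]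
    exact (mem_centralizer_singleton_iff.1 (mem_of_pow_mem_of_coprime h3 ho)).symm
  have h2 : 𝐂[zpowers g].relIndex U ≤ 4 := by
    refine (relIndex_le_of_le_left h1 (relIndex_ne_zero _)).trans ?_
    rw [inf_relIndex_right]
    refine relIndex_inf_le.trans (Nat.mul_le_mul hi (?_ : _ ≤ 2))
    rwa [← cj_eq_of_mem_normalizer hg, relIndex_cj]
  have h3 := H9.card_commutator_mul_card_centralizer hU hg
  rw [← card_inf_mul_relIndex 𝐂[zpowers g] U, inf_comm 𝐂[zpowers g], mul_comm,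
    Nat.mul_right_inj (card_pos' _).ne'] at h3
  have h4 := pow_six_mem_centralizer (h3.le.trans h2) (right_le_normalizer_commutator U _ (mem_zpowers g))
  have h5 : g ^ 6 ∈ 𝐂[U] := by
    rw [← commutator_sup_inf_centralizer_of_isPGroup pU n co, centralizer_sup]
    exact ⟨h4, le_centralizer_iff.1 inf_le_right (pow_mem (mem_zpowers g) 6)⟩
  exact mem_of_pow_mem_of_coprime (by rwa [← pow_mul]) (ho.coprime_dvd_left (orderOf_pow_dvd 3))

end Cfsg.Agent.H24
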