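import Cfsg.Agent.H24.DY1
import Cfsg.Agent.L0.Sims
import Cfsg.Agent.H10.Im

/-! A subgroup which is dihedral modulo its `2`-core, with an outer element normalizing a Sylow `2`-subgroup. -/

set_option autoImplicit false

namespace Cfsg.Agent.H24

open Subgroup H9K Function
open scoped commutatorElement
open H10 (im kr pre OqOf)
open H9 (maxEA)

universe u

variable {G : Type u} [Group G] [Finite G] {H K N P : Subgroup G} {a x s y : G}

structure DX (H P : Subgroup G) (x s : G) : Prop where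
  syl : SylIn 2 P H
  idx : 𝐎[H].relIndex P = 2
  xH : x ∈ H
  odd : (orderOf x).Coprime 2
  sP : s ∈ P
  sO : s ∉ 𝐎[H]
  xO : x ∉ 𝐎[H]
  inv : s * x * s⁻¹ * x ∈ 𝐎[H]
  gen : ∀ K, P ≤ K → x ∈ K → H ≤ K

namespace DX

variable (h : DX H P x s)
include h

omit [Finite G] in
theorem comm (ha : a ∈ P) (ha' : a ∉ 𝐎[H]) : ∃ q ∈ 𝐎[H], x * a * x⁻¹ * a⁻¹ = x * x * q := by
  have r := mul_mem_of_relIndex_two h.idx ha (inv_mem h.sP) ha' (by simpa using h.sO)
  exact ⟨_, mul_mem (mul_mem (conj_mem_of_mem_normalizer' (le_normalizer_pCoreOf 2 H h.xH) r) (inv_mem h.inv))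
    (inv_mem r), by group⟩

theorem mem_of (hK : 𝐎[H] ≤ K) (ha : a ∈ P) (ha' : a ∉ 𝐎[H]) (h1 : x * a * x⁻¹ * a⁻¹ ∈ K) : x ∈ K := by
  obtain ⟨q, hq, e⟩ := h.comm ha ha'
  rw [e] at h1
  exact mem_of_pow_mem_of_coprime (n := 2) (sq x ▸ (K.mul_mem_cancel_right (hK hq)).1 h1) h.odd

theorem inf_cj : P ⊓ cj P x = 𝐎[H] := by
  have n := le_normalizer_pCoreOf 2 H h.xH
  refine le_antisymm (fun a ha => by_contra fun ha' => h.xO ?_) (le_inf h.syl.pCoreOf_le
    ((cj_eq_of_mem_normalizer n).ge.trans (cj_mono h.syl.pCoreOf_le x)))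
  obtain ⟨b, hb, rfl⟩ := exists_of_mem_cj ha.2
  exact (pGrpMod_of_isPGroup h.syl.pgrp _).mem_of_coprime (h.mem_of h.syl.pCoreOf_le hb
    (fun e => ha' (conj_mem_of_mem_normalizer n e)) (mul_mem ha.1 (inv_mem hb))) h.odd

theorem le_of (h1 : P ≤ K) (h2 : cj P x ≤ K) : H ≤ K :=
  h.gen K h1 (h.mem_of (h.syl.pCoreOf_le.trans h1) h.sP h.sO (mul_mem (h2 (conj_mem_cj h.sP x)) (inv_mem (h1 h.sP))))

omit [Finite G] in
theorem le_norm (h1 : 𝐎[H] ≤ K) (h2 : s ∈ K) : P ≤ K :=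
  (le_sup_of_relIndex_two h.idx (zpowers_le.2 h.sP) fun e => h.sO (e (mem_zpowers s))).trans
    (sup_le (zpowers_le.2 h2) h1)

theorem pow_mem_Oq {k : ℕ} (hk : x ^ k ∈ 𝐂[𝐎[H]]) : x ^ k ∈ OqOf 2 H := by
  have n := le_normalizer_pCoreOf 2 H h.xH
  have co : (orderOf (x ^ k)).Coprime 2 := h.odd.coprime_dvd_left (orderOf_pow_dvd k)
  have m := inv_pow_mul_mul_pow_mem (inv_mem n) (conj_mem_of_mem_normalizer n h.inv) k
  rw [inv_pow, inv_inv, show x⁻¹ * (x * (s * x * s⁻¹ * x) * x⁻¹) = s * x * s⁻¹ by group, conj_pow] at m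
  have c : Commute (x ^ k) (s * x ^ k * s⁻¹) := mul_left_cancel (a := x ^ k) (by
    rw [← hk _ m, mul_assoc (x ^ k)])
  have e : x ^ k * (s * x ^ k * s⁻¹) = 1 := mem_bot.1 ((pGrpMod_of_isPGroup (isPGroup_pCoreOf 2 H) ⊥).mem_of_coprime m
    (co.coprime_dvd_left (orderOf_dvd_of_pow_eq_one (by rw [c.mul_pow, conj_pow, pow_orderOf_eq_one]; simp))))
  refine H10.le_OqOf (zpowers_le.2 (pow_mem h.xH k)) (h.gen _ (h.le_norm ?_ ?_) ?_) (by rwa [Nat.card_zpowers])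
    (mem_zpowers _)
  · exact le_normalizer_of_le_centralizer (le_centralizer_iff.1 (zpowers_le.2 hk))
  · rw [← cj_eq_self_iff, cj_zpowers, eq_inv_of_mul_eq_one_right e, zpowers_inv]
  · rw [← cj_eq_self_iff, cj_zpowers, ← (Commute.self_pow x k).eq.symm, mul_inv_cancel_right]

theorem relIndex_eq : P.relIndex H = orderOf x := by
  have n := zpowers_le.2 (le_normalizer_pCoreOf 2 H h.xH)
  have co : (Nat.card (zpowers x)).Coprime 2 := by rw [Nat.card_zpowers]; exact h.odd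
  have nK : P ≤ 𝐍[𝐎[H] ⊔ zpowers x] := h.le_norm (le_normalizer_of_le le_sup_left) (by
    refine mem_normalizer_of_cj_le ?_
    rw [cj_sup, cj_eq_of_mem_normalizer (le_normalizer_pCoreOf 2 H (h.syl.le h.sP)), cj_zpowers]
    exact sup_le le_sup_left (zpowers_le.2 (by
      simpa using mul_mem (mem_sup_left h.inv) (inv_mem (mem_sup_right (S := 𝐎[H]) (mem_zpowers x))))))
  have e1 := card_sup_mul_card_inf nK
  have e2 := card_sup_mul_card_inf' n
  rw [inf_eq_bot_of_isPGroup_of_coprime (isPGroup_pCoreOf 2 H) co, card_bot, mul_one, Nat.card_zpowers] at e2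
  rw [inf_comm, sup_inf_of_le_normalizer_left n h.syl.pCoreOf_le, inf_comm,
    inf_eq_bot_of_isPGroup_of_coprime h.syl.pgrp co, sup_bot_eq, e2, le_antisymm (sup_le h.syl.le (sup_le
      (pCoreOf_le 2 H) (zpowers_le.2 h.xH))) (h.gen _ le_sup_left (mem_sup_right (mem_sup_right (mem_zpowers x)))),
    ← card_mul_relIndex h.syl.le, mul_assoc, Nat.mul_right_inj (card_pos' _).ne', mul_comm,
    Nat.mul_right_inj (card_pos' _).ne'] at e1
  exact e1

variable {Γ : Type u} [Group Γ] [Finite Γ] {f : H →* Γ} (hf : Surjective f) (hk : kr f = OqOf 2 H)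
  (hx : x ∉ OqOf 2 H)
include hf hk

theorem inf_kr : P ⊓ kr f = ⊥ := hk ▸ inf_eq_bot_of_isPGroup_of_coprime h.syl.pgrp H10.OqOf_coprime

omit hk in
theorem syl_im : SylIn 2 (im f P) ⊤ := by
  have := (h.syl.subgroupOf le_rfl).map f
  rwa [subgroupOf_self, map_top_of_surjective f hf] at this

include hx

theorem im_core : 𝐎[(⊤ : Subgroup Γ)] = im f 𝐎[H] := by
  have l : im f 𝐎[H] ≤ 𝐎[(⊤ : Subgroup Γ)] := H10.im_self_of_surjective hf ▸ H10.im_OpOf_le le_rfl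
  refine le_antisymm (fun b hb => ?_) l
  obtain ⟨a, aH, ha, rfl⟩ := H10.mem_im_iff.1 ((h.syl_im hf).pCoreOf_le hb)
  refine H10.mem_im aH (by_contra fun ha' => hx ?_)
  have := (H10.mem_pre h.xH).1 (h.mem_of ((H10.im_le_iff_le_pre (pCoreOf_le 2 H)).1 l) ha ha'
    ((H10.mem_pre (mul_mem (mul_mem (mul_mem h.xH aH) (inv_mem h.xH)) (inv_mem aH))).2
      (show f (⟨x, h.xH⟩ * ⟨a, aH⟩ * ⟨x, h.xH⟩⁻¹ * ⟨a, aH⟩⁻¹) ∈ _ by
        rw [map_mul, map_mul, map_mul, map_inv, map_inv]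
        exact mul_mem ((pCoreOf_normal 2 ⊤).conj_mem _ hb (f ⟨x, h.xH⟩)) (inv_mem hb))))
  exact hk ▸ (H10.mem_kr h.xH).2 ((pGrpMod_of_isPGroup (isPGroup_pCoreOf 2 ⊤) ⊥).mem_of_coprime this
    (h.odd.coprime_dvd_left ((orderOf_map_dvd f _).trans (orderOf_mk x h.xH).dvd)))

theorem le_of_im (h1 : N ≤ P) (h2 : K ≤ P) (h3 : im f N ≤ im f K) : N ≤ K := by
  have := le_inf ((H10.im_le_im_iff (h1.trans h.syl.le) (h2.trans h.syl.le)).1 h3) h1
  rwa [sup_inf_of_le_normalizer_right (h2.trans (h.syl.le.trans H10.le_normalizer_kr)) h2, inf_comm,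
    h.inf_kr hf hk, sup_bot_eq] at this

theorem im_dx : DX ⊤ (im f P) (f ⟨x, h.xH⟩) (f ⟨s, h.syl.le h.sP⟩) := by
  have c : ∀ {N}, N ≤ P → Nat.card (im f N) = Nat.card N := fun hN => H10.card_im_of_disjoint (hN.trans h.syl.le)
    (eq_bot_iff.2 ((inf_le_inf_right _ hN).trans (h.inf_kr hf hk).le))
  have o := h.odd.coprime_dvd_left ((orderOf_map_dvd f _).trans (orderOf_mk x h.xH).dvd)
  refine ⟨h.syl_im hf, ?_, mem_top _, o, H10.mem_im _ h.sP, fun e => h.sO ?_, fun e => hx ?_, ?_, fun K h1 h2 => ?_⟩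
  · have := card_mul_relIndex (h.syl_im hf).pCoreOf_le
    rwa [c le_rfl, ← card_mul_relIndex h.syl.pCoreOf_le, h.idx, ← c h.syl.pCoreOf_le, ← h.im_core hf hk hx,
      Nat.mul_right_inj (card_pos' _).ne'] at this
  · refine h.le_of_im hf hk hx (zpowers_le.2 h.sP) h.syl.pCoreOf_le ?_ (mem_zpowers s)
    rwa [H10.im_zpowers (h.syl.le h.sP), zpowers_le, ← h.im_core hf hk hx]
  · exact hk ▸ (H10.mem_kr h.xH).2 ((pGrpMod_of_isPGroup (isPGroup_pCoreOf 2 ⊤) ⊥).mem_of_coprime e o)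
  · rw [h.im_core hf hk hx, ← map_inv, ← map_mul, ← map_mul, ← map_mul]
    exact H10.mem_im _ h.inv
  · rw [← H10.im_self_of_surjective hf, H10.im_le_iff_le_pre le_rfl]
    exact h.gen _ ((H10.im_le_iff_le_pre h.syl.le).1 h1) ((H10.mem_pre h.xH).2 h2)

theorem norm_of_im (h1 : N ≤ P) (h2 : (im f N).Normal) : H ≤ 𝐍[N] := by
  have l : N ≤ 𝐎[H] := h.le_of_im hf hk hx h1 h.syl.pCoreOf_le (h.im_core hf hk hx ▸ le_pCoreOf le_top
    (H10.isPGroup_im (h.syl.pgrp.to_le h1)) (top_le_normalizer _))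
  refine le_normalizer_iff_cj_le.2 fun g hg => h.le_of_im hf hk hx
    ((cj_le_of_mem_normalizer l (le_normalizer_pCoreOf 2 H hg)).trans h.syl.pCoreOf_le) h1 ?_
  exact (H10.im_conj hg).le.trans (cj_eq_of_normal _).le

theorem mem_cent (h1 : N ≤ 𝐎[H]) (h2 : f ⟨x, h.xH⟩ ∈ 𝐂[im f N]) : x ∈ 𝐂[N] := by
  rw [← zpowers_le, ← H10.im_zpowers h.xH, le_centralizer_iff_commutator', H10.commutator_im_eq_bot_iff
    (h1.trans (pCoreOf_le 2 H)) (zpowers_le.2 h.xH)] at h2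
  rw [← zpowers_le, le_centralizer_iff_commutator', eq_bot_iff, ← h.inf_kr hf hk]
  exact le_inf ((commutator_mono h1 le_rfl).trans ((commutator_le_left_of_le_normalizer
    (zpowers_le.2 (le_normalizer_pCoreOf 2 H h.xH))).trans h.syl.pCoreOf_le)) h2

end DX

structure DY (H P : Subgroup G) (x s y : G) : Prop extends DX H P x s where
  yN : y ∈ 𝐍[P]
  y2 : y ^ 2 ∈ P ⊔ 𝐂[P]
  triv : ∀ N ≤ P, H ≤ 𝐍[N] → cj N y = N → N = ⊥

namespace DY

variable (h : DY H P x s y)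
include h

omit [Finite G] in
theorem cj_sq (h1 : N ≤ P) (h2 : P ≤ 𝐍[N]) : cj (cj N y) y = N := by
  rw [cj_cj, ← sq]
  exact cj_eq_of_mem_normalizer (sup_le h2 (le_normalizer_of_le_centralizer (centralizer_anti h1)) h.y2)

omit [Finite G] in
theorem triv2 (h1 : N ≤ P) (h2 : H ≤ 𝐍[N]) (h3 : H ≤ 𝐍[cj N y]) : N = ⊥ :=
  eq_bot_iff.2 (le_sup_left.trans (h.triv (N ⊔ cj N y) (sup_le h1 (cj_le_of_mem_normalizer h1 h.yN))
    (le_normalizer_sup h2 h3) (by rw [cj_sup, h.cj_sq h1 (h.syl.le.trans h2), sup_comm])).le)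

theorem card_le : Nat.card P ≤ 64 := by
  have e : cj P (x * y) = cj P x := by rw [← cj_cj, cj_eq_of_mem_normalizer h.yN]
  have n := le_normalizer_pCoreOf 2 H
  have c : ∀ {z}, z ∈ 𝐂[P] → z ∈ 𝐂[cj P x] → H ≤ 𝐂[zpowers z] := fun h1 h2 => h.le_of
    (le_centralizer_iff.1 (zpowers_le.2 h1)) (le_centralizer_iff.1 (zpowers_le.2 h2))
  obtain ⟨t, h1, -, h2, -⟩ := L0.sims (p := 2) (P := P) (h := x * y) (n := 2)
    (by rw [e, h.inf_cj]; exact (cj_le_of_mem h.syl.le h.xH).trans n)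
    (by rw [e, h.inf_cj, ← cj_eq_of_mem_normalizer (n h.xH), relIndex_cj, h.idx]) (by norm_num)
    (fun Q q1 q2 q3 => by
      have q4 : H ≤ 𝐍[Q] := h.le_of q2 (by rw [← e, ← q3, ← cj_normalizer]; exact cj_mono q2 _)
      refine h.triv Q q1 q4 (cj_inj.1 (?_ : _ = cj Q x))
      rw [cj_cj, q3, cj_eq_of_mem_normalizer (q4 h.xH)])
    fun z hz hc => by
      have c0 := hc 0 (by norm_num)
      have c1 := hc 1 (by norm_num)
      have c2 := hc 2 le_rfl
      rw [pow_zero, cj_one] at c0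
      rw [pow_one] at c1
      rw [sq, ← cj_cj, ← cj_centralizer, mem_cj] at c2
      have c3 := c c0 (e ▸ c1)
      rw [← cj_centralizer, mem_cj] at c1
      have c4 := c c1 (e ▸ c2)
      have e1 : (x * y)⁻¹ * z * (x * y) = y⁻¹ * z * y := by
        rw [← mul_assoc, mul_assoc _ z, c3 h.xH z (mem_zpowers z)]; group
      rw [e1] at c4
      have := h.triv2 (zpowers_le.2 (conj_mem_of_mem_normalizer' h.yN hz)) (le_normalizer_of_le_centralizer c4)
        (by rw [cj_zpowers]; simpa [mul_assoc] using le_normalizer_of_le_centralizer c3)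
      rw [zpowers_eq_bot, mul_assoc, inv_mul_eq_one] at this
      exact mul_right_cancel (this.symm.trans (one_mul y).symm)
  exact h1.le.trans (Nat.pow_le_pow_right two_pos h2)

theorem caseA (h0 : 𝐎[H] ≠ ⊥) (hx : x ∈ 𝐂[𝐎[H]]) : Nat.card P = 4 ∧
    Nonempty (H ⧸ oddCore H ≃* Multiplicative (ZMod 2) × Multiplicative (ZMod 2)) := by
  have n := h.syl.le.trans (le_normalizer_pCoreOf 2 H)
  have OP := h.syl.pCoreOf_le
  have i2 : (cj 𝐎[H] y).relIndex P = 2 := by rw [← cj_eq_of_mem_normalizer h.yN, relIndex_cj, h.idx]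
  have e : 𝐎[H] ⊓ cj 𝐎[H] y = ⊥ := h.triv _ (inf_le_left.trans OP) (h.gen _ (le_normalizer_inf n (by
    rw [← cj_eq_of_mem_normalizer h.yN, ← cj_normalizer]; exact cj_mono n y))
    (centralizer_le_normalizer' _ (centralizer_anti inf_le_left hx))) (by rw [cj_inf, h.cj_sq OP n, inf_comm])
  have c1 : Nat.card 𝐎[H] = 2 := by
    refine le_antisymm ?_ (((𝐎[H]).one_lt_card_iff_ne_bot).2 h0)
    rw [← card_inf_mul_relIndex (cj 𝐎[H] y) 𝐎[H], inf_comm, e, card_bot, one_mul]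
    exact (relIndex_le_of_le_right OP (relIndex_ne_zero _)).trans_eq i2
  have c2 : Nat.card P = 4 := by rw [← card_mul_relIndex OP, c1, h.idx]
  have hf := QuotientGroup.mk'_surjective (oddCore H)
  have t : im (QuotientGroup.mk' (oddCore H)) P = ⊤ := by
    rw [← H10.im_sup_kr h.syl.le, eq_top_iff, ← H10.im_self_of_surjective hf, H10.kr_mk'_pPrimeCore]
    exact H10.im_mono (h.gen _ le_sup_left (mem_sup_right (by simpa using h.pow_mem_Oq (k := 1) (by simpa))))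
  have c3 : Nat.card (H ⧸ oddCore H) = 4 := by
    rw [← card_top, ← t, H10.card_im_of_disjoint h.syl.le (h.inf_kr hf H10.kr_mk'_pPrimeCore), c2]
  haveI : IsKleinFour (H ⧸ oddCore H) := ⟨c3, by
    refine ((Nat.dvd_prime Nat.prime_two).1 (Monoid.exponent_dvd_of_forall_pow_eq_one fun g => ?_)).resolve_left
      fun e1 => ?_
    · obtain ⟨a, aH, ha, rfl⟩ := H10.mem_im_iff.1 (t.ge (mem_top g))
      have : a ^ 2 = 1 := mem_bot.1 (e.le ⟨sq a ▸ sq_mem_of_relIndex_two h.idx ha, sq a ▸ sq_mem_of_relIndex_two i2 ha⟩)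
      rw [← map_pow, (Subtype.ext this : (⟨a, aH⟩ : H) ^ 2 = 1), map_one]
    · haveI := Monoid.exp_eq_one_iff.1 e1
      rw [Nat.card_of_subsingleton (1 : H ⧸ oddCore H)] at c3; omega⟩
  exact ⟨c2, ⟨IsKleinFour.nonempty_mulEquiv.some.trans (MulEquiv.prodMultiplicative (ZMod 2) (ZMod 2))⟩⟩

end DY

end Cfsg.Agent.H24
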