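import Cfsg.Agent.H24.DY2

/-! A subgroup which is dihedral modulo its `2`-core: the constrained case. -/

set_option autoImplicit false

namespace Cfsg.Agent.H24

open Subgroup H9K Function
open scoped commutatorElement
open H10 (im kr pre OqOf)
open H9 (maxEA)

universe u

variable {G : Type u} [Group G] [Finite G] {H K N P : Subgroup G} {a x s y : G}

namespace DY

variable (h : DY H P x s y) (hx : x ∉ 𝐂[𝐎[H]])
include h

theorem not_cent : x ∉ 𝐂[𝛀[P]] := fun e =>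
  omegaOneCenter_ne_bot h.syl.pgrp (fun e => h.sO ((e.le h.sP).symm ▸ one_mem _)) (h.triv _ (omegaOneCenter_le 2 P)
    (h.gen _ (le_normalizer_omegaOneCenter le_normalizer) (centralizer_le_normalizer' _ e))
    (by rw [cj_omegaOneCenter, cj_eq_of_mem_normalizer h.yN]))

theorem exists_off : ∃ A ∈ maxEA 2 P, ¬ A ≤ 𝐎[H] := by
  by_contra! hn
  have e := H9.thompsonOf_eq_of_le (H9.thompsonOf_le_iff.2 hn) h.syl.pCoreOf_le
  exact H9.thompsonOf_ne_bot dvd_rfl h.syl.pgrp (fun e => h.sO ((e.le h.sP).symm ▸ one_mem _))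
    (h.triv _ (H9.thompsonOf_le 2 P) (e ▸ le_normalizer_thompsonOf (le_normalizer_pCoreOf 2 H))
      (by rw [cj_thompsonOf, cj_eq_of_mem_normalizer h.yN]))

include hx

theorem Z_le : 𝛀[P] ≤ 𝐎[H] := fun a ha => by_contra fun ha' => by
  have n := le_normalizer_pCoreOf 2 H
  have c : a ∈ 𝐂[𝐎[H]] := centralizer_anti h.syl.pCoreOf_le (omegaOneCenter_le_centralizer 2 P ha)
  have := ((pGrpMod_of_isPGroup (isPGroup_pCoreOf 2 H) ⊥).sup_left (B := 𝐂[𝐎[H]])
    (le_normalizer_centralizer le_normalizer)).mem_of_coprime (h.mem_of le_sup_left (omegaOneCenter_le 2 P ha) ha'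
      (mem_sup_right (mul_mem (conj_mem_of_mem_normalizer (le_normalizer_centralizer n h.xH) c) (inv_mem c)))) h.odd
  exact hx (by rwa [bot_sup_eq] at this)

theorem cube : x ^ 3 ∈ 𝐂[𝐎[H]] := by
  have n := le_normalizer_pCoreOf 2 H
  have OP := h.syl.pCoreOf_le
  have pO := isPGroup_pCoreOf 2 H
  set V := ncl 𝛀[P] H
  have V1 : V ≤ 𝛀[𝐎[H]] := ncl_le (le_omegaOneCenter (isEA_omegaOneCenter 2 P) (h.Z_le hx)
    ((omegaOneCenter_le_centralizer 2 P).trans (centralizer_anti OP))) (le_normalizer_omegaOneCenter n)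
  have eV := isEA_of_le V1 (isEA_omegaOneCenter 2 _)
  have VO := V1.trans (omegaOneCenter_le 2 _)
  have OV : 𝐎[H] ≤ 𝐂[V] := (le_centralizer_omegaOneCenter 2 _).trans (centralizer_anti V1)
  have nV := le_normalizer_ncl 𝛀[P] H
  have co : ∀ k, (Nat.card (zpowers (x ^ k))).Coprime 2 := fun k => by
    rw [Nat.card_zpowers]; exact h.odd.coprime_dvd_left (orderOf_pow_dvd k)
  have c1 : x ^ 3 ∈ 𝐂[V] := by
    obtain ⟨A, hA, h1⟩ := h.exists_off
    obtain ⟨a, ha, ha'⟩ := SetLike.not_le_iff_exists.1 h1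
    obtain ⟨q, hq, e⟩ := h.comm (hA.1 ha) ha'
    refine cube_mem_centralizer eV (nV h.xH) h.odd (OV hq) e ?_
    have b := (H9.isBestOffenderOn_of_mem_maxEA eV (VO.trans OP) hA).1 (𝐎[H] ⊓ A) inf_le_right
    rw [inf_eq_left.2 (le_centralizer_iff.1 (inf_le_left.trans OV)), ← card_inf_mul_relIndex 𝐎[H] A,
      relIndex_eq_two_of_not_le h.idx hA.1 h1, mul_assoc, Nat.mul_le_mul_left_iff (card_pos' _),
      ← card_inf_mul_relIndex 𝐂[zpowers a] V, mul_comm 2] at b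
    exact Nat.le_of_mul_le_mul_left (b.trans (Nat.mul_le_mul_right 2 (card_le_of_le'
      ((inf_comm _ _).le.trans (inf_le_inf_right _ (centralizer_anti (zpowers_le.2 ha))))))) (card_pos' _)
  have c2 : 4 ≤ Nat.card V := by
    haveI := eV.1
    have nx := zpowers_le.2 (nV h.xH)
    have l := commutator_le_left_of_le_normalizer nx
    refine (four_le_card_of_fpf (pO.to_le (l.trans VO)) (fun e => h.not_cent (centralizer_anti (le_ncl _ H)
      (le_centralizer_iff_commutator'.2 e (mem_zpowers x)))) (right_le_normalizer_commutator V _)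
      (eq_bot_iff.2 ((le_inf (inf_le_inf_right _ l) inf_le_left).trans
        (H1.inf_centralizer_inf_commutator_eq_bot nx (coprime_card_of_isPGroup (pO.to_le VO)
          (by simpa using co 1))).le))).trans (card_le_of_le' l)
  set D := V ⊔ frattiniOf 𝐎[H]
  have DO : D ≤ 𝐎[H] := sup_le VO (frattiniOf_le _)
  have OH := pCoreOf_le 2 H
  haveI := normal_subgroupOf_of_le_normalizer' (le_normalizer_sup nV (le_normalizer_frattiniOf n))
  set f := QuotientGroup.mk' (D.subgroupOf H)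
  have hk : kr f = D := H10.kr_mk'_subgroupOf (DO.trans OH)
  have eU : IsElementaryAbelian 2 (im f 𝐎[H]) := isEA_iff.2 ⟨le_centralizer_iff_commutator.2
    ((H10.commutator_im_eq_bot_iff OH OH).2 (((commutator_le_frattiniOf pO).trans le_sup_right).trans hk.ge)), fun b hb => by
      obtain ⟨a, aH, ha, rfl⟩ := H10.mem_im_iff.1 hb
      rw [← map_pow]
      exact (H10.mem_kr (pow_mem aH 2)).1 (hk.ge (mem_sup_right (pow_mem_frattiniOf pO ha)))⟩
  have c3 : Nat.card (im f 𝐎[H]) ≤ 8 := by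
    have e1 := H10.card_im_mul (f := f) OH
    have e2 := h.card_le
    rw [← card_mul_relIndex OP, h.idx, ← e1, hk, inf_eq_right.2 DO] at e2
    have : _ ≤ _ * Nat.card D := Nat.mul_le_mul_left (Nat.card (im f 𝐎[H])) (c2.trans (card_le_of_le' le_sup_left))
    omega
  have sH := h.syl.le h.sP
  have nU : ∀ {g} (hg : g ∈ H), f ⟨g, hg⟩ ∈ 𝐍[im f 𝐎[H]] := fun hg => H10.im_le_normalizer n (H10.mem_im hg hg)
  have c4 : f ⟨x, h.xH⟩ ^ 3 ∈ 𝐂[im f 𝐎[H]] := by
    obtain ⟨q, hq, e⟩ := h.comm h.sP h.sO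
    refine cube_mem_centralizer (a := f ⟨s, sH⟩) eU (nU h.xH)
      (h.odd.coprime_dvd_left ((orderOf_map_dvd f _).trans (orderOf_mk x h.xH).dvd))
      ((isEA_iff.1 eU).1 (H10.mem_im (OH hq) hq)) (by
        rw [← map_inv, ← map_inv, ← map_mul, ← map_mul, ← map_mul, ← map_mul, ← map_mul]
        exact congrArg f (Subtype.ext e)) ?_
    have b := card_le_sq_of_invol eU (nU sH) ((isEA_iff.1 eU).1 (by
      rw [← map_mul]; exact H10.mem_im _ (sq_mem_of_relIndex_two h.idx h.sP)))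
    rw [← card_inf_mul_relIndex 𝐂[zpowers (f ⟨s, sH⟩)] (im f 𝐎[H]), inf_comm] at b c3
    have := Nat.le_of_mul_le_mul_left b (card_pos' _)
    nlinarith
  rw [← map_pow, ← zpowers_le, show (⟨x, h.xH⟩ : H) ^ 3 = ⟨x ^ 3, pow_mem h.xH 3⟩ from rfl, ← H10.im_zpowers,
    le_centralizer_iff_commutator', H10.commutator_im_eq_bot_iff OH (zpowers_le.2 (pow_mem h.xH 3)), hk] at c4
  have c5 := commutator_sup_inf_centralizer_of_isPGroup pO (zpowers_le.2 (n (pow_mem h.xH 3))) (co 3)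
  exact le_centralizer_iff.1 ((le_of_le_sup_frattiniOf inf_le_left (c5.ge.trans (sup_le (c4.trans (sup_le_sup_right
    (le_inf VO (le_centralizer_iff.1 (zpowers_le.2 c1))) _)) le_sup_left))).trans inf_le_right) (mem_zpowers _)

theorem caseB : (Nat.card P = 8 ∧ Nonempty (H ⧸ oddCore H ≃* Equiv.Perm (Fin 4))) ∨
    (Nat.card P = 16 ∧ Nonempty (H ⧸ oddCore H ≃* Equiv.Perm (Fin 4) × Multiplicative (ZMod 2))) := by
  have hf := QuotientGroup.mk'_surjective (oddCore H)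
  set f := QuotientGroup.mk' (oddCore H)
  have hk : kr f = OqOf 2 H := H10.kr_mk'_pPrimeCore
  have x1 : x ∉ OqOf 2 H := fun e => hx (le_centralizer_iff_commutator'.2 (H10.commutator_OpOf_OqOf 2) e)
  have d := h.im_dx hf hk x1
  have hh : Half ⊤ (im f P) := ⟨le_top, d.syl.pgrp, by
    rw [d.relIndex_eq]
    refine orderOf_eq_prime ?_ fun e => d.xO (e ▸ one_mem _)
    rw [← map_pow]
    exact (H10.mem_kr (pow_mem h.xH 3)).1 (hk ▸ h.pow_mem_Oq (h.cube hx)), d.idx⟩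
  let i₁ := f.comp (inclusion h.syl.le)
  have j1 : Injective i₁ := (injective_iff_map_eq_one _).2 fun a e =>
    Subtype.ext (mem_bot.1 ((h.inf_kr hf hk).le ⟨a.2, (H10.mem_kr (h.syl.le a.2)).2 e⟩))
  have m1 : ∀ N : Subgroup P, N.map i₁ = im f (N.map P.subtype) := fun N => by
    ext b
    exact ⟨fun ⟨a, ha, e⟩ => e ▸ H10.mem_im _ ⟨a, ha, rfl⟩, fun hb => by
      obtain ⟨_, _, ⟨a, ha, rfl⟩, rfl⟩ := H10.mem_im_iff.1 hb
      exact ⟨a, ha, rfl⟩⟩
  let ψ := P.normalizerMonoidHom ⟨y, h.yN⟩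
  have r1 : i₁.range = im f P := by rw [MonoidHom.range_eq_map, m1, map_subtype_top]
  have := amal_iso (i₂ := i₁.comp ψ.toMonoidHom) j1 (j1.comp ψ.injective) r1
    (by rw [MonoidHom.range_comp, show (MulEquiv.toMonoidHom ψ).range = ⊤ from MonoidHom.range_eq_top.2 ψ.surjective,
      ← MonoidHom.range_eq_map, r1]) hh
    (by_contra fun hc => hx (h.mem_cent hf hk x1 le_rfl
      (h.im_core hf hk x1 ▸ hh.res_le_centralizer hc (mem_pResidualOf (mem_top _) d.odd))))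
    (fun e => h.not_cent (h.mem_cent hf hk x1 (h.Z_le hx) (centralizer_anti (le_omegaOneCenter
      (H10.isElementaryAbelian_im (isEA_omegaOneCenter 2 P)) (H10.im_mono (omegaOneCenter_le 2 P))
      (H10.im_le_centralizer h.syl.le (omegaOneCenter_le_centralizer 2 P))) (e (mem_top _)))))
    fun N n1 n2 => by
      rw [← map_map, m1, map_map] at n2
      rw [m1] at n1
      have e : N.map (P.subtype.comp ψ.toMonoidHom) = cj (N.map P.subtype) y := by
        rw [cj, map_map]; rfl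
      exact map_subtype_eq_bot_iff.1 (h.triv2 (map_subtype_le N) (h.norm_of_im hf hk x1 (map_subtype_le N) n1)
        (h.norm_of_im hf hk x1 (cj_le_of_mem_normalizer (map_subtype_le N) h.yN) (e ▸ n2)))
  rwa [H10.card_im_of_disjoint h.syl.le (h.inf_kr hf hk)] at this

end DY

theorem exists_dx {n : ℕ} (hn : 2 ≤ n) (e : H ⧸ pCore 2 H ≃* DihedralGroup n) (hP : SylIn 2 P H) :
    ∃ x s, DX H P x s := by
  haveI : NeZero n := ⟨by omega⟩
  let f := e.toMonoidHom.comp (QuotientGroup.mk' (pCore 2 H))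
  have hf : Surjective f := e.surjective.comp (QuotientGroup.mk'_surjective _)
  have hk : ∀ {g} (hg : g ∈ H), g ∈ 𝐎[H] ↔ f ⟨g, hg⟩ = 1 := fun {g} hg => by
    rw [← mem_subgroupOf (h := ⟨g, hg⟩), pCoreOf_subgroupOf, ← QuotientGroup.eq_one_iff]
    exact (EmbeddingLike.map_eq_one_iff (f := e)).symm
  have h0 : pCore 2 (DihedralGroup n) = ⊥ := by rw [← map_pCore_mulEquiv e, pCore_quotient_pCore, Subgroup.map_bot]
  have r1 : ∀ (i : ZMod n) k, (DihedralGroup.r i) ^ 2 ^ k = 1 → i = 0 := fun i k hi => by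
    haveI : (zpowers (DihedralGroup.r i)).Normal := normal_of_forall_cj_le fun g => by
      rw [cj_zpowers, zpowers_le]
      rcases g with j | j
      · simp
      · simpa using inv_mem (mem_zpowers (DihedralGroup.r i))
    exact DihedralGroup.r.inj (mem_bot.1 (h0.le (le_pCore (isPGroup_zpowers hi) (mem_zpowers _))))
  have r2 : ∀ {a} (ha : a ∈ P) {i}, f ⟨a, hP.le ha⟩ = .r i → a ∈ 𝐎[H] := fun {a} ha {i} ei => by
    obtain ⟨k, hk'⟩ := isPGroup_iff.1 hP.pgrp a ha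
    rw [hk (hP.le ha), ei, r1 i k (by rw [← ei, ← map_pow, (Subtype.ext hk' : (⟨a, hP.le ha⟩ : H) ^ 2 ^ k = 1), map_one])]
    rfl
  obtain ⟨x₀, hx₀⟩ := hf (.r 1)
  obtain ⟨u, ⟨j, rfl⟩, v, -, e1, ⟨k, hu⟩, hv⟩ := exists_p_part (p := 2) (isOfFinOrder_of_finite x₀)
  have e2 : f v = .r 1 := by
    have : f (x₀ ^ j) = .r j := by rw [map_zpow, hx₀, DihedralGroup.r_one_zpow]
    rw [← hx₀, e1, map_mul, this, r1 j k (by rw [← this, ← map_pow, hu, map_one])]
    exact (one_mul _).symm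
  obtain ⟨s, hs, sO⟩ : ∃ s ∈ P, s ∉ 𝐎[H] := SetLike.not_le_iff_exists.1 fun l => hP.not_dvd_relIndex (by
    rw [le_antisymm l hP.pCoreOf_le, relIndex, pCoreOf_subgroupOf, index_eq_card, Nat.card_congr e.toEquiv,
      DihedralGroup.nat_card]
    exact dvd_mul_right 2 n)
  have r3 : ∀ {a} (ha : a ∈ P), a ∉ 𝐎[H] → ∃ i, f ⟨a, hP.le ha⟩ = .sr i := fun {a} ha ha' => by
    rcases ei : f ⟨a, hP.le ha⟩ with i | i
    exacts [absurd (r2 ha ei) ha', ⟨i, rfl⟩]
  obtain ⟨i, hi⟩ := r3 hs sO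
  refine ⟨v, s, hP, ?_, v.2, by rwa [orderOf_coe], hs, sO, fun e => ?_, ?_, fun K h1 h2 g hg => ?_⟩
  · refine index_eq_two_iff'.2 ⟨⟨s, hs⟩, fun b => ?_⟩
    by_cases hb : (b : G) ∈ 𝐎[H]
    · exact Or.inr ⟨hb, fun e => sO ((mul_mem_cancel_right hb).1 e)⟩
    · obtain ⟨j, hj⟩ := r3 b.2 hb
      exact Or.inl ⟨r2 (mul_mem hs b.2) ((map_mul f ⟨s, hP.le hs⟩ ⟨b, hP.le b.2⟩).trans (by rw [hi, hj]; rfl)), hb⟩
  · haveI : Fact (1 < n) := ⟨hn⟩
    exact one_ne_zero (DihedralGroup.r.inj (e2.symm.trans ((hk v.2).1 e)))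
  · rw [hk (mul_mem (mul_mem (mul_mem (hP.le hs) v.2) (inv_mem (hP.le hs))) v.2),
      show (⟨s * v * s⁻¹ * v, _⟩ : H) = ⟨s, hP.le hs⟩ * v * ⟨s, hP.le hs⟩⁻¹ * v from rfl, map_mul, map_mul, map_mul,
      map_inv, hi, e2]
    simp
  · have k : ∀ (w : H) (j : ZMod n), f w = .r j → (w : G) ∈ K := fun w j ej => by
      have : ((v ^ j.val)⁻¹ * w : H).1 ∈ 𝐎[H] := (hk (SetLike.coe_mem _)).2 (by
        show f (_ * _) = 1
        rw [map_mul, map_inv, map_pow, e2, ej]; simp)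
      simpa using mul_mem (pow_mem h2 j.val) (h1 (hP.pCoreOf_le this))
    rcases ej : f ⟨g, hg⟩ with j | j
    · exact k _ j ej
    · simpa using mul_mem (inv_mem (h1 hs)) (k (⟨s, hP.le hs⟩ * ⟨g, hg⟩) _ (by rw [map_mul, hi, ej]; rfl))

end Cfsg.Agent.H24
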