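import Cfsg.Agent.H24.PU9

/-! Pushing up for `p`-groups generated by self-centralizing members of the Chermak-Delgado lattice. -/

set_option autoImplicit false

namespace Cfsg.Agent.H24

open Subgroup
open scoped MatrixGroups commutatorElement
open H12 (upper lower P1 rootSL inf aff)

universe u

variable {G : Type u} [Group G] {p : ℕ} {A B C D E H K L M P P₀ P₁ Q S T U V W X Y Z : Subgroup G} {a b g t v w x y : G}

local notation "𝐕" => sylowCenterClosure p
local notation "𝐐" => pCoreOf p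
local notation "𝐙" => omegaOneCenter p

variable [Finite G]

theorem frattiniOf_le_of_sup' (hp : p.Prime) (h : T ≤ A ⊔ B) (hA : A ≤ T) (hB : B ≤ T) (hn : A ≤ 𝐍[B]) (nN : T ≤ 𝐍[X])
    (h1 : ⁅A, A⁆ ≤ X) (h2 : ⁅A, B⁆ ≤ X) (h3 : ⁅B, B⁆ ≤ X) (h4 : ∀ a ∈ A, a ^ p ∈ X) (h5 : ∀ b ∈ B, b ^ p ∈ X) :
    frattiniOf T ≤ X := by
  have h6 : ⁅T, T⁆ ≤ X := (commutator_mono h h).trans (commutator_sup_left_le (hA.trans nN) (hB.trans nN)
    (commutator_sup_right_le (hA.trans nN) (hB.trans nN) h1 h2)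
    (commutator_sup_right_le (hA.trans nN) (hB.trans nN) (commutator_comm A B ▸ h2) h3))
  refine H1.map_frattini_le hp h6 fun x hx => ?_
  obtain ⟨a, ha, b, hb, rfl⟩ := (mem_sup_of_le_normalizer_right hn).1 (h hx)
  simpa using mul_mem (mul_mem (h6 (mul_pow_mod_commutator (hA ha) (hB hb) p)) (h4 a ha)) (h5 b hb)

theorem O1.of_res [Fact p.Prime] (hp : p ≠ 2) (hv : Vtx p P) (hT : SylIn p T P) (res : ⁅𝐐 P, pResidualOf p P⁆ ≤ 𝐕 P) :
    O1 p P T := by
  obtain ⟨F, _, _, ⟨N'⟩⟩ := id hv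
  have hN := N'.full
  set N := N'.toNS
  have hk : N.ker = 𝐐 P := hv.ker_eq N (hv.charP.le_pCoreOf_of_residual inf_le_left (le_normalizer_inf le_normalizer
    (le_normalizer_centralizer (le_normalizer_scc p _))) (le_centralizer_of_stabilizes (pResidualOf_idem p _)
    N'.pgrp ((commutator_mono le_rfl (pResidualOf_mono inf_le_left)).trans res)
    ((pResidualOf_le p _).trans inf_le_right)))
  have hQ := isPGroup_pCoreOf p P
  have hQP := pCoreOf_le p P
  have nQ := le_normalizer_pCoreOf p P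
  have nV := le_normalizer_scc p P
  obtain ⟨t, ht, t2, tρ⟩ := exists_central_invol hN hp (hk ▸ hQ)
  have tor : (orderOf t).Coprime p := Nat.Coprime.of_dvd_left (orderOf_dvd_of_pow_eq_one t2)
    ((Nat.coprime_primes Nat.prime_two Fact.out).2 hp.symm)
  have tO := zpowers_le.2 (mem_pResidualOf ht tor)
  have tP := zpowers_le.2 ht
  have cm : ⁅P, zpowers t⁆ ≤ 𝐐 P := commutator_zpowers_right_le (nQ ht) fun g hg => hk ▸ N.mem_ker.2
    ⟨commutator_le_of_le le_rfl le_rfl (commutator_mem_commutator hg ht), by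
      rw [commutatorElement_def, N.ρ_mul (mul_mem (mul_mem hg ht) (inv_mem hg)) (inv_mem ht), N.ρ_conj hg ht,
        N.ρ_inv ht, tρ]; simp⟩
  have cop : ∀ {A : Subgroup G}, IsPGroup p A → (Nat.card (zpowers t)).Coprime (Nat.card A) := fun h =>
    coprime_card_of_isPGroup h (by rwa [Nat.card_zpowers])
  have e1 : 𝐕 P ⊓ 𝐂[zpowers t] ≤ 𝐂[P] := fun a ha => by
    have h1 := N.act ht ha.1
    rw [mem_centralizer_iff_conj.1 (le_centralizer_iff.1 (zpowers_le.2 ha.2) (mem_zpowers t)) a (mem_zpowers a),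
      tρ] at h1
    refine (mem_of_sq_mem hp N'.pgrp ha.1 ((N.ψ_eq_zero (pow_mem ha.1 2)).1 ?_)).2
    rw [N.ψ_pow ha.1, two_smul]
    nth_rw 1 [h1]
    exact vec_ext (by simp [sl_smul_zero]) (by simp [sl_smul_one])
  set L := pResidualOf p (P ⊓ 𝐂[zpowers t])
  have l1 : L ≤ P ⊓ 𝐂[zpowers t] := pResidualOf_le _ _
  have l2 : L ≤ pResidualOf p P := pResidualOf_mono inf_le_left
  have g1 : pResidualOf p P ≤ 𝐕 P ⊔ L := by
    have h1 := le_sup_inf_centralizer (tP.trans nQ) hQP (cop hQ) (.inr (isSolvable_of_isPGroup hQ)) cm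
    rw [sup_comm] at h1
    have h2 := (pResidualOf_mono h1).trans (pResidualOf_sup (p := p) (inf_le_left.trans nQ))
    refine le_of_le_sup_of_pResidual (pResidualOf_idem p P) hQ (le_normalizer_of_commutator_le (A := 𝐕 P ⊔ L) le_rfl
      (commutator_sup_left_le (le_normalizer_of_le le_sup_left) (le_normalizer_of_le le_sup_right) ?_ ?_))
      (h2.trans (sup_le (le_sup_right.trans le_sup_right) le_sup_left))
    · exact (commutator_le_left_of_le_normalizer (hQP.trans nV)).trans le_sup_left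
    · rw [commutator_comm]; exact ((commutator_mono le_rfl l2).trans res).trans le_sup_left
  have e2 : 𝐐 P ⊓ 𝐂[zpowers t] ≤ 𝐂[pResidualOf p P] := le_centralizer_iff.1 (g1.trans (sup_le
    (le_centralizer_iff.1 (inf_le_left.trans hv.core_le)) (le_centralizer_of_stabilizes (pResidualOf_idem p _)
    (W := 𝐕 P ⊓ 𝐂[zpowers t]) (N'.pgrp.to_le inf_le_left) (le_inf ((commutator_mono inf_le_left l2).trans res)
      (commutator_le_of_le inf_le_right (l1.trans inf_le_right)))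
    ((l1.trans inf_le_left).trans (le_centralizer_iff.1 e1)))))
  have s1 : T ≤ 𝐕 P ⊔ T ⊓ 𝐂[zpowers t] := by
    refine le_sup_inf_centralizer (tP.trans nV) (hv.le_syl hT) (cop N'.pgrp) (.inr (isSolvable_of_isPGroup N'.pgrp)) ?_
    have h1 := (commutator_mono hT.le le_rfl).trans cm
    rw [← commutator_commutator_eq (pResidualOf_zpowers tor) (hQ.to_le h1)]
    exact (commutator_mono h1 tO).trans res
  set C := T ⊓ 𝐂[zpowers t]
  have hC := hT.pgrp.to_le (inf_le_left : C ≤ T)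
  have f1 : frattiniOf C ≤ 𝐐 P ⊓ 𝐂[zpowers t] := le_inf ((H1.map_frattini_mono hT.pgrp inf_le_left).trans
    (hv.frattini_le hT)) ((frattiniOf_le C).trans inf_le_right)
  have z1 := omegaOneCenter_le_centralizer p T
  have nC : T ≤ 𝐍[frattiniOf C] := s1.trans (sup_le (le_normalizer_of_le_centralizer (le_centralizer_iff.1
    ((f1.trans inf_le_left).trans hv.core_le))) (le_normalizer_frattiniOf le_normalizer))
  refine ⟨res, ?_, fun _ a ha => ?_⟩
  · have h1 : frattiniOf T ≤ 𝐙 T ⊔ frattiniOf C := frattiniOf_le_of_sup' Fact.out ((sup_comm _ _).ge.trans' s1)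
      inf_le_left (hv.le_syl hT) ((inf_le_left.trans hT.le).trans nV)
      (le_normalizer_sup (le_normalizer_omegaOneCenter le_normalizer) nC)
      ((commutator_le_frattiniOf hC).trans le_sup_right)
      (by rw [commutator_comm]; exact ((commutator_mono le_rfl inf_le_left).trans (hv.commutator_le hT)).trans le_sup_left)
      (by rw [le_centralizer_iff_commutator.1 hv.comm]; exact bot_le)
      (fun a ha => mem_sup_right (pow_mem_frattiniOf hC ha)) fun a ha => by rw [hv.pow ha]; exact one_mem _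
    refine ((commutator_mono h1 le_rfl).trans (commutator_sup_left_le ((omegaOneCenter_le p T).trans nC) le_normalizer
      ?_ (commutator_le_left_of_le_normalizer nC))).trans (f1.trans e2)
    rw [le_centralizer_iff_commutator.1 z1]; exact bot_le
  · obtain ⟨v, hv', c, hc, rfl⟩ := (mem_sup_of_le_normalizer_left ((inf_le_left.trans hT.le).trans nV)).1 (s1 ha)
    have h1 := hv.commutator_le hT (commutator_mem_commutator hv' hc.1)
    rw [← inv_mem_iff, commutatorElement_inv, mem_omegaOneCenter] at h1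
    have h2 := mem_centralizer_iff'.1 h1.2.1
    rw [mul_pow_of_class_two Fact.out hp (h2 c hc.1).symm (h2 v (hv.le_syl hT hv')).symm h1.2.2, hv.pow hv', one_mul]
    exact e2 (f1 (pow_mem_frattiniOf hC hc))

/-- `L` covers or equals `K` in the Chermak-Delgado lattice of `S` -/
structure Cov (S K L : Subgroup G) : Prop where
  l : RCD S K
  r : RCD S L
  le : K ≤ L
  cov : ∀ X, RCD S X → K ≤ X → X ≤ L → X = K ∨ X = L

namespace Cov

theorem norm (h : Cov S K L) : L ≤ 𝐍[K] := h.l.le_normalizer h.r h.le h.cov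

theorem sup (h : Cov S K L) (hA : RCD S A) (h1 : K ≤ A) : Cov S A (A ⊔ L) := by
  refine ⟨hA, hA.sup h.r, le_sup_left, fun X hX h2 h3 => ?_⟩
  have e := hA.modular h.r h2
  rw [inf_eq_right.2 h3] at e
  rcases h.cov _ (h.r.inf hX) (le_inf h.le (h1.trans h2)) inf_le_left with h4 | h4
  · exact .inl (by rw [e, h4, sup_eq_left.2 h1])
  · exact .inr (by rw [e, h4])

theorem perp (h : Cov S K L) : Cov S (S ⊓ 𝐂[L]) (S ⊓ 𝐂[K]) := by
  refine ⟨h.r.perp, h.l.perp, inf_le_inf_left _ (centralizer_anti h.le), fun X hX h1 h2 => ?_⟩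
  refine (h.cov _ hX.perp (le_inf h.l.le (le_centralizer_iff.1 (h2.trans inf_le_right)))
    (h.r.le_of_perp inf_le_left (le_centralizer_iff.1 (inf_le_right.trans (centralizer_anti h1))))).symm.imp ?_ ?_ <;>
    exact fun e => by rw [← e, hX.perp_perp]

theorem cj_of_le (h : Cov S K L) (hD : RCD S D) (h1 : S ⊓ 𝐂[D] ≤ D) (h2 : S ⊓ 𝐂[D] ≤ K) (h3 : L ≤ D)
    (hg : g ∈ 𝐍[D]) : Cov S (cj K g) (cj L g) := by
  have h4 : ∀ g ∈ 𝐍[D], cj (S ⊓ 𝐂[D]) g = S ⊓ 𝐂[D] := fun g hg => by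
    rw [← (hD.cj_of_le h1 hD h1 le_rfl hg).2, cj_eq_of_mem_normalizer hg]
  refine ⟨(hD.cj_of_le h1 h.l h2 (h.le.trans h3) hg).1, (hD.cj_of_le h1 h.r (h2.trans h.le) h3 hg).1, cj_mono h.le g,
    fun X hX h5 h6 => ?_⟩
  have h7 := (hD.cj_of_le h1 hX (h4 g hg ▸ (cj_mono h2 g).trans h5) (h6.trans (cj_le_of_mem_normalizer h3 hg))
    (inv_mem hg)).1
  exact (h.cov _ h7 (cj_le_iff.1 h5) (le_cj_iff.1 h6)).imp (fun e => by rw [← e, cj_inv_cj]) fun e => by
    rw [← e, cj_inv_cj]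

theorem le_cent (h : Cov S X Y) (hD : RCD S D) (e : S ⊓ 𝐂[D] = X) (h1 : Y ≤ D) (nD : S ≤ 𝐍[D]) (hA : RCD S A)
    (eA : S ⊓ 𝐂[A] = A) : ⁅Y, D⁆ ≤ 𝐂[A] := by
  have hXD := h.le.trans h1
  have cA : A ≤ 𝐂[A] := eA.ge.trans inf_le_right
  have cX : X ≤ 𝐂[D] := e.ge.trans inf_le_right
  have eD : S ⊓ 𝐂[X] = D := e ▸ hD.perp_perp
  have hB := h.l.sup (hA.inf hD)
  rw [le_centralizer_iff_commutator]
  rcases h.cov _ (h.r.inf hB) (le_inf h.le le_sup_left) inf_le_left with h2 | h2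
  · have h3 : S ⊓ 𝐂[Y] ⊔ S ⊓ 𝐂[X ⊔ A ⊓ D] = D := by rw [← h.r.perp_inf hB, h2, eD]
    have h4 : S ⊓ 𝐂[X ⊔ A ⊓ D] ≤ X ⊔ A ⊓ D := by
      rw [centralizer_sup, ← inf_assoc, eD]
      have := hA.perp_inf hD
      rw [eA, e, sup_comm] at this
      exact (le_inf ((inf_le_inf_right _ hD.le).trans this.le) inf_le_left).trans (h.l.modular hA hXD).le
    have h5 : ⁅Y, D⁆ ≤ ⁅Y, A ⊓ D⁆ := commutator_le_of_le_sup (B := A ⊓ D) (C := S ⊓ 𝐂[Y] ⊔ X) (h3.ge.trans
      (sup_le (le_sup_left.trans le_sup_right) (h4.trans (sup_le (le_sup_right.trans le_sup_right) le_sup_left))))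
      (sup_le inf_le_right (cX.trans (centralizer_anti h1))) (by
        have := h.perp.norm
        rw [eD] at this
        exact inf_le_right.trans (h.r.perp_perp ▸ le_normalizer_inf (le_normalizer_of_le hD.le)
          (le_normalizer_centralizer this)))
    have h6 : ⁅A, Y⁆ ≤ 𝐂[A ⊓ D] := by
      have := (h.sup (hA.sup h.l) le_sup_right).norm
      refine (commutator_mono le_sup_left le_sup_right).trans ((commutator_le_left_of_le_normalizer this).trans
        (sup_le (cA.trans (centralizer_anti inf_le_left)) (cX.trans (centralizer_anti inf_le_right))))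
    refine le_bot_iff.1 ((commutator_mono h5 le_rfl).trans (three_subgroups_bot ?_
      (le_centralizer_iff_commutator.1 h6)).le)
    rw [le_centralizer_iff_commutator.1 (inf_le_left.trans cA), commutator_bot_left]
  · have h3 : Y ≤ X ⊔ A ⊓ D := h2.ge.trans inf_le_right
    have h4 : Y ≤ A ⊓ Y ⊔ X := by
      rw [sup_comm, ← h.l.modular hA h.le]; exact le_inf (h3.trans (sup_le_sup_left inf_le_left _)) le_rfl
    have h5 : ⁅Y, D⁆ ≤ ⁅A ⊓ Y, D⁆ := by
      rw [commutator_comm, commutator_comm (A ⊓ Y)]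
      exact commutator_le_of_le_sup h4 cX ((inf_le_left.trans hA.le).trans nD)
    have h6 : ⁅D, A⁆ ≤ 𝐂[A ⊓ Y] := by
      have h7 := h.perp
      rw [eD] at h7
      exact (commutator_mono le_sup_right le_sup_left).trans ((commutator_le_right_of_le_normalizer
        (h7.sup (hA.sup h7.l) le_sup_right).norm).trans
        (sup_le (cA.trans (centralizer_anti inf_le_left)) (inf_le_right.trans (centralizer_anti inf_le_right))))
    refine le_bot_iff.1 ((commutator_mono h5 le_rfl).trans (three_subgroups_bot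
      (le_centralizer_iff_commutator.1 h6) ?_).le)
    rw [le_centralizer_iff_commutator.1 (cA.trans (centralizer_anti inf_le_left)), commutator_bot_left]

end Cov

/-- `T` is generated by self-centralizing members of its Chermak-Delgado lattice -/
structure CDH (p : ℕ) (T : Subgroup G) : Prop where
  rcd : RCD T T
  gen : T ≤ sSup {A | RCD T A ∧ T ⊓ 𝐂[A] = A}
  ea : T ⊓ 𝐂[T] ≤ omegaOneCenter p T

omit [Finite G] in
theorem CDH.map {G' : Type*} [Group G'] {f : G →* G'} (hf : Function.Injective f) (h : CDH p T) :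
    CDH p (T.map f) := by
  refine ⟨h.rcd.map_injective hf, (map_mono h.gen).trans (map_le_iff_le_comap.2 (sSup_le fun A hA =>
    map_le_iff_le_comap.1 (le_sSup ⟨hA.1.map_injective hf, by rw [← map_centralizer_inf hf, hA.2]⟩))), ?_⟩
  rw [← map_centralizer_inf hf, ← map_omegaOneCenter hf]; exact map_mono h.ea

omit [Finite G] in
theorem CDH.center_eq (h : CDH p T) : T ⊓ 𝐂[T] = 𝐙 T :=
  le_antisymm h.ea (le_inf (omegaOneCenter_le p T) (omegaOneCenter_le_centralizer p T))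

theorem CDH.le_cent (c : CDH p T) (h : Cov T X Y) (hD : RCD T D) (e : T ⊓ 𝐂[D] = X) (h1 : Y ≤ D) (nD : T ≤ 𝐍[D]) :
    ⁅Y, D⁆ ≤ 𝐂[T] :=
  le_centralizer_iff.1 (c.gen.trans (sSup_le fun _ hA => le_centralizer_iff.1 (h.le_cent hD e h1 nD hA.1 hA.2)))

variable [Fact p.Prime]

namespace Vtx
variable (h : Vtx p P) (hT : SylIn p T P) (c : CDH p T)
include h hT c

theorem rcd_core : RCD T (𝐐 P) ∧ T ⊓ 𝐂[𝐐 P] = 𝐕 P := by
  obtain ⟨F, _, _, ⟨N⟩⟩ := h
  exact N.rcd_core hT c.rcd (c.ea.trans hT.omegaOneCenter_le_scc)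

theorem rcd : RCD T (𝐕 P) := (h.rcd_core hT c).2 ▸ (h.rcd_core hT c).1.perp

theorem cov : Cov T (𝐙 T) (𝐕 P) := by
  refine ⟨c.center_eq ▸ c.rcd.perp, h.rcd hT c, hT.omegaOneCenter_le_scc, fun X hX h1 h2 => ?_⟩
  by_cases h3 : T ⊓ 𝐂[X] ≤ 𝐐 P
  · exact .inr (le_antisymm h2 (hX.le_of_perp (h.le_syl hT) (h3.trans h.core_le)))
  · exact .inl (le_antisymm (h.fix_eq hT inf_le_left h3 ▸ le_inf h2 (le_centralizer_iff.1 inf_le_right)) h1)

theorem le_cent_of_cov (hX : P ≤ 𝐍[X]) (h1 : Cov T X Y) (hV : 𝐕 P ≤ X) (h2 : Y ≤ T ⊓ 𝐂[X]) :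
    ⁅Y, T ⊓ 𝐂[X]⁆ ≤ 𝐂[P] := by
  have hD := h1.l.perp
  have e : T ⊓ 𝐂[X] = 𝐐 P ⊓ 𝐂[X] := by
    rw [← h.inf_cent hT, inf_assoc, inf_eq_right.2 (centralizer_anti hV)]
  have nD : P ≤ 𝐍[T ⊓ 𝐂[X]] := e ▸ le_normalizer_inf (le_normalizer_pCoreOf p P) (le_normalizer_centralizer hX)
  obtain ⟨g, hg, eg⟩ := h.exists_gen hT hT
  have key : ∀ g ∈ P, ⁅Y, T ⊓ 𝐂[X]⁆ ≤ 𝐂[H24.cj T g] := fun g hg => by
    have h3 := h1.cj_of_le hD (h1.l.perp_perp.le.trans (h1.le.trans h2)) h1.l.perp_perp.le h2 (nD (inv_mem hg))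
    rw [cj_eq_of_mem_normalizer (hX (inv_mem hg))] at h3
    have h4 := c.le_cent h3 hD h1.l.perp_perp (cj_le_of_mem_normalizer h2 (nD (inv_mem hg))) (hT.le.trans nD)
    rw [← cj_centralizer, le_cj_iff, cj_commutator, cj_eq_of_mem_normalizer (nD (inv_mem hg))]
    exact h4
  rw [← eg, centralizer_sup]
  exact le_inf (key g hg) (by simpa only [cj_one] using key 1 (one_mem _))

end Vtx

/-- the characteristic subgroup that obstructs the exceptional configurations -/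
def sZero (q : ℕ) (T : Subgroup G) : Subgroup G :=
  if q = 2 then ⁅frattiniOf T, T⁆ ⊔ frattiniOf (frattiniOf T) else if q = 3 then
    ⁅⁅frattiniOf T, T⁆, T⁆ ⊔ frattiniOf (frattiniOf T) else ⁅frattiniOf T, T⁆ ⊔ powerClosure q 1 T

omit [Finite G] [Fact p.Prime] in
theorem map_sZero {G' : Type*} [Group G'] {f : G →* G'} (hf : Function.Injective f) (T : Subgroup G) :
    (sZero p T).map f = sZero p (T.map f) := by
  have : (powerClosure p 1 T).map f = powerClosure p 1 (T.map f) := by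
    rw [powerClosure, powerClosure, MonoidHom.map_closure]; congr 1; ext y
    constructor
    · rintro ⟨_, ⟨x, hx, rfl⟩, rfl⟩; exact ⟨_, mem_map_of_mem f hx, map_pow f _ _⟩
    · rintro ⟨_, ⟨x, hx, rfl⟩, rfl⟩; exact ⟨_, ⟨x, hx, rfl⟩, map_pow f _ _⟩
  unfold sZero
  split_ifs <;> simp only [Subgroup.map_sup, map_commutator, map_frattiniOf hf, this]

theorem O1.sZero_le (h : O1 p P T) (hv : Vtx p P) (hT : SylIn p T P) : sZero p T ≤ 𝐂[pResidualOf p P] := by
  unfold sZero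
  split_ifs with h2 h3
  · exact sup_le h.fc (h.f2 hv hT)
  · exact sup_le ((commutator_le_left_of_le_normalizer (right_le_normalizer_commutator _ _)).trans h.fc) (h.f2 hv hT)
  · refine sup_le h.fc ((closure_le _).2 ?_)
    rintro _ ⟨x, hx, rfl⟩
    rw [pow_one]; exact h.pw h2 x hx

omit [Finite G] [Fact p.Prime] in
theorem O2.sZero_le (h : O2 p P T) : sZero p T ≤ 𝐂[pResidualOf p P] := by
  rw [sZero, if_neg (by have := h.three; omega), if_pos h.three]; exact sup_le h.fc h.f2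

theorem sym_of_cdh (hG : Vtx p P) (hH : Vtx p H) (sG : SylIn p T P) (sH : SylIn p T H) (c : CDH p T)
    (a1 : 𝐕 H ≤ 𝐐 P) (a2 : 𝐕 P ≤ 𝐐 H) (nH : H ≤ 𝐍[𝐕 P ⊔ 𝐕 H]) (nG : ¬ P ≤ 𝐍[𝐕 P ⊔ 𝐕 H]) : O1 p H T := by
  obtain ⟨qG, pG⟩ := hG.rcd_core sG c
  obtain ⟨qH, pH⟩ := hH.rcd_core sH c
  have vG := hG.rcd sG c
  have vH := hH.rcd sH c
  have cG := hG.cov sG c
  have cH := hH.cov sH c
  have nQ := le_normalizer_pCoreOf p P
  have nQ' := le_normalizer_pCoreOf p H
  have nV := le_normalizer_scc p P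
  have nV' := le_normalizer_scc p H
  have c1 : Cov T (𝐕 P) (𝐕 P ⊔ 𝐕 H) := cH.sup vG cG.le
  have x1 : 𝐕 P ⊔ 𝐕 H ≤ 𝐐 P := sup_le hG.le_core a1
  have eD : T ⊓ 𝐂[𝐕 P ⊔ 𝐕 H] = 𝐐 P ⊓ 𝐐 H := by
    rw [centralizer_sup, inf_inf_distrib_left, hG.inf_cent sG, hH.inf_cent sH]
  have n0 : ¬ 𝐕 H ≤ 𝐕 P := fun e => nG (by rwa [sup_eq_left.2 e])
  have i0 : 𝐕 P ⊓ 𝐕 H = 𝐙 T := (cH.cov _ (vG.inf vH) (le_inf cG.le cH.le) inf_le_right).resolve_right fun e =>
    n0 (e.ge.trans inf_le_left)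
  have s0 : T ≤ 𝐐 P ⊔ 𝐐 H := by
    rw [← hG.inf_cent sG, ← hH.inf_cent sH, ← vG.perp_inf vH, i0]
    exact le_inf le_rfl (le_centralizer_omegaOneCenter p T)
  have r1 : ⁅𝐕 H, T⁆ ≤ ⁅𝐕 H, 𝐐 P⁆ := commutator_le_of_le_sup s0 hH.core_le (sG.pCoreOf_le.trans (sH.le.trans nV'))
  have r2 : ⁅𝐕 H, 𝐐 P⁆ ≤ 𝐂[P] := by
    have := hG.le_cent_of_cov sG c nV c1 le_rfl (hG.inf_cent sG ▸ x1)
    rw [hG.inf_cent sG] at this
    exact (commutator_mono le_sup_right le_rfl).trans this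
  obtain ⟨g, hg, h1⟩ := SetLike.not_le_iff_exists.1 nG
  have c2 := c1.cj_of_le qG (pG ▸ hG.le_core) pG.le x1 (nQ hg)
  rw [cj_sup, cj_eq_of_mem_normalizer (nV hg)] at c2
  set W := cj (𝐕 H) g with hW
  have w1 : W ≤ 𝐐 P := cj_le_of_mem_normalizer a1 (nQ hg)
  have w2 : ⁅W, 𝐐 P⁆ = ⁅𝐕 H, 𝐐 P⁆ := by
    conv_lhs => rw [← cj_eq_of_mem_normalizer (nQ hg), ← cj_commutator]
    exact cj_eq_of_mem_normalizer (le_normalizer_of_le_centralizer (le_centralizer_iff.1 r2) hg)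
  have w3 : ¬ W ≤ 𝐕 P ⊔ 𝐕 H := fun e => h1 (mem_normalizer_of_cj_le (by
    rw [cj_sup, cj_eq_of_mem_normalizer (nV hg)]; exact sup_le le_sup_left e))
  have i1 : (𝐕 P ⊔ 𝐕 H) ⊓ (𝐕 P ⊔ W) = 𝐕 P := (c2.cov _ (c1.r.inf c2.r) (le_inf le_sup_left le_sup_left)
    inf_le_right).resolve_right fun e => w3 (le_sup_right.trans (e.ge.trans inf_le_left))
  have s1 : 𝐐 P = 𝐐 P ⊓ 𝐐 H ⊔ T ⊓ 𝐂[𝐕 P ⊔ W] := by rw [← eD, ← c1.r.perp_inf c2.r, i1, hG.inf_cent sG]
  have hD : RCD T (𝐐 P ⊓ 𝐐 H) := qG.inf qH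
  have nD : H ≤ 𝐍[𝐐 P ⊓ 𝐐 H] := by
    rw [← eD, show T ⊓ 𝐂[𝐕 P ⊔ 𝐕 H] = 𝐐 H ⊓ 𝐂[𝐕 P ⊔ 𝐕 H] by
      rw [← hH.inf_cent sH, inf_assoc, inf_eq_right.2 (centralizer_anti le_sup_right)]]
    exact le_normalizer_inf nQ' (le_normalizer_centralizer nH)
  have wab : W ≤ 𝐂[W] := by rw [← cj_centralizer]; exact cj_mono hH.comm g
  have w4 : ¬ W ≤ 𝐐 H := fun e => by
    have c3 := c2.sup c1.r le_sup_left
    have := hH.le_cent_of_cov sH c nH c3 le_sup_right (eD ▸ sup_le (le_inf x1 (sup_le a2 hH.le_core))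
      (sup_le (le_inf hG.le_core a2) (le_inf w1 e)))
    rw [eD] at this
    refine hH.not_commutator_le sH le_rfl (hH.not_le_core sH) (r1.trans (w2.ge.trans (le_trans ?_
      ((commutator_mono (le_sup_right.trans le_sup_right) le_rfl).trans this))))
    refine (commutator_mono le_rfl s1.le).trans (commutator_sup_right_le (right_le_normalizer_commutator _ _) ?_ le_rfl ?_)
    · refine le_normalizer_commutator (le_normalizer_of_le_centralizer (inf_le_right.trans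
        (centralizer_anti le_sup_right))) (inf_le_left.trans (sH.le.trans nD))
    · rw [le_centralizer_iff_commutator'.1 (inf_le_right.trans (centralizer_anti le_sup_right))]; exact bot_le
  have wT : W ≤ T := w1.trans sG.pCoreOf_le
  have s2 : T ≤ W ⊔ 𝐐 H := by
    have c4 := cH.perp
    rw [hH.inf_cent sH] at c4
    have := (c4.cov _ (c2.r.sup qH) le_sup_right (le_inf (c2.r.sup qH).le ((c2.r.sup qH).le.trans
      (le_centralizer_omegaOneCenter p T)))).resolve_left fun e => w4 ((le_sup_right.trans le_sup_left).trans e.le)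
    exact (le_inf le_rfl (le_centralizer_omegaOneCenter p T)).trans (this.ge.trans (sup_le (sup_le
      (a2.trans le_sup_right) le_sup_left) le_sup_right))
  have z1 : ⁅𝐐 P, W⁆ ≤ 𝐙 T := by
    rw [commutator_comm, w2]; exact (commutator_mono le_rfl sG.pCoreOf_le).trans (hH.commutator_le sH)
  have d1 : ⁅𝐐 H, W⁆ ≤ 𝐐 P ⊓ 𝐐 H := le_inf ((commutator_mono le_rfl w1).trans (commutator_le_right_of_le_normalizer
    ((sH.pCoreOf_le.trans sG.le).trans nQ))) (commutator_le_left_of_le_normalizer ((wT.trans sH.le).trans nQ'))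
  have res : ⁅𝐐 H, pResidualOf p H⁆ ≤ 𝐕 H := by
    have h2 := hH.residual_le sH wT w4
    have h3 := (commutator_mono le_rfl h2).trans (le_centMod_of_ncl (wT.trans sH.le) nQ' nD d1)
    have h4 := (commutator_mono le_rfl h2).trans (le_centMod_of_ncl (wT.trans sH.le) nD nV'
      (((commutator_mono inf_le_left le_rfl).trans z1).trans cH.le))
    exact commutator_le_of_pResidual (pResidualOf_idem p H) (pGrpMod_of_isPGroup ((isPGroup_pCoreOf p H).to_le
      (h3.trans inf_le_right)) _) ((commutator_mono h3 le_rfl).trans h4)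
      ((h3.trans (inf_le_right.trans (pCoreOf_le p H))).trans nV') ((pResidualOf_le p H).trans nV')
  by_cases hp : p = 2
  swap; · exact O1.of_res hp hH sH res
  have fr : frattiniOf (𝐐 H) ≤ 𝐂[pResidualOf p H] :=
    frattiniOf_le_cent Fact.out res (le_centralizer_iff.1 hH.core_le) hH.le_core fun _ => hH.pow
  have nF : T ≤ 𝐍[frattiniOf (𝐐 H)] := le_normalizer_frattiniOf (sH.le.trans nQ')
  have wp : ∀ w ∈ W, w ^ p = 1 := (isEA_iff.1 (isEA_cj hH.ea g)).2
  have s3 : 𝐐 P ⊓ 𝐐 H ≤ 𝐕 H ⊔ T ⊓ 𝐂[W] := by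
    have c5 := c2.perp
    rw [hG.inf_cent sG] at c5
    have h2 := (c5.cov _ (vH.sup c5.l) le_sup_right (sup_le a1 c5.le)).resolve_left fun e => w4
      (hH.le_core_of sH wT (le_centralizer_iff.1 ((le_sup_left.trans e.le).trans (inf_le_right.trans
        (centralizer_anti le_sup_right)))))
    exact inf_le_left.trans (h2.ge.trans (sup_le_sup_left (inf_le_inf_left _ (centralizer_anti le_sup_right)) _))
  have d2 : ⁅𝐐 H, W⁆ ≤ 𝐂[W] := commutator_le.2 fun a ha e he => by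
    have zW : 𝐙 T ≤ 𝐂[W] := (omegaOneCenter_le_centralizer p T).trans (centralizer_anti wT)
    by_cases h2 : e ∈ 𝐐 H
    · have h3 : (𝐕 P ⊔ W) ⊓ 𝐐 H = 𝐕 P := (c2.cov _ (c2.r.inf qH) (le_inf le_sup_left a2) inf_le_left).resolve_right
        fun e => w4 (le_sup_right.trans (e.ge.trans inf_le_right))
      rw [← inv_mem_iff, commutatorElement_inv]
      exact zW (hG.commutator_le sG (commutator_mem_commutator (h3.le ⟨mem_sup_right he, h2⟩) (sH.pCoreOf_le ha)))
    have h3 := d1 (commutator_mem_commutator ha he)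
    obtain ⟨x, hx, d, hd, e1⟩ := (mem_sup_of_le_normalizer_left (inf_le_left.trans (sH.le.trans nV'))).1 (s3 h3)
    have h4 : ⁅⁅a, e⁆, e⁆ = ⁅a, e⁆ ^ p := by
      have : e⁻¹ = e := by rw [inv_eq_iff_mul_eq_one, ← sq, ← hp, wp e he]
      have h5 : e * e = 1 := by rw [← this, inv_mul_eq_one, this]
      simp only [hp, sq, commutatorElement_def, _root_.mul_inv_rev, inv_inv, this, mul_assoc, h5, mul_one]
    have h5 : ⁅⁅a, e⁆, e⁆ = ⁅x, e⁆ := by
      rw [e1, commutatorElement_def, commutatorElement_def, mul_assoc x d, ← mem_centralizer_iff'.1 hd.2 e he]; group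
    have h6 : ⁅x, e⁆ ∈ 𝐂[H] := hH.le_cent sH (X := zpowers _) (zpowers_le.2 (h5 ▸ omegaOneCenter_le_centralizer p T
      (z1 (commutator_mem_commutator h3.1 he)))) (zpowers_le.2 (fr (h5 ▸ h4 ▸ pow_mem_frattiniOf
        (isPGroup_pCoreOf p H) h3.2))) (mem_zpowers _)
    exact e1 ▸ mul_mem (zW (hH.mem_of_comm sH (wT he) h2 hx h6)) hd.2
  have f0 := commutator_le_frattiniOf (isPGroup_pCoreOf p H)
  have f1 : frattiniOf T ≤ frattiniOf (𝐐 H) ⊔ ⁅𝐐 H, W⁆ := frattiniOf_le_of_sup' Fact.out s2 wT sH.pCoreOf_le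
    ((wT.trans sH.le).trans nQ') (le_normalizer_sup nF (s2.trans (sup_le (right_le_normalizer_commutator _ _)
      (left_le_normalizer_commutator _ _)))) (by rw [le_centralizer_iff_commutator.1 wab]; exact bot_le)
    ((commutator_comm _ _).le.trans le_sup_right) (f0.trans le_sup_left) (fun a ha => by rw [wp a ha]; exact one_mem _)
    fun a ha => mem_sup_left (pow_mem_frattiniOf (isPGroup_pCoreOf p H) ha)
  refine ⟨res, ((commutator_mono f1 le_rfl).trans (commutator_sup_left_le le_normalizer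
    (((d1.trans inf_le_right).trans sH.pCoreOf_le).trans nF) (commutator_le_left_of_le_normalizer nF)
    ((commutator_mono le_rfl s2).trans (commutator_sup_right_le (wT.trans nF) (sH.pCoreOf_le.trans nF) ?_
      ((commutator_mono (d1.trans inf_le_right) le_rfl).trans f0))))).trans fr, fun e => (e hp).elim⟩
  rw [le_centralizer_iff_commutator.1 d2]; exact bot_le

/-- a vertex that is not of exceptional type -/
structure Good (p : ℕ) (P T : Subgroup G) : Prop where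
  vtx : Vtx p P
  syl : SylIn p T P
  cdh : CDH p T
  ne : ¬ sZero p T ≤ 𝐂[pResidualOf p P]

theorem Good.map {G' : Type u} [Group G'] {f : G →* G'} (hf : Function.Injective f) (h : Good p P T) :
    Good p (P.map f) (T.map f) :=
  ⟨h.vtx.map hf, h.syl.map_injective hf, h.cdh.map hf, fun e => h.ne (le_cent_of_map hf (by
    rwa [map_sZero hf, map_pResidualOf_injective hf]))⟩

theorem Good.of_syl (h : Good p P T) (g : G) (hT : SylIn p S (cj P g)) : Good p (cj P g) S := by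
  obtain ⟨k, hk, rfl⟩ := (h.syl.cj g).exists_cj_eq hT
  have : Good p (cj (cj P g) k) (cj (cj T g) k) := (h.map (MulAut.conj g).injective).map (MulAut.conj k).injective
  rwa [cj_eq_of_mem hk] at this

theorem exists_cl_of_good (h0 : Good p P T) :
    ∃ Y, RCD T Y ∧ T ⊓ 𝐂[Y] ≤ Y ∧ ∀ R, Good p R T → R ≤ 𝐍[Y] := by
  let 𝒱 : Set (Subgroup G) := {E | ∃ R g, Good p R T ∧ E = cj R g}
  have hc : ∀ R ∈ 𝒱, ∀ g, cj R g ∈ 𝒱 := by
    rintro _ ⟨R, k, hR, rfl⟩ g; exact ⟨R, _, hR, cj_cj _ _ _⟩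
  have h1 : ∀ R, Good p R T → R ∈ 𝒱 := fun R hR => ⟨R, 1, hR, (cj_one R).symm⟩
  have h2 : ∀ E ∈ 𝒱, ∀ S, SylIn p S E → Good p E S := by rintro _ ⟨R, g, hR, rfl⟩ S hS; exact hR.of_syl g hS
  rcases amalgam (p := p) (𝒱 := 𝒱) (by rintro _ ⟨R, g, hR, rfl⟩; exact hR.vtx.cj g) hc (fun ha H hH P hP S sH sP n =>
    ⟨P, hP, sP, fun e => (h2 H hH S sH).ne ((sym_of_cdh (h2 P hP S sP).vtx (h2 H hH S sH).vtx sP sH (h2 P hP S sP).cdh
      (ha H hH P hP S sH sP) (ha P hP H hH S sP sH) e (sup_comm (𝐕 H) _ ▸ n)).sZero_le (h2 H hH S sH).vtx sH)⟩) with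
    h3 | ⟨E, hE, _, _, S, h3⟩ | ⟨E, hE, _, _, S, h3⟩
  rotate_left
  · exact ((h2 E hE S h3.s₀).ne (h3.o1.sZero_le h3.v₀ h3.s₀)).elim
  · exact ((h2 E hE S h3.s₀).ne h3.o2.sZero_le).elim
  set L := sSup {R | Good p R T}
  have l1 : L ≤ nearSub p hc (h1 P h0) := sSup_le fun R hR g hg =>
    ⟨_, (((Near.refl (h1 P h0)).cons (h1 R hR) hR.syl h0.syl).cons (hc _ (h1 P h0) g) (h0.syl.cj g)
      (hR.syl.cj_of_mem hg) :)⟩
  set U := ncl (𝐕 P) L
  have u1 : ∀ R, Good p R T → U ≤ 𝐐 R := fun R hR => ncl_le_iff.2 fun g hg => by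
    obtain ⟨n, hn⟩ := l1 hg
    rw [cj_scc]
    exact h3 _ _ _ (hn.snoc (h1 R hR) h0.syl hR.syl)
  have u2 : ∀ R, Good p R T → R ≤ 𝐍[U] := fun R hR => (le_sSup (s := {R | Good p R T}) hR).trans
    (le_normalizer_ncl _ _)
  have u3 : ∀ R, Good p R T → 𝐕 R ≤ U := fun R hR => hR.syl.scc_eq_ncl ▸ ncl_le
    (h0.syl.omegaOneCenter_le_scc.trans (le_ncl _ _)) (u2 R hR)
  have u4 : U ≤ 𝐂[U] := le_centralizer_iff.1 (ncl_le (le_centralizer_iff.1 ((u1 P h0).trans h0.vtx.core_le))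
    (le_normalizer_centralizer (le_normalizer_ncl _ _)))
  obtain ⟨Y, ⟨y1, y2, y3⟩, y4⟩ := exists_maximal_of_wellFoundedGT (fun Y => RCD T Y ∧ 𝐕 P ≤ Y ∧ Y ≤ U)
    ⟨_, h0.vtx.rcd h0.syl h0.cdh, le_rfl, le_ncl _ _⟩
  have y5 : ∀ X, RCD T X → X ≤ U → X ≤ Y := fun X x1 x2 => le_sup_right.trans
    (y4 ⟨y1.sup x1, y2.trans le_sup_left, sup_le y3 x2⟩ le_sup_left)
  have y6 : U ≤ Y := ncl_le y2 (sSup_le fun R hR => le_normalizer_iff_cj_le.2 fun g hg => by
    obtain ⟨q1, q2⟩ := hR.vtx.rcd_core hR.syl hR.cdh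
    exact y5 _ (q1.cj_of_le (q2 ▸ hR.vtx.le_core) y1 (q2 ▸ y5 _ (hR.vtx.rcd hR.syl hR.cdh) (u3 R hR))
      (y3.trans (u1 R hR)) (le_normalizer_pCoreOf p R hg)).1 (cj_le_of_mem_normalizer y3 (u2 R hR hg)))
  obtain rfl := le_antisymm y6 y3
  refine ⟨_, y1.perp, y1.perp_perp.le.trans (le_inf y1.le u4), fun R hR => ?_⟩
  rw [show T ⊓ 𝐂[U] = 𝐐 R ⊓ 𝐂[U] by
    rw [← hR.vtx.inf_cent hR.syl, inf_assoc, inf_eq_right.2 (centralizer_anti (u3 R hR))]]
  exact le_normalizer_inf (le_normalizer_pCoreOf p R) (le_normalizer_centralizer (u2 R hR))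

omit [Finite G] in
theorem exists_good_amalgam {S : Type u} [Group S] [Finite S] (s : Finset (Subgroup S)) :
    ∃ (X : Type u) (_ : Group X) (_ : Finite X) (f : S →* X), Function.Injective f ∧ ∀ R ∈ s,
      (∃ (G : Type u) (_ : Group G) (_ : Finite G) (τ : S →* G), Function.Injective τ ∧ Good p ⊤ τ.range ∧
        ¬ (R.map τ).Normal) → ∃ P, Good p P f.range ∧ ¬ P ≤ 𝐍[R.map f] := by
  classical
  induction s using Finset.induction with
  | empty => exact ⟨S, _, ‹_›, MonoidHom.id S, fun _ _ => id, by simp⟩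
  | insert R s _ ih =>
    obtain ⟨X, _, _, f, hf, h⟩ := ih
    by_cases hR : ∃ (G : Type u) (_ : Group G) (_ : Finite G) (τ : S →* G), Function.Injective τ ∧
      Good p ⊤ τ.range ∧ ¬ (R.map τ).Normal
    swap
    · exact ⟨X, _, ‹_›, f, hf, fun R' hR' h' => h R' ((Finset.mem_insert.1 hR').resolve_left (by
        rintro rfl; exact hR h')) h'⟩
    obtain ⟨G, _, _, τ, hτ, h1, h2⟩ := hR
    obtain ⟨Y, _, _, φ, ψ, hφ, hψ, e⟩ := exists_amalgam hf hτ
    have e' : φ.comp f = ψ.comp τ := MonoidHom.ext e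
    have key : ∀ {H : Type u} [Group H] (φ : H →* Y), Function.Injective φ → ∀ A B : Subgroup H,
        A.map φ ≤ 𝐍[B.map φ] → A ≤ 𝐍[B] := fun φ hφ A B h => by
      simpa only [comap_map_eq_self_of_injective hφ] using comap_le_normalizer_comap φ h
    refine ⟨Y, _, ‹_›, φ.comp f, hφ.comp hf, fun R' hR' h' => ?_⟩
    rcases Finset.mem_insert.1 hR' with rfl | hR'
    · refine ⟨_, e' ▸ MonoidHom.map_range ψ τ ▸ h1.map hψ, fun h3 => h2 (top_le_normalizer_iff.1 (key ψ hψ _ _ ?_))⟩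
      rwa [map_map, ← e']
    · obtain ⟨P, h3, h4⟩ := h R' hR' h'
      exact ⟨_, MonoidHom.map_range φ f ▸ h3.map hφ, fun h5 => h4 (key φ hφ _ _ (by rwa [map_map]))⟩

omit [Finite G] in
/-- the second member of a pushing up pair -/
theorem exists_char_cl (p : ℕ) [Fact p.Prime] (S : Type u) [Group S] [Finite S] :
    ∃ R : Subgroup S, R.Characteristic ∧ (∃ Y ≤ R, CL Y) ∧ ∀ (G : Type u) [Group G] [Finite G] (τ : S →* G),
      Function.Injective τ → Good p ⊤ τ.range → (R.map τ).Normal := by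
  let 𝒩 : Set (Subgroup S) := {R | ∀ (G : Type u) [Group G] [Finite G] (τ : S →* G), Function.Injective τ →
    Good p ⊤ τ.range → (R.map τ).Normal}
  refine ⟨sSup 𝒩, characteristic_iff_map_le.2 fun σ => map_le_iff_le_comap.2 (sSup_le fun R hR =>
    map_le_iff_le_comap.1 (le_sSup fun G _ _ τ hτ h => ?_)), ?_, fun G _ _ τ hτ h => ?_⟩
  · rw [map_map]
    refine hR G _ (hτ.comp σ.injective) ?_
    rwa [← MonoidHom.map_range, MonoidHom.range_eq_top_of_surjective _ σ.surjective, ← MonoidHom.range_eq_map]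
  · by_cases h : ⊤ ∈ 𝒩
    · obtain ⟨Y, hY⟩ := exists_cl S
      exact ⟨Y, le_top.trans (le_sSup h), hY⟩
    haveI := Fintype.ofFinite (Subgroup S)
    obtain ⟨X, _, _, f, hf, h1⟩ := exists_good_amalgam (p := p) (Finset.univ : Finset (Subgroup S))
    have h2 : ∀ R, R ∉ 𝒩 → ∃ P, Good p P f.range ∧ ¬ P ≤ 𝐍[R.map f] := fun R hR => h1 R (Finset.mem_univ R) (by
      by_contra! h3; exact hR fun G _ _ τ hτ h4 => h3 G _ ‹_› τ hτ h4)
    obtain ⟨P, hP, -⟩ := h2 ⊤ h
    obtain ⟨Y, y1, y2, y3⟩ := exists_cl_of_good hP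
    obtain ⟨Y, rfl⟩ := exists_map_subtype y1.le
    let e := MonoidHom.ofInjective hf
    have e1 : (Y.map e.symm.toMonoidHom).map f = Y.map f.range.subtype := by
      rw [map_map]; congr 1; ext x; exact MonoidHom.apply_ofInjective_symm hf x
    refine ⟨Y.map e.symm.toMonoidHom, le_sSup (by_contra fun h3 => ?_), ?_⟩
    · obtain ⟨R, h4, h5⟩ := h2 _ h3
      exact h5 (e1 ▸ y3 R h4)
    · have h3 := cl_iff_map.2 ⟨y1, y2⟩
      have h4 : RCD ⊤ Y := ⟨le_top, fun K _ => by simpa only [top_inf_eq, cdm] using h3.cdl K⟩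
      have h5 := h4.map_injective e.symm.injective (f := e.symm.toMonoidHom)
      rw [map_top_of_surjective _ e.symm.surjective] at h5
      refine ⟨fun K => by simpa only [top_inf_eq, cdm] using h5.max K le_top, ?_⟩
      have := map_centralizer_inf e.symm.injective (f := e.symm.toMonoidHom) ⊤ Y
      rw [map_top_of_surjective _ e.symm.surjective, top_inf_eq, top_inf_eq] at this
      exact this ▸ map_mono h3.le
  · refine normal_of_forall_cj_le fun g => ?_
    rw [cj_le_iff, map_le_iff_le_comap]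
    refine sSup_le fun R hR => map_le_iff_le_comap.1 (cj_le_iff.1 ?_)
    haveI := hR G τ hτ h
    rw [cj_eq_of_normal]; exact map_mono (le_sSup hR)

theorem maxCentralProduct_eq (h : CL Y) (hK : Y ≤ K) : maxCentralProduct K = maxCentralProduct G := by
  have e : ∀ R : Subgroup K, Nat.card R * Nat.card (center R) =
      Nat.card (R.map K.subtype) * Nat.card (center (R.map K.subtype)) := fun R => by
    rw [card_center_eq, card_center_eq, card_map_subtype, ← card_map_subtype (R ⊓ _),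
      map_centralizer_inf K.subtype_injective]
  refine le_antisymm (csSup_le ⟨_, ⊥, rfl⟩ ?_) ?_
  · rintro _ ⟨R, rfl⟩
    exact le_csSup (Set.finite_range _).bddAbove ⟨_, (e R).symm⟩
  · rw [← isCentrallyLarge_iff.2 h]
    exact le_csSup (Set.finite_range _).bddAbove ⟨Y.subgroupOf K, by rw [e, map_subgroupOf_eq_of_le hK]⟩

end Cfsg.Agent.H24
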