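import Cfsg.Agent.H24.PU10

/-! Pairs of characteristic subgroups for pushing up. -/

set_option autoImplicit false

namespace Cfsg.Agent.H24

open Subgroup
open scoped commutatorElement

universe u

variable {G : Type u} [Group G] {p : ℕ} {A B H K M P Q S T : Subgroup G}

theorem characteristic_of_map {Φ : ∀ {H : Type u} [Group H], Subgroup H → Subgroup H}
    (h : ∀ {H H' : Type u} [Group H] [Group H'] (f : H →* H'), Function.Injective f → ∀ A, (Φ A).map f = Φ (A.map f)) :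
    (Φ (⊤ : Subgroup G)).Characteristic :=
  characteristic_iff_map_eq.2 fun σ => by rw [h _ σ.injective, map_top_of_surjective _ σ.surjective]

theorem characteristic_subgroupOf_of_eq_top (h : K = ⊤) [hH : H.Characteristic] : (H.subgroupOf K).Characteristic := by
  subst h
  exact characteristic_iff_le_comap.2 fun σ x hx =>
    characteristic_iff_le_comap.1 hH (topEquiv.symm.trans (σ.trans topEquiv)) (x := x) hx

theorem centerThompsonA_top : thompsonSubgroupA G ⊓ 𝐂[thompsonSubgroupA G] = centerThompsonOf 0 ⊤ := by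
  rw [centerThompsonOf, H9.thompsonOf_top, H9.thompsonSubgroupA_eq]

theorem map_powerClosure {G' : Type*} [Group G'] (f : G →* G') (n : ℕ) (T : Subgroup G) :
    (powerClosure p n T).map f = powerClosure p n (T.map f) := by
  rw [powerClosure, powerClosure, MonoidHom.map_closure]; congr 1; ext y
  constructor
  · rintro ⟨_, ⟨x, hx, rfl⟩, rfl⟩; exact ⟨_, mem_map_of_mem f hx, map_pow f _ _⟩
  · rintro ⟨_, ⟨x, hx, rfl⟩, rfl⟩; exact ⟨_, ⟨x, hx, rfl⟩, map_pow f _ _⟩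

variable [Finite G]

theorem MCL.map_equiv' {G' : Type u} [Group G'] [Finite G'] (h : MCL H) (e : G ≃* G') : MCL (H.map e.toMonoidHom) := by
  have := (rmc_top.2 h).map_injective (f := e.toMonoidHom) e.injective
  rwa [map_top_of_surjective _ e.surjective, rmc_top] at this

theorem map_mclJoin_equiv {G' : Type u} [Group G'] [Finite G'] (e : G ≃* G') :
    (minimalCentrallyLargeJoin G).map e.toMonoidHom = minimalCentrallyLargeJoin G' := by
  refine le_antisymm (map_le_iff_le_comap.2 (sSup_le fun _ hR => map_le_iff_le_comap.1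
    (le_sSup (isMinimalCentrallyLarge_iff.2 ((isMinimalCentrallyLarge_iff.1 hR).map_equiv' e)))))
    (sSup_le fun R hR => le_trans ?_ (map_mono (le_sSup (isMinimalCentrallyLarge_iff.2
      ((isMinimalCentrallyLarge_iff.1 hR).map_equiv' e.symm)))))
  exact fun x hx => ⟨_, mem_map_of_mem _ hx, e.apply_symm_apply x⟩

theorem maxOmega_le_equiv {G' : Type u} [Group G'] [Finite G'] (e : G ≃* G') :
    maxOmegaCenterOfMinimalCL p G ≤ maxOmegaCenterOfMinimalCL p G' := by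
  obtain ⟨H, h1, h2⟩ := exists_maxOmega p G
  rw [← h2, ← card_map_of_injective (f := e.toMonoidHom) e.injective, map_omegaOneCenter e.injective]
  exact le_maxOmega (h1.map_equiv' e)

theorem map_frattiniJoin_le {G' : Type u} [Group G'] [Finite G'] (e : G ≃* G') :
    (frattiniOfMinimalCLJoin p G).map e.toMonoidHom ≤ frattiniOfMinimalCLJoin p G' :=
  map_le_iff_le_comap.2 (iSup_le fun R => map_le_iff_le_comap.1 (by
    refine le_trans ?_ (le_iSup _ ⟨R.1.map e.toMonoidHom, isMinimalCentrallyLarge_iff.2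
      ((isMinimalCentrallyLarge_iff.1 R.2.1).map_equiv' e), ?_⟩)
    · exact (map_frattiniOf e.injective _).le
    · rw [← map_omegaOneCenter e.injective, card_map_of_injective e.injective, R.2.2]
      exact le_antisymm (maxOmega_le_equiv e) (maxOmega_le_equiv e.symm)))

theorem map_frattiniJoin_equiv {G' : Type u} [Group G'] [Finite G'] (e : G ≃* G') :
    (frattiniOfMinimalCLJoin p G).map e.toMonoidHom = frattiniOfMinimalCLJoin p G' :=
  le_antisymm (map_frattiniJoin_le e) fun x hx =>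
    ⟨_, map_frattiniJoin_le e.symm (mem_map_of_mem _ hx), e.apply_symm_apply x⟩

variable [Fact p.Prime]

theorem R1.not_norm (h : R1 p P S M) : ¬ P ≤ 𝐍[S] := h.min.not_le_normalizer le_rfl h.min.le

theorem R1.not_comm (h : R1 p P S M) : ¬ S ≤ 𝐂[S] := fun e => h.not_norm (by
  rw [le_antisymm ((le_inf h.syl.le (e.trans (centralizer_anti h.syl.pCoreOf_le))).trans h.charP) h.syl.pCoreOf_le]
  exact le_normalizer_pCoreOf p P)

theorem R1.case_thompson (h : R1 p P S M) :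
    ⁅centerThompsonOf 0 S, S⁆ ⊓ 𝐂[S] ≤ 𝐂[P] ∨ P ≤ 𝐍[S ⊓ 𝐂[centerThompsonOf 0 S]] := by
  have h0 := (commutator_le_of_le (H9.centerThompsonOf_le 0 S) le_rfl : _ ≤ S)
  rw [← omegaOne_zero (centerThompsonOf 0 _)] at h0 ⊢
  rcases h.cases 0 with h1 | ⟨h1, -⟩ | ⟨F, _, _, N, h1, A, hA, h2⟩
  · exact .inl ((inf_le_inf_right _ h0).trans (by rw [← omegaOneCenter_zero]; exact le_centralizer_iff.1 h1))
  · exact .inr h1
  · exact .inl (N.le_cent_of_residual h.syl inf_le_right (inf_le_left.trans (N.baumann_cent h.syl h1 hA h2)))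

theorem R1.case_power (h : R1 p P S M) (hJ : S ≤ 𝐂[centerThompsonAOf S]) : powerClosure p 1 (S ⊓ 𝐂[S]) ≤ 𝐂[P] := by
  refine (closure_le _).2 ?_
  rintro _ ⟨x, hx, rfl⟩
  rcases h.cases' hJ with h1 | h1 | ⟨F, _, _, ⟨N⟩⟩
  · exact pow_mem (le_centralizer_iff.1 h1 hx) _
  · exact (h.not_norm h1).elim
  · haveI := N.charF
    simpa using (N.pow_mem (p := p) (le_ncl _ _ hx)).2

theorem R1.case_mcl (h : R1 p P S M) (hJ : S ≤ 𝐂[centerThompsonAOf S]) (hK : RMC S K) :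
    S ⊓ 𝐂[S] ⊓ ⁅K, K⁆ ≤ 𝐂[P] ∨ P ≤ 𝐍[sSup {R | RMC S R}] := by
  rcases h.cases' hJ with h1 | h1 | ⟨F, _, _, ⟨N⟩⟩
  · exact .inl (inf_le_left.trans (le_centralizer_iff.1 h1))
  · exact (h.not_norm h1).elim
  · exact N.rmc_cases h.syl (rcd_self hJ) (le_ncl _ _) hK

theorem R1.case_good (h : R1 p P S M) (hJ : S ≤ 𝐂[centerThompsonAOf S]) (c : CDH p S) :
    S ⊓ 𝐂[S] ⊓ sZero p S ≤ 𝐂[P] ∨ Good p P S := by
  rcases h.cases' hJ with h1 | h1 | ⟨F, _, _, ⟨N⟩⟩
  · exact .inl (inf_le_left.trans (le_centralizer_iff.1 h1))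
  · exact (h.not_norm h1).elim
  rw [c.center_eq, ← h.syl.scc_eq_ncl] at N
  by_cases h1 : sZero p S ≤ 𝐂[pResidualOf p P]
  · exact .inl (N.le_cent_of_residual h.syl (inf_le_left.trans inf_le_right) (inf_le_right.trans h1))
  · exact .inr ⟨⟨F, _, ‹_›, ⟨N⟩⟩, h.syl, c, h1⟩

theorem sZero_eq_bot_iff (hG : IsPGroup p G) : sZero p (⊤ : Subgroup G) = ⊥ ↔ IsElementaryAbelian p (frattini G) ∧
    (p = 2 → frattini G ≤ center G) ∧ (p = 3 → frattini G ≤ Subgroup.upperCentralSeries G 2) ∧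
    (3 < p → frattini G ≤ center G ∧ ∀ g : G, g ^ p = 1) := by
  have e1 : frattiniOf (frattini G) = ⊥ ↔ IsElementaryAbelian p (frattini G) := ⟨fun h => isEA_iff.2
    ⟨le_centralizer_iff_commutator.2 (le_bot_iff.1 (h ▸ commutator_le_frattiniOf (hG.to_subgroup _))),
      fun a ha => mem_bot.1 (h ▸ pow_mem_frattiniOf (hG.to_subgroup _) ha)⟩, fun h => le_bot_iff.1
    (H1.map_frattini_le Fact.out (le_centralizer_iff_commutator.1 (isEA_iff.1 h).1).le (isEA_iff.1 h).2)⟩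
  have e2 : ∀ A : Subgroup G, ⁅A, ⊤⁆ = ⊥ ↔ A ≤ center G := fun A => by
    rw [← le_centralizer_iff_commutator, centralizer_top']
  have e3 : ⁅⁅frattini G, (⊤ : Subgroup G)⁆, (⊤ : Subgroup G)⁆ = ⊥ ↔ frattini G ≤ Subgroup.upperCentralSeries G 2 := by
    rw [e2, commutator_le, ← Subgroup.upperCentralSeries_one]
    exact ⟨fun h a ha => Subgroup.mem_upperCentralSeries_succ_iff.2 fun b => h a ha b (mem_top b),
      fun h a ha b _ => Subgroup.mem_upperCentralSeries_succ_iff.1 (h ha) b⟩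
  have e4 : powerClosure p 1 (⊤ : Subgroup G) = ⊥ ↔ ∀ g : G, g ^ p = 1 := by
    rw [powerClosure, closure_eq_bot_iff]
    exact ⟨fun h g => h ⟨g, mem_top g, by rw [pow_one]⟩, by rintro h _ ⟨g, -, rfl⟩; simpa using h g⟩
  have h2 := (Fact.out : p.Prime).two_le
  rw [sZero, frattiniOf_top]
  split_ifs with h h' <;> rw [sup_eq_bot_iff]
  · rw [e1, e2]; exact ⟨fun ⟨a, b⟩ => ⟨b, fun _ => a, by omega, by omega⟩, fun ⟨a, b, _⟩ => ⟨b h, a⟩⟩
  · rw [e1, e3]; exact ⟨fun ⟨a, b⟩ => ⟨b, by omega, fun _ => a, by omega⟩, fun ⟨a, _, b, _⟩ => ⟨b h', a⟩⟩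
  · rw [e2, e4]
    exact ⟨fun ⟨a, b⟩ => ⟨isEA_iff.2 ⟨a.trans (center_le_centralizer _), fun g _ => b g⟩, by omega, by omega,
      fun _ => ⟨a, b⟩⟩, fun ⟨_, _, _, a⟩ => a (by omega)⟩

omit [Fact p.Prime] in
theorem cd_of_mcl_comm (hJ : ⊤ ≤ 𝐂[centerThompsonAOf (⊤ : Subgroup G)]) (hQ : MCL Q) (hc : IsMulCommutative Q) :
    thompsonSubgroupA G = ⊤ ∧ CDL (⊤ : Subgroup G) ∧ ∀ A ∈ maxAbelianSubgroups G, CDL A ∧ 𝐂[A] = A := by
  have h1 : ∀ A ∈ maxAbelianSubgroups G, CL A := fun A hA => ((hQ.iff_maxAbelian hc).2 hA).cl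
  have h2 : CL (thompsonSubgroupA G) := cl_sSup h1 ⟨Q, (hQ.iff_maxAbelian hc).1 hQ⟩
  rw [H9.centerThompsonAOf_eq, ← centerThompsonA_top, inf_eq_right.2 h2.le, h2.cdl.centralizer_centralizer,
    top_le_iff] at hJ
  exact ⟨hJ, hJ ▸ h2.cdl, fun A hA => ⟨(h1 A hA).cdl, centralizer_eq_of_maxAbelian hA⟩⟩

omit [Finite G] [Fact p.Prime] in
theorem rcd_top : RCD ⊤ H ↔ CDL H :=
  ⟨fun h K => by simpa only [top_inf_eq, cdm] using h.max K le_top,
    fun h => ⟨le_top, fun K _ => by simpa only [top_inf_eq, cdm] using h K⟩⟩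

end Cfsg.Agent.H24
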