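import Mathlib

/-! Subgroups of a power of a non-abelian simple group: products and products of diagonals. -/

set_option autoImplicit false

namespace Cfsg.Agent.H24.Sco

open Subgroup
open scoped commutatorElement

variable {T ι : Type*} [Group T] [IsSimpleGroup T] [DecidableEq ι]

theorem cen (na : ¬ IsMulCommutative T) {t : T} (h : ∀ s, s * t = t * s) : t = 1 := by
  rcases IsSimpleGroup.eq_bot_or_eq_top_of_normal (center T) inferInstance with e | e
  · have : t ∈ center T := mem_center_iff.2 h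
    rwa [e, mem_bot] at this
  · exact absurd ⟨⟨fun a b => mem_center_iff.1 (e ▸ mem_top b : b ∈ center T) a⟩⟩ na

theorem perf (na : ¬ IsMulCommutative T) : ⁅(⊤ : Subgroup T), (⊤ : Subgroup T)⁆ = ⊤ := by
  rcases IsSimpleGroup.eq_bot_or_eq_top_of_normal ⁅(⊤ : Subgroup T), (⊤ : Subgroup T)⁆
    inferInstance with e | e
  · refine absurd ⟨⟨fun a b => ?_⟩⟩ na
    have : ⁅a, b⁆ ∈ ⁅(⊤ : Subgroup T), (⊤ : Subgroup T)⁆ :=
      commutator_mem_commutator (mem_top a) (mem_top b)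
    rw [e, mem_bot] at this
    exact commutatorElement_eq_one_iff_mul_comm.1 this
  · exact e

theorem single_mem (na : ¬ IsMulCommutative T) (L : Subgroup (ι → T)) [hL : L.Normal]
    {x : ι → T} (hx : x ∈ L) {i : ι} (hi : x i ≠ 1) (t : T) : Pi.mulSingle i t ∈ L := by
  have hn : (L.comap (MonoidHom.mulSingle (fun _ : ι => T) i)).Normal := hL.comap _
  rcases IsSimpleGroup.eq_bot_or_eq_top_of_normal _ hn with e | e
  · refine absurd (cen na fun s => ?_) hi
    have h1 : ⁅(Pi.mulSingle i s : ι → T), x⁆ ∈ L := by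
      rw [commutatorElement_def, mul_assoc _ _ x⁻¹]
      have := hL.conj_mem x hx (Pi.mulSingle i s)
      rw [← mul_assoc]
      exact L.mul_mem this (L.inv_mem hx)
    have h2 : ⁅(Pi.mulSingle i s : ι → T), x⁆ = Pi.mulSingle i ⁅s, x i⁆ := by
      funext j
      by_cases hj : j = i
      · subst hj; simp [commutatorElement_def]
      · simp [commutatorElement_def, Pi.mulSingle_eq_of_ne hj]
    have h3 : ⁅s, x i⁆ ∈ L.comap (MonoidHom.mulSingle (fun _ : ι => T) i) := by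
      rw [h2] at h1; exact h1
    rw [e, mem_bot] at h3
    exact commutatorElement_eq_one_iff_mul_comm.1 h3
  · have : t ∈ L.comap (MonoidHom.mulSingle (fun _ : ι => T) i) := e ▸ mem_top t
    simpa using this

omit [IsSimpleGroup T] in
theorem eq_top_of_single [Finite ι] (L : Subgroup (ι → T)) (h : ∀ i t, Pi.mulSingle i t ∈ L) :
    L = ⊤ := by
  have := Fintype.ofFinite ι
  rw [eq_top_iff]
  intro x _
  have hx := Finset.noncommProd_mulSingle x
  rw [← hx]
  exact Subgroup.noncommProd_mem _ _ fun i _ => by simpa using h i (x i)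

/-- an automorphism permutes the coordinate kernels -/
theorem exists_perm [Finite ι] (na : ¬ IsMulCommutative T) (φ : MulAut (ι → T)) (i : ι) :
    ∃ j, ∀ x, φ x j = 1 ↔ x i = 1 := by
  obtain ⟨t0, ht0⟩ := exists_ne (1 : T)
  let f : (ι → T) →* T := (Pi.evalMonoidHom (fun _ : ι => T) i).comp φ.symm.toMonoidHom
  have hf : ∀ x, f (φ x) = x i := fun x => by simp [f]
  have hne : f.ker ≠ ⊤ := fun e => by
    have : φ (Pi.mulSingle i t0) ∈ f.ker := e ▸ mem_top _
    rw [MonoidHom.mem_ker, hf] at this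
    exact ht0 (by simpa using this)
  have : ∃ j t, Pi.mulSingle j t ∉ f.ker := by
    by_contra hc
    push Not at hc
    exact hne (eq_top_of_single _ hc)
  obtain ⟨j, t, ht⟩ := this
  have h1 : ∀ x, x i = 1 → φ x j = 1 := fun x hx => by
    by_contra hc
    exact ht (single_mem na f.ker (x := φ x) (by rw [MonoidHom.mem_ker, hf, hx]) hc t)
  refine ⟨j, fun x => ⟨fun hx => ?_, h1 x⟩⟩
  by_contra hc
  let g : (ι → T) →* T := (Pi.evalMonoidHom (fun _ : ι => T) j).comp φ.toMonoidHom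
  have hg : ∀ x, g x = φ x j := fun x => rfl
  have h2 : g.ker = ⊤ := eq_top_of_single _ fun k s => by
    by_cases hk : k = i
    · subst hk
      exact single_mem na g.ker (x := x) (by rw [MonoidHom.mem_ker, hg, hx]) hc s
    · rw [MonoidHom.mem_ker, hg]
      exact h1 _ (Pi.mulSingle_eq_of_ne (Ne.symm hk) _)
  have : φ.symm (Pi.mulSingle j t0) ∈ g.ker := h2 ▸ mem_top _
  rw [MonoidHom.mem_ker, hg] at this
  exact ht0 (by simpa using this)

variable {M : Subgroup (ι → T)}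

omit [DecidableEq ι] in
theorem img (hs : ∀ i t, ∃ y ∈ M, y i = t) {i j : ι} (h : ¬ ∀ y ∈ M, y i = 1 ↔ y j = 1) (t : T) :
    ∃ y ∈ M, y j = 1 ∧ y i = t := by
  have key : ∀ i j : ι, (∀ y ∈ M, y j = 1 → y i = 1) ∨ ∀ t, ∃ y ∈ M, y j = 1 ∧ y i = t := by
    intro i j
    let D : Subgroup T := (M ⊓ (Pi.evalMonoidHom (fun _ : ι => T) j).ker).map
      (Pi.evalMonoidHom (fun _ : ι => T) i)
    have hD : ∀ t, t ∈ D ↔ ∃ y ∈ M, y j = 1 ∧ y i = t := fun t => by
      simp [D, mem_map, and_assoc]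
    have hn : D.Normal := ⟨fun n hn g => by
      obtain ⟨y, hy, h1, h2⟩ := (hD n).1 hn
      obtain ⟨z, hz, h3⟩ := hs i g
      exact (hD _).2 ⟨z * y * z⁻¹, M.mul_mem (M.mul_mem hz hy) (M.inv_mem hz), by simp [h1],
        by simp [h2, h3]⟩⟩
    rcases IsSimpleGroup.eq_bot_or_eq_top_of_normal D hn with e | e
    · left
      intro y hy h1
      have := (hD (y i)).2 ⟨y, hy, h1, rfl⟩
      rwa [e, mem_bot] at this
    · exact Or.inr fun t => (hD t).1 (e ▸ mem_top t)
  rcases key i j with h1 | h1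
  · rcases key j i with h2 | h2
    · exact absurd (fun y hy => ⟨h2 y hy, h1 y hy⟩) h
    · exfalso
      obtain ⟨t0, ht0⟩ := exists_ne (1 : T)
      obtain ⟨y, hy, h3⟩ := hs i t0
      obtain ⟨z, hz, h4, h5⟩ := h2 (y j)
      have := h1 (z⁻¹ * y) (M.mul_mem (M.inv_mem hz) hy) (by simp [h5])
      exact ht0 (by simpa [h3, h4] using this)
  · exact h1 t

theorem img_fin (na : ¬ IsMulCommutative T) (hs : ∀ i t, ∃ y ∈ M, y i = t) (i : ι) (S : Finset ι)
    (h : ∀ j ∈ S, ¬ ∀ y ∈ M, y i = 1 ↔ y j = 1) (t : T) :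
    ∃ y ∈ M, (∀ j ∈ S, y j = 1) ∧ y i = t := by
  induction S using Finset.induction_on generalizing t with
  | empty => obtain ⟨y, hy, e⟩ := hs i t; exact ⟨y, hy, by simp, e⟩
  | insert j S hj ih =>
    let D : Subgroup T :=
      { carrier := {t | ∃ y ∈ M, (∀ k ∈ insert j S, y k = 1) ∧ y i = t}
        mul_mem' := by
          rintro _ _ ⟨y, hy, h1, rfl⟩ ⟨z, hz, h2, rfl⟩
          exact ⟨y * z, M.mul_mem hy hz, fun k hk => by simp [h1 k hk, h2 k hk], rfl⟩
        one_mem' := ⟨1, M.one_mem, by simp, rfl⟩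
        inv_mem' := by
          rintro _ ⟨y, hy, h1, rfl⟩
          exact ⟨y⁻¹, M.inv_mem hy, fun k hk => by simp [h1 k hk], rfl⟩ }
    have : ⁅(⊤ : Subgroup T), (⊤ : Subgroup T)⁆ ≤ D := by
      rw [commutator_le]
      intro a _ b _
      obtain ⟨y, hy, h1, h2⟩ := ih (fun k hk => h k (Finset.mem_insert_of_mem hk)) a
      obtain ⟨z, hz, h3, h4⟩ := img hs (h j (Finset.mem_insert_self _ _)) b
      refine ⟨⁅y, z⁆, ?_, fun k hk => ?_, by simp [commutatorElement_def, h2, h4]⟩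
      · rw [commutatorElement_def]
        exact M.mul_mem (M.mul_mem (M.mul_mem hy hz) (M.inv_mem hy)) (M.inv_mem hz)
      · rcases Finset.mem_insert.1 hk with rfl | hk
        · simp [commutatorElement_def, h3]
        · simp [commutatorElement_def, h1 k hk]
    rw [perf na] at this
    exact this (mem_top t)

theorem surj_fin (na : ¬ IsMulCommutative T) (hs : ∀ i t, ∃ y ∈ M, y i = t) (S : Finset ι)
    (h : ∀ i ∈ S, ∀ j ∈ S, i ≠ j → ¬ ∀ y ∈ M, y i = 1 ↔ y j = 1) (x : ι → T) :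
    ∃ y ∈ M, ∀ j ∈ S, y j = x j := by
  induction S using Finset.induction_on with
  | empty => exact ⟨1, M.one_mem, by simp⟩
  | insert i S hi ih =>
    obtain ⟨y, hy, h1⟩ := ih fun a ha b hb =>
      h a (Finset.mem_insert_of_mem ha) b (Finset.mem_insert_of_mem hb)
    obtain ⟨z, hz, h2, h3⟩ := img_fin na hs i S (fun j hj =>
      h i (Finset.mem_insert_self _ _) j (Finset.mem_insert_of_mem hj)
        (fun e => hi (e ▸ hj))) ((y i)⁻¹ * x i)
    refine ⟨y * z, M.mul_mem hy hz, fun j hj => ?_⟩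
    rcases Finset.mem_insert.1 hj with rfl | hj
    · simp [h3]
    · simp [h1 j hj, h2 j hj]

omit [IsSimpleGroup T] [DecidableEq ι] in
theorem exists_theta (hs : ∀ i t, ∃ y ∈ M, y i = t) {i j : ι} (h : ∀ y ∈ M, y i = 1 ↔ y j = 1) :
    ∃ θ : T ≃* T, ∀ y ∈ M, θ (y i) = y j := by
  let f : M →* T := (Pi.evalMonoidHom (fun _ : ι => T) i).comp M.subtype
  let g : M →* T := (Pi.evalMonoidHom (fun _ : ι => T) j).comp M.subtype
  have hf : Function.Surjective f := fun t => by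
    obtain ⟨y, hy, e⟩ := hs i t; exact ⟨⟨y, hy⟩, e⟩
  have hg : Function.Surjective g := fun t => by
    obtain ⟨y, hy, e⟩ := hs j t; exact ⟨⟨y, hy⟩, e⟩
  have hk : f.ker = g.ker := by
    ext y; exact h y y.2
  refine ⟨(QuotientGroup.quotientKerEquivOfSurjective f hf).symm.trans
    ((QuotientGroup.quotientMulEquivOfEq hk).trans
      (QuotientGroup.quotientKerEquivOfSurjective g hg)), fun y hy => ?_⟩
  have : (QuotientGroup.quotientKerEquivOfSurjective f hf).symm (y i) =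
      QuotientGroup.mk (⟨y, hy⟩ : M) := by
    rw [MulEquiv.symm_apply_eq]; rfl
  rw [MulEquiv.trans_apply, this]
  rfl

/-- the dichotomy -/
theorem main [Finite ι] [Nonempty ι] (na : ¬ IsMulCommutative T) (A : Subgroup (MulAut (ι → T)))
    (hM : M ≠ ⊤) (hA : ∀ φ ∈ A, ∀ x ∈ M, φ x ∈ M)
    (hmax : ∀ X : Subgroup (ι → T), M ≤ X → (∀ φ ∈ A, ∀ x ∈ X, φ x ∈ X) → X = M ∨ X = ⊤)
    (hmin : ∀ X : Subgroup (ι → T), X.Normal → (∀ φ ∈ A, ∀ x ∈ X, φ x ∈ X) → X = ⊥ ∨ X = ⊤) :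
    ∃ e : (ι → T) ≃* (ι → T),
      (∃ K : ι → Subgroup T, (∀ i, K i ≠ ⊤) ∧ ∀ x, x ∈ M ↔ ∀ i, e x i ∈ K i) ∨
      ∃ (k : ℕ) (c : ι → ι), 2 ≤ k ∧
        (∀ j, Nat.card {i // c i = j} = k ∨ Nat.card {i // c i = j} = 0) ∧
        ∀ x, x ∈ M ↔ ∀ i j, c i = c j → e x i = e x j := by
  obtain ⟨t0, ht0⟩ := exists_ne (1 : T)
  have back : ∀ φ : MulAut (ι → T), ∀ j, ∃ i, ∀ x, φ x j = 1 ↔ x i = 1 := fun φ j => by
    obtain ⟨i, hi⟩ := exists_perm na φ⁻¹ j
    exact ⟨i, fun x => by rw [← hi (φ x)]; simp⟩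
  have tr : ∀ i j, ∃ φ ∈ A, ∀ x, φ x j = 1 ↔ x i = 1 := by
    intro i j
    let L : Subgroup (ι → T) :=
      { carrier := {x | ∀ j, (∃ φ ∈ A, ∀ x, φ x j = 1 ↔ x i = 1) → x j = 1}
        mul_mem' := fun {a b} ha hb j hj => by simp [ha j hj, hb j hj]
        one_mem' := fun _ _ => rfl
        inv_mem' := fun {a} ha j hj => by simp [ha j hj] }
    have hL : ∀ x, x ∈ L ↔ ∀ j, (∃ φ ∈ A, ∀ x, φ x j = 1 ↔ x i = 1) → x j = 1 := fun _ => Iff.rfl
    have hn : L.Normal := ⟨fun n hn g => (hL _).2 fun j hj => by simp [(hL n).1 hn j hj]⟩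
    rcases hmin L hn (fun ψ hψ x hx => (hL _).2 fun j ⟨φ, hφ, h⟩ => by
      obtain ⟨k, hk⟩ := back ψ j
      refine (hk x).2 ((hL x).1 hx k ⟨ψ⁻¹ * φ, A.mul_mem (A.inv_mem hψ) hφ, fun y => ?_⟩)
      rw [← h y, ← hk]; simp) with e | e
    · by_contra hc
      have : (Pi.mulSingle j t0 : ι → T) ∈ L := (hL _).2 fun k hk =>
        Pi.mulSingle_eq_of_ne (fun e : k = j => hc (e ▸ hk)) _
      rw [e, mem_bot] at this
      exact ht0 (by simpa using congrFun this j)
    · have : (Pi.mulSingle i t0 : ι → T) ∈ L := e ▸ mem_top _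
      exact absurd (by simpa using (hL _).1 this i ⟨1, A.one_mem, fun x => by simp⟩) ht0
  by_cases hs : ∀ i t, ∃ y ∈ M, y i = t
  swap
  · push Not at hs
    obtain ⟨i0, t, ht⟩ := hs
    let K : ι → Subgroup T := fun i => M.map (Pi.evalMonoidHom (fun _ : ι => T) i)
    have hK : ∀ i s, s ∈ K i ↔ ∃ y ∈ M, y i = s := fun i s => by simp [K, mem_map]
    have hX : Subgroup.pi Set.univ K = M := by
      refine (hmax _ (fun x hx => (mem_pi _).2 fun i _ => (hK _ _).2 ⟨x, hx, rfl⟩)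
        (fun φ hφ x hx => (mem_pi _).2 fun j _ => ?_)).resolve_right fun e => ?_
      · obtain ⟨i, hi⟩ := back φ j
        obtain ⟨y, hy, h1⟩ := (hK _ _).1 ((mem_pi _).1 hx i trivial)
        refine (hK _ _).2 ⟨φ y, hA φ hφ y hy, ?_⟩
        have := (hi (y⁻¹ * x)).2 (by simp [h1])
        rw [map_mul, map_inv, Pi.mul_apply, Pi.inv_apply, inv_mul_eq_one] at this
        exact this
      · have : (fun _ => t) ∈ Subgroup.pi Set.univ K := e ▸ mem_top _
        obtain ⟨y, hy, h1⟩ := (hK _ _).1 ((mem_pi _).1 this i0 trivial)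
        exact ht y hy h1
    refine ⟨MulEquiv.refl _, Or.inl ⟨K, fun j e => ?_, fun x => ?_⟩⟩
    · obtain ⟨φ, hφ, h⟩ := tr i0 j
      obtain ⟨y, hy, h1⟩ := (hK j (φ (fun _ => t) j)).1 (e ▸ mem_top _)
      refine ht (φ⁻¹ y) (hA _ (A.inv_mem hφ) y hy) ?_
      have := (h ((φ⁻¹ y)⁻¹ * fun _ => t)).1 (by simp [h1])
      rw [Pi.mul_apply, Pi.inv_apply, inv_mul_eq_one] at this
      exact this
    · rw [← hX, mem_pi]; simp
  let s : Setoid ι := ⟨fun i j => ∀ y ∈ M, y i = 1 ↔ y j = 1,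
    ⟨fun _ _ _ => Iff.rfl, fun h y hy => (h y hy).symm, fun h h' y hy => (h y hy).trans (h' y hy)⟩⟩
  let c : ι → ι := fun i => (Quotient.mk s i).out
  have hc : ∀ i j, c i = c j ↔ ∀ y ∈ M, y i = 1 ↔ y j = 1 := fun i j => by
    simp only [c, Quotient.out_inj]
    exact Quotient.eq
  have hcc : ∀ i, c (c i) = c i := fun i => by simp [c]
  choose θ hθ using fun i => exists_theta hs ((hc i (c i)).1 (hcc i).symm)
  let e : (ι → T) ≃* (ι → T) := MulEquiv.piCongrRight θ
  have he : ∀ x i, e x i = θ i (x i) := fun _ _ => rfl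
  have hmem : ∀ x, x ∈ M ↔ ∀ i j, c i = c j → e x i = e x j := fun x => by
    refine ⟨fun hx i j hij => by rw [he, he, hθ i x hx, hθ j x hx, hij], fun hx => ?_⟩
    have := Fintype.ofFinite ι
    obtain ⟨y, hy, h1⟩ := surj_fin na hs (Finset.univ.filter fun i => c i = i)
      (fun i hi j hj hij h => hij (by
        rw [← (Finset.mem_filter.1 hi).2, ← (Finset.mem_filter.1 hj).2]; exact (hc i j).2 h)) (e x)
    have : y = x := e.injective (funext fun i => by
      rw [he, hθ i y hy, h1 (c i) (by simp [hcc]), hx (c i) i (hcc i)])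
    exact this ▸ hy
  have hle : ∀ i j, Nat.card {k // c k = c i} ≤ Nat.card {k // c k = c j} := fun i j => by
    obtain ⟨φ, hφ, h⟩ := tr i j
    choose σ hσ using exists_perm na φ
    refine Nat.card_le_card_of_injective (fun k => ⟨σ k.1, (hc _ _).2 fun y hy => ?_⟩)
      fun k l hkl => Subtype.ext ?_
    · have h1 := (hc _ _).1 k.2 (φ⁻¹ y) (hA _ (A.inv_mem hφ) y hy)
      rw [← hσ, ← h] at h1
      simpa using h1
    · have h1 : σ k.1 = σ l.1 := congrArg Subtype.val hkl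
      by_contra hne
      have h2 := (hσ l.1 (Pi.mulSingle k.1 t0)).2 (Pi.mulSingle_eq_of_ne (Ne.symm hne) _)
      rw [← h1, hσ] at h2
      exact ht0 (by simpa using h2)
  obtain ⟨i0⟩ := ‹Nonempty ι›
  refine ⟨e, Or.inr ⟨Nat.card {k // c k = c i0}, c, ?_, fun j => ?_, hmem⟩⟩
  · by_contra hlt
    refine hM (eq_top_iff.2 fun x _ => (hmem x).2 fun i j hij => ?_)
    have h1 : Nat.card {k // c k = c j} ≤ 1 := (hle j i0).trans (by omega)
    have h2 := Finite.card_le_one_iff_subsingleton.1 h1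
    have h3 : (⟨i, hij⟩ : {k // c k = c j}) = ⟨j, rfl⟩ := Subsingleton.elim _ _
    rw [show i = j from congrArg Subtype.val h3]
  · by_cases hj : ∃ i, c i = j
    · obtain ⟨i, rfl⟩ := hj
      exact Or.inl (le_antisymm (hle _ _) (hle _ _))
    · right
      have : IsEmpty {i // c i = j} := ⟨fun i => hj ⟨i.1, i.2⟩⟩
      exact Nat.card_of_isEmpty

end Cfsg.Agent.H24.Sco
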