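import Cfsg.Agent.H24.Misc2
import Cfsg.Prelude.Def_SylowChains

/-!
Control of Sylow intersections by a family of subgroups.
-/

set_option autoImplicit false

namespace Cfsg.Agent.H24

open Subgroup Relation
open scoped commutatorElement Pointwise

theorem rtg_iff_fin {α : Type*} {r : α → α → Prop} {a b : α} : ReflTransGen r a b ↔
    ∃ (n : ℕ) (c : Fin (n + 1) → α), c 0 = a ∧ c (Fin.last n) = b ∧
      ∀ i : Fin n, r (c i.castSucc) (c i.succ) := by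
  constructor
  · intro h
    induction h with
    | refl => exact ⟨0, fun _ => a, rfl, rfl, fun i => i.elim0⟩
    | @tail B C _ h2 ih =>
      obtain ⟨n, c, h3, h4, h5⟩ := ih
      refine ⟨n + 1, Fin.snoc c C, ?_, by simp, fun i => ?_⟩
      · rw [← h3]; exact Fin.snoc_castSucc (α := fun _ => α) C c 0
      · refine Fin.lastCases ?_ (fun j => ?_) i
        · simpa only [Fin.succ_last, Fin.snoc_last, Fin.snoc_castSucc, h4] using h2
        · simpa only [Fin.succ_castSucc, Fin.snoc_castSucc] using h5 j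
  · rintro ⟨n, c, rfl, rfl, h⟩
    have : ∀ i : Fin (n + 1), ReflTransGen r (c 0) (c i) := fun i =>
      Fin.inductionOn i .refl fun j ih => ih.tail (h j)
    exact this _

theorem rtg_lift {α β : Type*} {r : α → α → Prop} {s : β → β → Prop} (f : α → β)
    (h : ∀ a b, r a b → s (f a) (f b)) {a b : α} (hab : ReflTransGen r a b) :
    ReflTransGen s (f a) (f b) := by
  induction hab with
  | refl => exact .refl
  | tail _ h2 ih => exact ih.tail (h _ _ h2)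

variable {G : Type*} [Group G] {p : ℕ} {𝓕 𝓖 : Set (Subgroup G)}
variable {A B C D E F H K L M N P Q R S T U V W X Y : Subgroup G} {x y z g : G}

theorem subgroupConjRight_eq (g : G) (X : Subgroup G) : subgroupConjRight g X = cj X g⁻¹ := rfl

theorem mem_sylowMembers : X ∈ sylowMembers p 𝓕 S ↔ X ∈ 𝓕 ∧ SylIn p (S ⊓ X) X :=
  and_congr_right fun _ => sylIn_iff_exists.symm

theorem isNormalSet_iff : IsNormalSet 𝓕 ↔ ∀ X ∈ 𝓕, ∀ g, cj X g ∈ 𝓕 :=
  ⟨fun h X hX g => by simpa only [subgroupConjRight_eq, inv_inv] using h X hX g⁻¹,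
    fun h X hX g => h X hX g⁻¹⟩

theorem conjRight_subset_iff {A : Set G} : conjRight g A ⊆ (S : Set G) ↔ closure A ≤ cj S g := by
  rw [closure_le, conjRight, Set.image_subset_iff]
  exact forall₂_congr fun a _ => mem_cj.symm

/-- one step of a chain of Sylow subgroups. -/
def Step (p : ℕ) (𝓕 : Set (Subgroup G)) (D S T : Subgroup G) : Prop :=
  ∃ X ∈ 𝓕, SylIn p (S ⊓ X) X ∧ ∃ x ∈ X, cj S x = T ∧ D ≤ T ⊓ X

/-- a chain of Sylow subgroups. -/
abbrev Link (p : ℕ) (𝓕 : Set (Subgroup G)) (D : Subgroup G) : Subgroup G → Subgroup G → Prop :=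
  ReflTransGen (Step p 𝓕 D)

/-- the family controls the Sylow intersections of `M`. -/
def Ctrl (p : ℕ) (𝓕 : Set (Subgroup G)) (M : Subgroup G) : Prop :=
  ∀ S T D, SylIn p S M → SylIn p T M → D ≤ S → D ≤ T → D ≠ ⊥ → Link p 𝓕 D S T

theorem Step.mono (h : Step p 𝓕 D S T) (h1 : E ≤ D) (h2 : 𝓕 ⊆ 𝓖) : Step p 𝓖 E S T := by
  obtain ⟨X, hX, h3, x, hx, h4, h5⟩ := h
  exact ⟨X, h2 hX, h3, x, hx, h4, h1.trans h5⟩

theorem Link.mono (h : Link p 𝓕 D S T) (h1 : E ≤ D) (h2 : 𝓕 ⊆ 𝓖) : Link p 𝓖 E S T :=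
  rtg_lift id (fun _ _ h => Step.mono h h1 h2) h

theorem Step.cj (h : Step p 𝓕 D S T) (h𝓕 : ∀ X ∈ 𝓕, ∀ g, H24.cj X g ∈ 𝓕) (g : G) :
    Step p 𝓕 (cj D g) (cj S g) (cj T g) := by
  obtain ⟨X, hX, h3, x, hx, rfl, h5⟩ := h
  refine ⟨_, h𝓕 X hX g, cj_inf S X g ▸ h3.cj g, _, conj_mem_cj hx g, ?_, cj_inf _ X g ▸ cj_mono h5 g⟩
  rw [cj_cj, cj_cj, inv_mul_cancel_right]

theorem Link.cj (h : Link p 𝓕 D S T) (h𝓕 : ∀ X ∈ 𝓕, ∀ g, H24.cj X g ∈ 𝓕) (g : G) :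
    Link p 𝓕 (cj D g) (cj S g) (cj T g) :=
  rtg_lift (fun S => H24.cj S g) (fun _ _ h => Step.cj h h𝓕 g) h

theorem subgroupOf_cj (hx : x ∈ M) (S : Subgroup G) :
    cj (S.subgroupOf M) ⟨x, hx⟩ = (cj S x).subgroupOf M := by
  ext y; simp only [mem_cj, mem_subgroupOf]; rfl

theorem Step.subgroupOf (h : Step p 𝓕 D S T) (h𝓕 : ∀ X ∈ 𝓕, X ≤ M) :
    Step p ((fun X : Subgroup G => X.subgroupOf M) '' 𝓕) (D.subgroupOf M) (S.subgroupOf M)
      (T.subgroupOf M) := by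
  obtain ⟨X, hX, h3, x, hx, rfl, h5⟩ := h
  exact ⟨_, ⟨X, hX, rfl⟩, h3.subgroupOf (h𝓕 X hX), ⟨x, h𝓕 X hX hx⟩, hx, subgroupOf_cj _ _,
    comap_mono h5⟩

theorem Step.map_subtype {D S T : Subgroup M}
    (h : Step p ((fun X : Subgroup G => X.subgroupOf M) '' 𝓕) D S T) (h𝓕 : ∀ X ∈ 𝓕, X ≤ M) :
    Step p 𝓕 (D.map M.subtype) (S.map M.subtype) (T.map M.subtype) := by
  obtain ⟨_, ⟨X, hX, rfl⟩, h3, x, hx, rfl, h5⟩ := h
  have h1 := h3.map_subtype
  have h2 := map_mono (f := M.subtype) h5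
  rw [map_inf_eq _ _ _ M.subtype_injective, map_subgroupOf_eq_of_le (h𝓕 X hX)] at h1 h2
  exact ⟨X, hX, h1, x, hx, (map_cj _ _ _).symm, h2⟩

theorem ctrl_subgroupOf_iff (h𝓕 : ∀ X ∈ 𝓕, X ≤ M) :
    Ctrl p ((fun X : Subgroup G => X.subgroupOf M) '' 𝓕) ⊤ ↔ Ctrl p 𝓕 M := by
  constructor
  · intro h S T D hS hT h1 h2 h0
    have h3 := h (S.subgroupOf M) (T.subgroupOf M) (D.subgroupOf M)
      (by simpa using hS.subgroupOf le_rfl) (by simpa using hT.subgroupOf le_rfl) (comap_mono h1)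
      (comap_mono h2) fun he => h0 (by
        rw [← map_subgroupOf_eq_of_le (h1.trans hS.le), he, Subgroup.map_bot])
    have := rtg_lift (fun S => S.map M.subtype) (fun _ _ h => Step.map_subtype h h𝓕) h3
    simpa only [map_subgroupOf_eq_of_le hS.le, map_subgroupOf_eq_of_le hT.le,
      map_subgroupOf_eq_of_le (h1.trans hS.le)] using this
  · intro h S T D hS hT h1 h2 h0
    have h3 := h _ _ _ (by simpa only [map_subtype_top] using hS.map_subtype)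
      (by simpa only [map_subtype_top] using hT.map_subtype)
      (map_mono h1) (map_mono h2) (by rwa [Ne, map_subtype_eq_bot_iff])
    have := rtg_lift (fun S => S.subgroupOf M) (fun _ _ h => Step.subgroupOf h h𝓕) h3
    simpa only [subgroupOf_map_subtype'] using this

theorem controls_iff : ControlsSylowIntersections p 𝓕 ↔ Ctrl p 𝓕 ⊤ := by
  constructor
  · intro h S T D hS hT h1 h2 h0
    obtain ⟨S, rfl⟩ := sylIn_top_iff.mp hS
    obtain ⟨T, rfl⟩ := sylIn_top_iff.mp hT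
    by_cases he : S = T
    · rw [he]
    obtain ⟨n, c, X, x, h3, h4, h5⟩ := h S T he fun hc => h0 (le_bot_iff.mp (hc ▸ le_inf h1 h2))
    refine rtg_iff_fin.mpr ⟨n, fun i => c i, congrArg _ h3, congrArg _ h4, fun i => ?_⟩
    obtain ⟨h6, -, h7, h8, h9⟩ := h5 i
    exact ⟨X i, h6.1, (mem_sylowMembers.mp h6).2, x i, h7, by
      beta_reduce; rw [← h8, subgroupConjRight_eq, cj_inv_cj], (le_inf h1 h2).trans h9⟩
  · intro h S T _ h0
    obtain ⟨n, c, h1, h2, h3⟩ := rtg_iff_fin.mp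
      (h S T _ (sylIn_top S) (sylIn_top T) inf_le_left inf_le_right h0)
    choose X hX h4 x hx h5 h6 using h3
    have h7 : ∀ i, SylIn p (c i) ⊤ := fun i => Fin.inductionOn i (h1 ▸ sylIn_top S) fun j ih =>
      h5 j ▸ ih.cj_of_mem trivial
    refine ⟨n, fun i => (h7 i).toSylowTop, X, x, Sylow.ext h1, Sylow.ext h2, fun i =>
      ⟨mem_sylowMembers.mpr ⟨hX i, h4 i⟩, mem_sylowMembers.mpr ⟨hX i, ?_⟩, hx i, ?_, h6 i⟩⟩
    · have := (h4 i).cj (x i)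
      rwa [cj_inf, h5, cj_eq_of_mem (hx i)] at this
    · rw [subgroupConjRight_eq, SylIn.coe_toSylowTop, SylIn.coe_toSylowTop, ← h5, cj_cj_inv]

theorem mem_functorFamily {f : Subgroup G → Set (Subgroup G)} :
    X ∈ functorFamily p f M ↔ ∃ P, SylIn p P M ∧ ∃ F ∈ f P, X = M ⊓ 𝐍[F] :=
  ⟨fun ⟨P, h⟩ => ⟨_, sylIn_map P, h⟩, fun ⟨_, hP, h⟩ => ⟨hP.toSylow, by rwa [hP.map_toSylow]⟩⟩

theorem isFunctorRegular_iff {f : Subgroup G → Set (Subgroup G)} :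
    IsFunctorRegular p f M ↔ Ctrl p (functorFamily p f M) M :=
  controls_iff.trans (ctrl_subgroupOf_iff fun _ h => by
    obtain ⟨P, -, F, -, rfl⟩ := mem_functorFamily.mp h; exact inf_le_left)

theorem cj_mem_functorFamily_top {f : Subgroup G → Set (Subgroup G)} (hf : IsNormalizerFunctor p f)
    (X : Subgroup G) (h : X ∈ functorFamily p f ⊤) (g : G) : cj X g ∈ functorFamily p f ⊤ := by
  obtain ⟨P, hP, F, hF, rfl⟩ := mem_functorFamily.mp h
  refine mem_functorFamily.mpr ⟨_, hP.cj_of_mem (mem_top g), cj F g, ?_, by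
    rw [cj_inf, cj_top, cj_normalizer]⟩
  rw [← map_conj_eq_cj, (hf P hP.pgrp).2]
  exact ⟨F, hF, rfl⟩

variable [hp : Fact p.Prime] [Finite G]

theorem Step.functor {f : Subgroup G → Set (Subgroup G)} (hf : IsNormalizerFunctor p f)
    (hS : SylIn p S M) (h : Step p (functorFamily p f M) D S T) :
    ∃ P, SylIn p P M ∧ ∃ F ∈ f P, S ≤ 𝐍[F] ∧ ∃ x ∈ M ⊓ 𝐍[F], H24.cj S x = T ∧ D ≤ T := by
  obtain ⟨X, hX, h3, x, hx, h4, h5⟩ := h
  obtain ⟨P, hP, F, hF, rfl⟩ := mem_functorFamily.mp hX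
  refine ⟨P, hP, F, hF, ?_, x, hx, h4, h5.trans inf_le_left⟩
  have h6 := h3.card_le hP.pgrp (le_inf hP.le (le_normalizer.trans ((hf P hP.pgrp).1 F hF).2))
  rw [hP.card_eq hS] at h6
  exact (inf_eq_left.mp (eq_of_le_of_card_le inf_le_left h6)).trans inf_le_right

theorem step_top_of_functor {f : Subgroup G → Set (Subgroup G)} (hP : SylIn p P ⊤) (hF : F ∈ f P)
    (hS : SylIn p S ⊤) (h1 : S ≤ 𝐍[F]) (hx : x ∈ 𝐍[F]) (h2 : D ≤ cj S x) :
    Step p (functorFamily p f ⊤) D S (cj S x) :=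
  ⟨_, mem_functorFamily.mpr ⟨P, hP, F, hF, rfl⟩, by
    rw [top_inf_eq, inf_eq_left.mpr h1]; exact hS.of_le h1 le_top, x, ⟨trivial, hx⟩, rfl,
    le_inf h2 (le_inf le_top (h2.trans (cj_le_of_mem h1 hx)))⟩

theorem Link.functor_top {f : Subgroup G → Set (Subgroup G)} (hf : IsNormalizerFunctor p f)
    (hS : SylIn p S ⊤) (hM : S ≤ M) (h : Link p (functorFamily p f M) D S T) :
    Link p (functorFamily p f ⊤) D S T ∧ SylIn p T ⊤ ∧ T ≤ M := by
  induction h with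
  | refl => exact ⟨.refl, hS, hM⟩
  | tail _ h2 ih =>
    obtain ⟨P, hP, F, hF, h3, x, hx, rfl, h4⟩ := h2.functor hf (ih.2.1.of_le ih.2.2 le_top)
    exact ⟨ih.1.tail (step_top_of_functor (hS.of_card_le hP.pgrp le_top (hP.card_le hS.pgrp hM))
      hF ih.2.1 h3 hx.2 h4), ih.2.1.cj_of_mem trivial, cj_le_of_mem ih.2.2 hx.1⟩

theorem exists_sylow_of_factor (hS : SylIn p S ⊤) (h1 : S ≤ A) (h2 : S ≤ B)
    (h : ∀ g : G, ∃ a ∈ A, ∃ b ∈ B, g = a * b) (g : G) :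
    ∃ U, SylIn p U ⊤ ∧ S ⊓ cj S g ≤ U ∧ U ≤ A ⊓ cj B g := by
  obtain ⟨a, ha, b, hb, rfl⟩ := h g
  obtain ⟨U, hU, h3⟩ := exists_sylIn_le (P := S ⊓ cj S (a * b)) hS.pgrp.to_inf_left
    (inf_le_inf h1 (cj_mono h2 _))
  refine ⟨U, hS.of_card_le hU.pgrp le_top ?_, h3, hU.le⟩
  rw [← card_cj S a]
  refine hU.card_le (IsPGroup.cj hS.pgrp a) (le_inf (cj_le_of_mem h1 ha) ?_)
  rw [← cj_cj, cj_eq_of_mem hb]
  exact cj_mono h2 a

end Cfsg.Agent.H24
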